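import Cfsg.Agent.H5.FusForm2
import Cfsg.Prelude.Def_Classical

/-!
# The fusion systems of `PSp_{2m}` and `PSU_n` in the defining characteristic
-/

set_option autoImplicit false
set_option maxHeartbeats 400000
set_option linter.unusedSectionVars false

namespace Cfsg.Agent.H5.Cl

open Cfsg Cfsg.Agent.L Module Matrix

theorem simple_of_form {K V G : Type*} [Field K] [Finite K] [AddCommGroup V] [Module K V]
    [Group G] [Finite G] {n : ℕ} {σ : K →+* K} {B : V →ₗ[K] V →ₛₗ[σ] K} {f : G →* End K V}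
    {p : ℕ} [Fact p.Prime] [CharP K p] (inj : Function.Injective f) (invol : ∀ a, σ (σ a) = a)
    (skew : ∀ x y, B y x = -σ (B x y)) (tv : ∀ v, ∃ c, B v v = c - σ c)
    (iso : ∀ g x y, B (f g x) (f g y) = B x y) (v : Fin n → V) (hV : finrank K V = n)
    (orth : ∀ i j, j ≠ i.rev → B (v i) (v j) = 0) (ne : ∀ i, B (v i) (v i.rev) ≠ 0)
    (surj : ∀ φ : End K V, (∀ x y, B (φ x) (φ y) = B x y) → LinearMap.det φ = 1 → ∃ g, f g = φ)
    (hn : 4 ≤ n) (hex : (∃ τ, τ + σ τ ≠ 0) ∨ 5 ≤ n ∨ ∃ a : K, a ≠ 0 ∧ a ≠ 1)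
    (hd : ∀ g, LinearMap.det (f g) = 1) (hN : Odd n → ∀ s, σ s = s → ∃ a, a * σ a = s)
    (S : Sylow p (G ⧸ Subgroup.center G)) :
    (groupFusionSystem (S : Subgroup (G ⧸ Subgroup.center G))).IsSimple p := by
  have h1 : LinearIndependent K v := Fintype.linearIndependent_iff.2 fun c hc j => by
    have h2 := congrArg (fun x => B x (v j.rev)) hc
    simp only [map_sum, map_smul, LinearMap.sum_apply, LinearMap.smul_apply, map_zero,
      LinearMap.zero_apply, smul_eq_mul] at h2
    rw [Finset.sum_eq_single j (fun i _ hi => by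
      rw [orth i _ (by simpa using hi.symm), mul_zero]) (by simp)] at h2
    exact (mul_eq_zero.1 h2).resolve_right (ne j)
  haveI : Nonempty (Fin n) := ⟨⟨0, by omega⟩⟩
  have h2 : ∀ (e u : V) (c : K), ∃ g, Val B e u c → ∀ x,
      f g x = x + B x e • u + (B x u + c * B x e) • e := fun e u c => by
    by_cases h : Val B e u c
    · let φ : End K V := 1 + (B.flip e).smulRight u + (B.flip u + c • B.flip e).smulRight e
      have hφ : ∀ x, φ x = x + B x e • u + (B x u + c * B x e) • e := fun x => rfl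
      have h3 : B e u = 0 := by rw [skew, h.ue, map_zero, neg_zero]
      obtain ⟨k, hk⟩ := pow_eq_one_of_nilpotent K p (x := φ)
        ⟨3, LinearMap.ext fun x => by simp [pow_succ, hφ, h.ee, h.ue, h3]⟩
      obtain ⟨g, hg⟩ := surj φ (fun x y => by
        simp [hφ, h.ee, h.ue, h.uu, h3, skew y e, skew y u]; ring)
        (eq_one_of_pow (p := p) (k := k) (by rw [← map_pow, hk, map_one]))
      exact ⟨g, fun _ x => by rw [hg, hφ]⟩
    · exact ⟨1, fun h' => absurd h' h⟩
  choose r hr using h2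
  exact Hyp.simple (b := basisOfLinearIndependentOfCardEqFinrank h1 (by simp [hV])) (r := r)
    ⟨inj, invol, skew, tv, iso, by simpa using orth, by simpa using ne, fun {e u c} => hr e u c⟩
    hn hex hd hN S

theorem psp_simple {K : Type*} [Field K] [Fintype K] {p : ℕ} [Fact p.Prime] [CharP K p] {m : ℕ}
    (hm : 2 ≤ m) (hex : m = 2 → 3 ≤ Fintype.card K) (S : Sylow p (PSp m K)) :
    (groupFusionSystem (S : Subgroup (PSp m K))).IsSimple p := by
  classical
  have hB : ∀ x y, toLinearMap₂' K (J (Fin m) K) x y =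
      ∑ i, (x (.inr i) * y (.inl i) - x (.inl i) * y (.inr i)) := fun x y => by
    simp [toLinearMap₂'_apply', J, fromBlocks_mulVec, dotProduct, neg_mulVec,
      Finset.sum_add_distrib, sub_eq_neg_add]
  let ι : Fin (2 * m) → Fin m ⊕ Fin m := fun i =>
    if h : (i : ℕ) < m then .inl ⟨i, h⟩ else .inr ⟨2 * m - 1 - i, by omega⟩
  have hι : ∀ i j, (J (Fin m) K (ι i) (ι j) = 0 ↔ j ≠ i.rev) := fun i j => by
    have := i.2
    have := j.2
    simp only [ι, J]
    split_ifs <;> simp [one_apply, Fin.ext_iff] <;> omega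
  refine simple_of_form (σ := RingHom.id K) (B := toLinearMap₂' K (J (Fin m) K))
    (f := (toLinAlgEquiv' : Matrix (Fin m ⊕ Fin m) _ K ≃ₐ[K] _).toMonoidHom.comp
      (symplecticGroup (Fin m) K).subtype)
    (fun x y e => Subtype.ext ((toLinAlgEquiv' : _ ≃ₐ[K] _).injective e)) (fun _ => rfl)
    (fun x y => ?_) (fun v => ⟨0, ?_⟩) (fun g x y => ?_) (fun i => Pi.single (ι i) 1)
    (by simp [two_mul]) (fun i j hj => ?_) (fun i => ?_) (fun φ h _ => ⟨⟨LinearMap.toMatrix' φ, ?_⟩,
      toLin'_toMatrix' φ⟩) (by omega) (.inr ?_)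
    (fun g => (LinearMap.det_toLin' _).trans (SymplecticGroup.det_eq_one g.2))
    (fun h => absurd h (by simp)) S
  · simp [hB, ← Finset.sum_neg_distrib, mul_comm]
  · simp [hB, mul_comm]
  · change toLinearMap₂' K _ (g.1 *ᵥ x) (g.1 *ᵥ y) = _
    rw [toLinearMap₂'_apply', toLinearMap₂'_apply', mulVec_mulVec, ← vecMul_transpose,
      ← dotProduct_mulVec, mulVec_mulVec, ← Matrix.mul_assoc, SymplecticGroup.mem_iff'.1 g.2]
  · simpa [toLinearMap₂'_apply'] using (hι i j).2 hj
  · simpa [toLinearMap₂'_apply'] using (hι i i.rev).not.2 (by simp)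
  · have h1 := LinearMap.toMatrix₂'_compl₁₂ (toLinearMap₂' K (J (Fin m) K)) φ φ
    rw [show (toLinearMap₂' K (J (Fin m) K)).compl₁₂ φ φ = _ from LinearMap.ext₂ h,
      LinearMap.toMatrix'_toLinearMap₂'] at h1
    exact SymplecticGroup.mem_iff'.2 h1.symm
  · rcases hm.eq_or_lt with e | e
    · obtain ⟨a, ha⟩ : ∃ a : K, a ∉ ({0, 1} : Finset K) := by
        by_contra! h0
        have := (Finset.card_le_card fun l _ => h0 l : (Finset.univ : Finset K).card ≤ _).trans
          Finset.card_le_two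
        have := hex e.symm
        rw [← Finset.card_univ] at this
        omega
      exact .inr ⟨a, by simpa using ha⟩
    · exact .inl (by omega)

theorem psu_simple {K : Type*} [Field K] [Fintype K] {p q : ℕ} [hp : Fact p.Prime] [CharP K p]
    (hK : Fintype.card K = q ^ 2) {n : ℕ} (hn : 4 ≤ n) (S : Sylow p (PSU n K q)) :
    (groupFusionSystem (S : Subgroup (PSU n K q))).IsSimple p := by
  classical
  obtain ⟨s, -, hs⟩ := FiniteField.card K p
  obtain ⟨k, -, rfl⟩ := (Nat.dvd_prime_pow hp.out).1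
    (show q ∣ p ^ (s : ℕ) from hs ▸ hK ▸ dvd_pow_self q two_ne_zero)
  let σ := iterateFrobenius K p k
  have hσ : ∀ a, σ a = a ^ p ^ k := fun _ => rfl
  have invol : ∀ a, σ (σ a) = a := fun a => by
    rw [hσ, hσ, ← pow_mul, ← pow_two, ← hK, FiniteField.pow_card]
  obtain ⟨q, hq⟩ : ∃ q, p ^ k = q + 1 := ⟨p ^ k - 1, by have := pow_pos hp.out.pos k; omega⟩
  have hq0 : q ≠ 0 := fun e => by
    have := Fintype.one_lt_card (α := K)
    rw [hK, hq, e] at this
    omega
  obtain ⟨γ, hγ⟩ := IsCyclic.exists_generator (α := Kˣ)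
  have ho : orderOf γ = (q + 2) * q := by
    rw [orderOf_eq_card_of_forall_mem_zpowers hγ, Nat.card_eq_fintype_card, Fintype.card_units, hK,
      hq]
    exact Nat.sub_eq_of_eq_add (by ring)
  have h1 : ∀ j, σ (γ ^ j) = γ ^ j → q + 2 ∣ j := fun j hj => by
    rw [hσ, hq, pow_succ, mul_eq_right₀ (pow_ne_zero _ γ.ne_zero), ← pow_mul] at hj
    exact Nat.dvd_of_mul_dvd_mul_right (Nat.pos_of_ne_zero hq0)
      (ho ▸ orderOf_dvd_of_pow_eq_one (Units.ext (by simpa using hj)))
  have hN : ∀ s, σ s = s → ∃ a, a * σ a = s := fun s hs => by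
    rcases eq_or_ne s 0 with rfl | h0
    · exact ⟨0, zero_mul _⟩
    obtain ⟨j, hj⟩ := mem_powers_iff_mem_zpowers.2 (hγ (Units.mk0 s h0))
    obtain rfl : (γ : K) ^ j = s := by simpa using congrArg Units.val hj
    obtain ⟨l, rfl⟩ := h1 j hs
    exact ⟨γ ^ l, by rw [hσ, hq]; ring⟩
  have h2 : (γ : K) - σ γ ≠ 0 := fun e => by
    have := Nat.le_of_dvd one_pos (h1 1 (by rw [pow_one, ← sub_eq_zero.1 e]))
    omega
  obtain ⟨a, ha⟩ := hN (-1) (by simp)
  have hγ' : σ γ ≠ 0 := (map_ne_zero σ).2 γ.ne_zero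
  have ha0 : a ≠ 0 := fun e => by simp [e] at ha
  obtain ⟨a', ha', h3, h4⟩ : ∃ a', a' * σ a' = -1 ∧ 1 + a * σ a' ≠ 0 ∧ a' * σ a + 1 ≠ 0 :=
    ⟨a * (γ / σ γ), by rw [← ha, map_mul, map_div₀, invol]; field_simp, fun e => h2 (by
      rw [map_mul, map_div₀, invol, ← mul_assoc, ha] at e
      field_simp at e
      linear_combination e), fun e => h2 (by
      rw [mul_right_comm, ha] at e
      field_simp at e
      linear_combination -e)⟩
  let B : (Fin n → K) →ₗ[K] (Fin n → K) →ₛₗ[σ] K :=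
    LinearMap.mk₂'ₛₗ (RingHom.id K) σ (fun x y => (γ - σ γ) * ∑ i, x i * σ (y i))
      (fun x y z => by simp [add_mul, Finset.sum_add_distrib, mul_add])
      (fun c x y => by simp [Finset.mul_sum, mul_assoc, mul_left_comm])
      (fun x y z => by simp [mul_add, Finset.sum_add_distrib])
      (fun c x y => by simp [Finset.mul_sum, mul_left_comm])
  have hB : ∀ x y, B x y = (γ - σ γ) * ∑ i, x i * σ (y i) := fun _ _ => rfl
  have hB' : ∀ i j, B (Pi.single i 1) (Pi.single j 1) = if i = j then γ - σ γ else 0 :=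
    fun i j => by simp [hB, Pi.single_apply, eq_comm]
  let α : Fin n → K := fun i => if i.rev < i then a' else 1
  let β : Fin n → K := fun i => if i.rev < i then 1 else if i < i.rev then a else 0
  refine simple_of_form (B := B) (f := (toLinAlgEquiv' : _ ≃ₐ[K] _).toMonoidHom.comp
    ((slToMat n K).comp (SU n K (p ^ k)).subtype))
    (fun x y e => Subtype.ext (Subtype.ext ((toLinAlgEquiv' : _ ≃ₐ[K] _).injective e))) invol
    (fun x y => ?_) (fun v => ⟨γ * ∑ i, v i * σ (v i), ?_⟩)
    (fun g x y => congrArg (fun t => ((γ : K) - σ γ) * t) (g.2 x y))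
    (fun i => α i • Pi.single i 1 + β i • Pi.single i.rev 1) (by simp) (fun i j hj => ?_)
    (fun i => ?_) (fun φ h hd => ⟨⟨⟨LinearMap.toMatrix' φ, (LinearMap.det_toMatrix' φ).trans hd⟩,
      fun x y => mul_left_cancel₀ h2 ?_⟩, toLin'_toMatrix' φ⟩) hn (.inl ?_)
    (fun g => (LinearMap.det_toLin' _).trans g.1.2) (fun _ => hN) S
  · simp [hB, invol, mul_comm (x _), ← neg_mul]
  · simp [hB, invol, mul_comm (σ (v _)), sub_mul]
  · simp only [map_add, map_smulₛₗ, LinearMap.add_apply, LinearMap.smul_apply, hB', smul_eq_mul,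
      RingHom.id_apply, Fin.rev_inj, if_neg hj.symm, if_neg (fun e : i = j.rev => hj (by simp [e]))]
    rcases eq_or_ne i j with rfl | e
    · rcases lt_or_gt_of_ne hj with e | e
      · simp only [α, β, if_pos e, if_neg e.not_gt, map_one, if_true]
        linear_combination (γ - σ γ) * ha
      · simp only [α, β, if_pos e, map_one, if_true]
        linear_combination (γ - σ γ) * ha'
    · simp [e]
  · simp only [map_add, map_smulₛₗ, LinearMap.add_apply, LinearMap.smul_apply, hB', smul_eq_mul,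
      RingHom.id_apply, Fin.rev_rev, if_true]
    rcases lt_trichotomy i i.rev with e | e | e
    · simp only [α, β, Fin.rev_rev, if_pos e, if_neg e.not_gt, if_neg e.ne, if_neg e.ne', map_one]
      exact fun e' => mul_ne_zero h3 h2 (by linear_combination e')
    · simpa [α, β, ← e] using h2
    · simp only [α, β, Fin.rev_rev, if_pos e, if_neg e.not_gt, if_neg e.ne, if_neg e.ne', map_one]
      exact fun e' => mul_ne_zero h4 h2 (by linear_combination e')
  · have h5 : ∀ x, LinearMap.toMatrix' φ *ᵥ x = φ x := fun x =>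
      LinearMap.congr_fun (toLin'_toMatrix' φ) x
    have h6 := h x y
    rw [← h5, ← h5] at h6
    exact h6
  · by_contra! h0
    have h5 := h0 1
    rw [map_one] at h5
    exact h2 (by linear_combination h0 γ - σ γ * h5)

end Cfsg.Agent.H5.Cl
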