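import Cfsg.Agent.H5.Flag

/-!
# Isometry groups of skew-hermitian forms of maximal index: simplicity of the fusion system
-/

set_option autoImplicit false
set_option maxHeartbeats 400000
set_option linter.unusedSectionVars false

namespace Cfsg.Agent.H5.Cl

open Cfsg Cfsg.Agent.L Module

variable {K V G : Type*} [Field K] [AddCommGroup V] [Module K V] [Group G] [Finite G] {n : ℕ}
  {σ : K →+* K} {B : V →ₗ[K] V →ₛₗ[σ] K} {b : Basis (Fin n) K V} {f : G →* End K V}
  {r : V → V → K → G}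

/-- The parameters of an Eichler transformation. -/
structure Val (B : V →ₗ[K] V →ₛₗ[σ] K) (e u : V) (c : K) : Prop where
  ee : B e e = 0
  ue : B u e = 0
  uu : B u u = c - σ c

/-- `G` acts faithfully by isometries of a skew-hermitian form with hyperbolic basis `b`, and `r`
gives the Eichler transformations. -/
structure Hyp (B : V →ₗ[K] V →ₛₗ[σ] K) (b : Basis (Fin n) K V) (f : G →* End K V)
    (r : V → V → K → G) : Prop where
  inj : Function.Injective f
  invol : ∀ a, σ (σ a) = a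
  skew : ∀ x y, B y x = -σ (B x y)
  tv : ∀ v, ∃ c, B v v = c - σ c
  iso : ∀ g x y, B (f g x) (f g y) = B x y
  orth : ∀ i j, j ≠ i.rev → B (b i) (b j) = 0
  ne : ∀ i, B (b i) (b i.rev) ≠ 0
  app : ∀ {e u : V} {c : K}, Val B e u c → ∀ x,
    f (r e u c) x = x + B x e • u + (B x u + c * B x e) • e

namespace Hyp

variable (h : Hyp B b f r)
include h

theorem ext {x y : G} (e : ∀ v, f x v = f y v) : x = y := h.inj (LinearMap.ext e)

theorem symm {x y : V} (e : B x y = 0) : B y x = 0 := by rw [h.skew, e, map_zero, neg_zero]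

theorem ne' (i : Fin n) : B (b i.rev) (b i) ≠ 0 := by simpa using h.ne i.rev

theorem apply_basis (v : V) (j : Fin n) : B v (b j.rev) = b.repr v j * B (b j) (b j.rev) :=
  LinearMap.congr_fun (b.ext (f₁ := B.flip (b j.rev)) (f₂ := B (b j) (b j.rev) • b.coord j)
    fun i => by
      rcases eq_or_ne i j with rfl | e
      · simp
      · simp [e, h.orth i j.rev (by simpa using e.symm)]) v |>.trans (by simp [mul_comm])

theorem repr_eq_zero {v : V} {j : Fin n} : b.repr v j = 0 ↔ B v (b j.rev) = 0 := by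
  rw [h.apply_basis, mul_eq_zero, or_iff_left (h.ne j)]

theorem mem_Fl_iff {k : ℕ} {v : V} : v ∈ Fl b k ↔ ∀ j : Fin n, j + k < n → B v (b j) = 0 :=
  ⟨fun hv j hj => by
    simpa using h.repr_eq_zero.1 (hv j.rev (by rw [Fin.val_rev]; omega)),
    fun hv j hj => h.repr_eq_zero.2 (hv _ (by have := j.2; rw [Fin.val_rev]; omega))⟩

theorem orth_Fl {k l : ℕ} (hkl : k + l ≤ n) {v w : V} (hv : v ∈ Fl b k) (hw : w ∈ Fl b l) :
    B v w = 0 :=
  map_mem_of_basis (B.flip w) (W := ⊥) (fun j hj => h.symm (h.mem_Fl_iff.1 hw j (by omega))) hv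

theorem stab_perp {k l : ℕ} (hkl : k + l = n) {g : G} (hg : g ∈ stabS f (Fl b l)) :
    g ∈ stabS f (Fl b k) := fun v hv => h.mem_Fl_iff.2 fun j hj => by
  rw [← act_inv' f g (b j), h.iso]
  exact h.orth_Fl hkl.le hv (inv_mem hg _ (basis_mem_Fl (by omega)))

theorem mem_Bor {g : G} (hg : ∀ k ≤ n / 2, g ∈ stabS f (Fl b k)) : g ∈ Bor b f :=
  Subgroup.mem_iInf.2 fun k => by
    rcases le_or_gt k (n / 2) with e | e
    · exact hg k e
    rcases le_total k n with e' | e'
    · exact h.stab_perp (l := n - k) (by omega) (hg _ (by omega))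
    · exact fun v _ => mem_Fl_of_le e' _

theorem dg_mul_rev {g : G} (hg : g ∈ Bor b f) (i : Fin n) :
    dg b f g i * σ (dg b f g i.rev) = 1 := by
  have h1 := Cl.mem_Bor.1 hg _ _ (basis_mem_Fl (b := b) (i := i.rev) (Nat.lt_succ_self _))
  have h2 := h.orth_Fl (by have := i.2; rw [Fin.val_rev]; omega) (sub_mem_Fl (Cl.mem_Bor.1 hg _ _
    (basis_mem_Fl (b := b) (i := i) (Nat.lt_succ_self _)))) h1
  have h3 := h.skew (f g (b i.rev)) (b i.rev.rev)
  rw [h.apply_basis, Fin.rev_rev, map_mul, ← mul_neg, ← h.skew] at h3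
  rw [map_sub, map_smul, LinearMap.sub_apply, h.iso, LinearMap.smul_apply, h3, smul_eq_mul,
    ← mul_assoc, sub_eq_zero] at h2
  exact (mul_eq_right₀ (h.ne i)).1 h2.symm

theorem val_of_mem {k : ℕ} (hk : 2 * k ≤ n) {e u : V} {c : K} (he : e ∈ Fl b k)
    (hu : u ∈ Fl b (n - k)) (hc : B u u = c - σ c) : Val B e u c :=
  ⟨h.orth_Fl (by omega) he he, h.orth_Fl (by omega) hu he, hc⟩

theorem mem_Rad {k : ℕ} (hk : 2 * k ≤ n) {e u : V} {c : K} (he : e ∈ Fl b k)
    (hu : u ∈ Fl b (n - k)) (hc : B u u = c - σ c) : r e u c ∈ Rad b f k (n - k) := by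
  have h1 := h.app (h.val_of_mem hk he hu hc)
  refine (Cl.mem_Rad (by omega)).2 ⟨fun v hv => ?_, fun v hv => ?_, fun v => ?_⟩
  · simp [h1, h.orth_Fl (by omega) hv he, h.orth_Fl (by omega) hv hu]
  · simpa [h1, h.orth_Fl (by omega) hv he] using Submodule.smul_mem _ _ he
  · rw [h1, add_assoc, add_sub_cancel_left]
    exact add_mem (Submodule.smul_mem _ _ hu) (Submodule.smul_mem _ _ (Fl_mono (by omega) he))

theorem mem_Uni {k : ℕ} (hk : 2 * k ≤ n) {e u : V} {c : K} (he : e ∈ Fl b k)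
    (hu : u ∈ Fl b (n - k)) (hc : B u u = c - σ c) : r e u c ∈ Uni b f :=
  Rad_le_Uni (by omega) (h.mem_Rad hk he hu hc)

theorem val_add {e u u' : V} {c c' : K} (h1 : Val B e u c) (h2 : Val B e u' c') :
    Val B e (u + u') (c + c' + B u' u) :=
  ⟨h1.ee, by simp [h1.ue, h2.ue], by simp [h1.uu, h2.uu, h.skew u' u]; ring⟩

theorem r_mul {e u u' : V} {c c' : K} (h1 : Val B e u c) (h2 : Val B e u' c') :
    r e u c * r e u' c' = r e (u + u') (c + c' + B u' u) := h.ext fun x => by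
  rw [act_mul, h.app h1, h.app h2, h.app (h.val_add h1 h2)]
  simp only [map_add, map_smul, LinearMap.add_apply, LinearMap.smul_apply, smul_eq_mul, h1.ee,
    h2.ue, h.symm h1.ue]
  module

theorem val_zero {e : V} (he : B e e = 0) {c : K} (hc : σ c = c) : Val B e 0 c :=
  ⟨he, by simp, by simp [hc]⟩

theorem r_zero {e : V} (he : B e e = 0) : r e 0 0 = 1 := h.ext fun x => by
  simp [h.app (h.val_zero he (map_zero σ))]

theorem val_neg {e u : V} {c : K} (h1 : Val B e u c) : Val B e (-u) (-σ c) :=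
  ⟨h1.ee, by simp [h1.ue], by simp [h1.uu, h.invol]; ring⟩

theorem r_inv {e u : V} {c : K} (h1 : Val B e u c) : (r e u c)⁻¹ = r e (-u) (-σ c) := by
  rw [inv_eq_iff_mul_eq_one, h.r_mul h1 (h.val_neg h1), ← h.r_zero h1.ee, add_neg_cancel, map_neg,
    LinearMap.neg_apply, h1.uu]
  congr 1; ring

theorem val_conj {e u : V} {c : K} (h1 : Val B e u c) (g : G) : Val B (f g e) (f g u) c :=
  ⟨(h.iso ..).trans h1.ee, (h.iso ..).trans h1.ue, (h.iso ..).trans h1.uu⟩

theorem iso_inv (g : G) (x y : V) : B (f g⁻¹ x) y = B x (f g y) := by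
  rw [← h.iso g, act_inv']

theorem r_conj {e u : V} {c : K} (h1 : Val B e u c) (g : G) :
    g * r e u c * g⁻¹ = r (f g e) (f g u) c := h.ext fun x => by
  rw [act_mul, act_mul, h.app h1, h.app (h.val_conj h1 g)]
  simp [act_inv', h.iso_inv]

theorem val_smul {e u : V} {a c : K} (he : B e e = 0) (h1 : Val B (a • e) u c) :
    Val B e (σ a • u) (c * a * σ a) :=
  ⟨he, by simpa using h1.ue, by simp [h1.uu, h.invol]; ring⟩

theorem r_smul {e u : V} {a c : K} (he : B e e = 0) (h1 : Val B (a • e) u c) :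
    r (a • e) u c = r e (σ a • u) (c * a * σ a) := h.ext fun x => by
  rw [h.app h1, h.app (h.val_smul he h1)]
  simp only [map_smulₛₗ, smul_eq_mul, h.invol]
  module

theorem val_shift {e u : V} {a c : K} (h1 : Val B e (u + a • e) c) : Val B e u (c + a + σ a) := by
  have h2 : B u e = 0 := by simpa [h1.ee] using h1.ue
  exact ⟨h1.ee, h2, by simpa [h1.ee, h2, h.symm h2, h.invol, add_assoc, add_comm (σ a)]
    using h1.uu⟩

theorem r_shift {e u : V} {a c : K} (h1 : Val B e (u + a • e) c) :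
    r e (u + a • e) c = r e u (c + a + σ a) := h.ext fun x => by
  rw [h.app h1, h.app (h.val_shift h1)]
  simp only [map_add, map_smulₛₗ, smul_eq_mul]
  module

theorem val_of_fix {e v : V} {x : G} (he : B e e = 0) (hv : B v e = 1) (hx : f x e = e) :
    Val B e (f x v - v) (-B v (f x v - v)) ∧ f (r e (f x v - v) (-B v (f x v - v))) v = f x v := by
  have h1 : Val B e (f x v - v) (-B v (f x v - v)) :=
    ⟨he, by rw [map_sub, LinearMap.sub_apply, ← h.iso x v e, hx, sub_self], by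
      rw [map_neg, ← h.skew]; simp [h.iso]; ring⟩
  exact ⟨h1, by rw [h.app h1]; simp [hv]⟩

theorem normalizer_le : Subgroup.normalizer (Uni b f : Set G) ≤ Bor b f := fun g hg => by
  refine h.mem_Bor (stab_of_mem_normalizer (fun k hk v hv => ?_) hg)
  let i : Fin n := ⟨k, by omega⟩
  have h1 : ∀ u ∈ Fl b (n - (k + 1)), ∀ c, B u u = c - σ c → b.repr u i = 0 ∨ B v (b i) = 0 →
      B v u + c * B v (b i) = 0 := fun u hu c hc h0 => by
    have h2 : b i ∈ Fl b (k + 1) := basis_mem_Fl (Nat.lt_succ_self _)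
    have h3 := hv _ (h.mem_Uni (by omega) h2 hu hc) i le_rfl
    rw [h.app (h.val_of_mem (by omega) h2 hu hc)] at h3
    rcases h0 with h0 | h0 <;> simpa [h0] using h3
  have h2 : B v (b i) = 0 := by simpa using h1 0 (zero_mem _) 1 (by simp) (by simp)
  refine h.mem_Fl_iff.2 fun j hj => ?_
  obtain ⟨c, hc⟩ := h.tv (b j)
  simpa [h2] using h1 _ (basis_mem_Fl (by omega)) c hc (Or.inr h2)

variable {p : ℕ} [Fact p.Prime] [CharP K p]

theorem pe {e u : V} {c : K} (h1 : Val B e u c) : PE p (r e u c) :=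
  pe_of_nilpotent h.inj ⟨3, LinearMap.ext fun x => by
    simp [pow_succ, h.app h1, h1.ee, h1.ue, h.symm h1.ue]⟩

theorem centric {k : ℕ} (h0 : 0 < k) (hk : 2 * k ≤ n) :
    ∀ x ∈ Subgroup.centralizer (Rad b f k (n - k) : Set G), PE p x → x ∈ Rad b f k (n - k) := by
  intro x hx hp
  have h1 : ∀ e ∈ Fl b k, ∀ u ∈ Fl b (n - k), ∀ c, B u u = c - σ c → ∀ v,
      B v (f x e) • f x u + (B v (f x u) + c * B v (f x e)) • f x e =
        B v e • u + (B v u + c * B v e) • e := fun e he u hu c hc v => by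
    have h2 := h.val_of_mem hk he hu hc
    have h3 := h.r_conj h2 x
    rw [← hx _ (h.mem_Rad hk he hu hc), mul_inv_cancel_right] at h3
    have h4 := h.app (h.val_conj h2 x) v
    rw [← h3, h.app h2, add_assoc, add_assoc] at h4
    exact (add_left_cancel h4).symm
  have h2 : ∀ j : Fin n, (j : ℕ) < k → f x (b j) = b j := fun j hj => by
    have h3 := h1 _ (basis_mem_Fl hj) 0 (zero_mem _) 1 (by simp) (b j.rev)
    simp only [map_zero, smul_zero, zero_add, one_mul] at h3
    have h4 : B (b j.rev) (f x (b j)) ≠ 0 := fun e =>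
      smul_ne_zero (h.ne' j) (b.ne_zero j) (by rw [← h3, e, zero_smul])
    exact hp.fix ((eq_inv_smul_iff₀ h4).2 h3 |>.trans (smul_smul ..))
  refine (Cl.mem_Rad (by omega)).2 ⟨mem_trv_bot.1 (mem_fix_Fl h2), fun u hu => ?_,
    fun v => h.mem_Fl_iff.2 fun j hj => ?_⟩
  · obtain ⟨c, hc⟩ := h.tv u
    let o : Fin n := ⟨0, by omega⟩
    have h3 := h1 _ (basis_mem_Fl (i := o) h0) u hu c hc (b o.rev)
    rw [h2 o h0] at h3
    rw [← Submodule.smul_mem_iff _ (h.ne' o), show B (b o.rev) (b o) • (f x u - u) =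
      (B (b o.rev) u - B (b o.rev) (f x u)) • b o by linear_combination (norm := module) h3]
    exact Submodule.smul_mem _ _ (basis_mem_Fl h0)
  · rw [map_sub, LinearMap.sub_apply, ← h.iso x v, h2 j (by omega), sub_self]

theorem exists_elem {i j : Fin n} (hij : i ≠ j) (hi : (i : ℕ) < n / 2) (hj : (j : ℕ) < n / 2)
    (a : K) : ∃ x, PE p x ∧ ∀ v ∈ Fl b (n / 2), f x v = v + (a * b.repr v i) • b j := by
  have h1 : Val B (b j) (σ (a / B (b i) (b i.rev)) • b i.rev) 0 :=
    ⟨h.orth _ _ (by simp [Fin.ext_iff]; omega), by simp [h.orth i.rev j (by simpa using hij.symm)],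
      by simp [h.orth i.rev i.rev (by simp [Fin.ext_iff]; omega)]⟩
  refine ⟨_, h.pe h1, fun v hv => ?_⟩
  rw [h.app h1, h.orth_Fl (by omega) hv (basis_mem_Fl hj), map_smulₛₗ, h.invol, h.apply_basis v]
  simp [h.ne i, mul_comm (b.repr v i), ← mul_assoc]

theorem exists_swap {i j : Fin n} (hij : i ≠ j) (hi : (i : ℕ) < n / 2) (hj : (j : ℕ) < n / 2)
    {a : K} (ha : a ≠ 0) {H : Subgroup G} (hH : ∀ (s t : Fin n) (c : K) (x : G), s = i ∨ s = j →
      t = i ∨ t = j → PE p x → (∀ v ∈ Fl b (n / 2), f x v = v + (c * b.repr v s) • b t) → x ∈ H) :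
    ∃ x ∈ H, f x (b i) = a • b j := by
  obtain ⟨x, h1, h2⟩ := h.exists_elem (p := p) hij hi hj a
  obtain ⟨y, h3, h4⟩ := h.exists_elem (p := p) hij.symm hj hi (-a⁻¹)
  refine ⟨y * x, mul_mem (hH _ _ _ _ (.inr rfl) (.inl rfl) h3 h4)
    (hH _ _ _ _ (.inl rfl) (.inr rfl) h1 h2), ?_⟩
  rw [act_mul, h2 _ (basis_mem_Fl hi), map_add, map_smul, h4 _ (basis_mem_Fl hi),
    h4 _ (basis_mem_Fl hj)]
  simp [hij, smul_smul, ha]

end Hyp

end Cfsg.Agent.H5.Cl
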