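import Cfsg.Agent.H5.FusForm

/-!
# Strongly closed subgroups and simplicity for isometry groups of skew-hermitian forms
-/

set_option autoImplicit false
set_option maxHeartbeats 400000
set_option linter.unusedSectionVars false

namespace Cfsg.Agent.H5.Cl

open Cfsg Cfsg.Agent.L Module

variable {K V G : Type*} [Field K] [AddCommGroup V] [Module K V] [Group G] [Finite G] {n : ℕ}
  {σ : K →+* K} {B : V →ₗ[K] V →ₛₗ[σ] K} {b : Basis (Fin n) K V} {f : G →* End K V}
  {r : V → V → K → G} {A : Subgroup G} {e : V}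

/-- `A` contains the Eichler transformation with the given parameters. -/
def Pr (B : V →ₗ[K] V →ₛₗ[σ] K) (r : V → V → K → G) (A : Subgroup G) (e u : V) (c : K) : Prop :=
  Val B e u c ∧ r e u c ∈ A

/-- `A` is closed under those conjugations that stay among Eichler transformations with centre
`e`. -/
def Cls (B : V →ₗ[K] V →ₛₗ[σ] K) (r : V → V → K → G) (A : Subgroup G) (e : V) : Prop :=
  ∀ x ∈ A, ∀ (g : G) (u : V) (c : K), Val B e u c → g * x * g⁻¹ = r e u c → r e u c ∈ A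

namespace Hyp

variable (h : Hyp B b f r)
include h

theorem pr_add {u u' : V} {c c' : K} (h1 : Pr B r A e u c) (h2 : Pr B r A e u' c') :
    Pr B r A e (u + u') (c + c' + B u' u) :=
  ⟨h.val_add h1.1 h2.1, h.r_mul h1.1 h2.1 ▸ mul_mem h1.2 h2.2⟩

theorem pr_sub {u u' : V} {c c' : K} (h1 : Pr B r A e u c) (h2 : Pr B r A e u' c') :
    Pr B r A e (u - u') (c - σ c' - B u' u) := by
  simpa [sub_eq_add_neg] using
    h.pr_add h1 (u' := -u') (c' := -σ c') ⟨h.val_neg h2.1, h.r_inv h2.1 ▸ inv_mem h2.2⟩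

theorem pr_sub_self {u : V} {c c' : K} (h1 : Pr B r A e u c) (h2 : Pr B r A e u c') :
    Pr B r A e 0 (c - c') := by
  have := h.pr_sub h1 h2
  rwa [sub_self, h2.1.uu, show c - σ c' - (c' - σ c') = c - c' by ring] at this

theorem pr_shift {u : V} {a c : K} (h1 : Pr B r A e (u + a • e) c) :
    Pr B r A e u (c + a + σ a) := ⟨h.val_shift h1.1, h.r_shift h1.1 ▸ h1.2⟩

theorem pr_conj (hc : Cls B r A e) {u : V} {c a : K} (h1 : Pr B r A e u c) {g : G}
    (hg : f g e = a • e) : Pr B r A e (σ a • f g u) (c * a * σ a) := by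
  have h2 := h.val_conj h1.1 g
  rw [hg] at h2
  exact ⟨h.val_smul h1.1.ee h2, hc _ h1.2 g _ _ (h.val_smul h1.1.ee h2)
    (by rw [h.r_conj h1.1, hg, h.r_smul h1.1.ee h2])⟩

theorem pr_tr (hc : Cls B r A e) {u w : V} {c s : K} (h1 : Pr B r A e u c) (hw : B w w = 0)
    (hwe : B w e = 0) (hs : σ s = s) :
    Pr B r A e ((s * B u w) • w) (-(s * B u w * σ (B u w))) := by
  have h2 := h.app (h.val_zero hw hs)
  have h3 := h.pr_sub (h.pr_conj hc h1 (g := r w 0 s) (a := 1) (by simp [h2, h.symm hwe])) h1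
  convert h3 using 1
  · simp [h2]
  · simp [h2, h1.1.uu, hs]; ring

theorem exists_pr_zero (hc : Cls B r A e) {o : Fin n} (he : e = b o)
    (hex : (∃ τ, τ + σ τ ≠ 0) ∨ 5 ≤ n ∨ ∃ a : K, a ≠ 0 ∧ a ≠ 1) {u : V} {c : K}
    (h1 : Pr B r A e u c) {j : Fin n} (hj : j ≠ o.rev) (hu : B u (b j) ≠ 0) :
    ∃ c ≠ 0, Pr B r A e 0 c := by
  have hje : ∀ l : Fin n, l ≠ o.rev → B (b l) e = 0 := fun l hl =>
    he ▸ h.orth _ _ fun e => hl (by simp [e])
  by_cases hτ : ∃ τ, τ + σ τ ≠ 0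
  · obtain ⟨τ, hτ⟩ := hτ
    obtain ⟨c', hc'⟩ := h.tv (σ (τ / B u (b j)) • b j)
    have h2 := h.app (e := e) ⟨h1.1.ee, by simp [hje j hj], hc'⟩
    have h3 := h.pr_conj hc h1 (a := 1) (g := r e (σ (τ / B u (b j)) • b j) c')
      (by rw [h2]; simp [h1.1.ee, h.symm (hje j hj)])
    simp only [h2, h1.1.ue, map_one, one_smul, zero_smul, add_zero, mul_zero, mul_one,
      map_smulₛₗ, h.invol, smul_eq_mul, div_mul_cancel₀ _ hu] at h3
    exact ⟨_, by rwa [add_assoc, add_sub_cancel_left], h.pr_sub_self (h.pr_shift h3) h1⟩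
  have h2 : ∀ a, σ a = a := fun a => by
    push Not at hτ
    have h3 := hτ 1
    rw [map_one] at h3
    linear_combination hτ a - a * h3
  have h3 : ∀ v, B v v = 0 := fun v => by
    obtain ⟨c, hc⟩ := h.tv v
    rw [hc, h2, sub_self]
  have h4 : ∀ u c w, Pr B r A e u c → B w e = 0 → ∀ s,
      Pr B r A e ((s * B u w) • w) (-(s * B u w * B u w)) := fun u c w h4 h5 s => by
    simpa only [h2] using h.pr_tr hc h4 (h3 w) h5 (h2 s)
  rcases (hex.resolve_left hτ) with hn | ⟨a, ha, ha'⟩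
  · have hjo : j ≠ o := fun e' => hu (by rw [e', ← he, h1.1.ue])
    obtain ⟨l, hl⟩ : ∃ l : Fin n, l ∉ ({o, o.rev, j, j.rev} : Finset (Fin n)) := by
      by_contra! h0
      have := (Finset.card_le_card fun l _ => h0 l : (Finset.univ : Finset (Fin n)).card ≤ _).trans
        Finset.card_le_four
      rw [Finset.card_univ, Fintype.card_fin] at this
      omega
    simp only [Finset.mem_insert, Finset.mem_singleton, not_or] at hl
    obtain ⟨l1, l2, l3, l4⟩ := hl
    have h5 := h4 _ _ _ h1 (hje j hj) (B u (b j))⁻¹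
    rw [inv_mul_cancel₀ hu, one_smul] at h5
    have h6 := hje j.rev (by simpa using hjo)
    have h7 := h.pr_sub (h4 _ _ (b j.rev + b l) h5 (by simp [h6, hje l l2]) (B (b j) (b j.rev))⁻¹)
      (h4 _ _ _ h5 h6 (B (b j) (b j.rev))⁻¹)
    simp only [map_add, h.orth j l l4, add_zero, inv_mul_cancel₀ (h.ne j), one_smul, one_mul,
      add_sub_cancel_left, h2, h3, h.orth j.rev l (by simpa using l3), sub_self] at h7
    have h8 := h4 _ _ _ h7 (hje l.rev (by simpa using l1)) (B (b l) (b l.rev))⁻¹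
    rw [inv_mul_cancel₀ (h.ne l), one_smul] at h8
    have h9 := h4 _ _ _ h8 (hje l l2) (B (b l.rev) (b l))⁻¹
    rw [inv_mul_cancel₀ (h.ne' l), one_smul] at h9
    exact ⟨_, by simpa using h.ne' l, h.pr_sub_self h9 h7⟩
  · have h5 : ∀ s ≠ 0, Pr B r A e u (s * B u (b j)) := fun s hs => by
      have h6 := h4 _ _ u (h4 _ _ _ h1 (hje j hj) (s / B u (b j))) h1.1.ue (-(s * B u (b j))⁻¹)
      simp only [div_mul_cancel₀ _ hu, map_smul, LinearMap.smul_apply, smul_eq_mul,
        h.skew u (b j), h2, mul_neg, neg_mul, neg_neg, inv_mul_cancel₀ (mul_ne_zero hs hu),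
        one_smul, one_mul] at h6
      exact h6
    exact ⟨_, by rw [← sub_mul]; exact mul_ne_zero (sub_ne_zero.2 ha') hu,
      h.pr_sub_self (h5 a ha) (h5 1 one_ne_zero)⟩

theorem pr_zero_of [Finite K] (hc : Cls B r A e) (hg : ∀ a : K, a ≠ 0 → ∃ g, f g e = a • e)
    {c₀ : K} (h0 : c₀ ≠ 0) (h1 : Pr B r A e 0 c₀) {c : K} (hσ : σ c = c) : Pr B r A e 0 c := by
  have h2 : ∀ a, Pr B r A e 0 (c₀ * a * σ a) := fun a => by
    rcases eq_or_ne a 0 with rfl | ha
    · simpa using h.pr_sub_self h1 h1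
    · obtain ⟨g, hg⟩ := hg a ha
      simpa using h.pr_conj hc h1 hg
  have h3 : σ c₀ = c₀ := (sub_eq_zero.1 (h1.1.uu.symm.trans (map_zero _))).symm
  by_cases hτ : ∃ τ, τ + σ τ ≠ 0
  · obtain ⟨τ, hτ⟩ := hτ
    have h4 := h.pr_sub_self (h.pr_sub_self (h2 (1 + τ * c / (c₀ * (τ + σ τ)))) h1)
      (h2 (τ * c / (c₀ * (τ + σ τ))))
    convert h4 using 1
    simp only [map_add, map_one, map_div₀, map_mul, hσ, h3, h.invol, add_comm (σ τ)]
    field_simp
    ring
  · push Not at hτ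
    have h4 := hτ 1
    rw [map_one] at h4
    obtain ⟨a, ha⟩ := Finite.surjective_of_injective (f := fun a : K => a * a) (fun x y hxy =>
      sub_eq_zero.1 (mul_self_eq_zero.1 (by
        linear_combination hxy + (y * y - x * y) * h4))) (c / c₀)
    convert h2 a using 1
    rw [show σ a = a by linear_combination hτ a - a * h4, mul_assoc, show a * a = c / c₀ from ha,
      mul_div_cancel₀ _ h0]

theorem pr_all (hc : Cls B r A e) (h0 : ∀ c, σ c = c → Pr B r A e 0 c) {e' v' : V}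
    (he' : ∀ a : K, ∃ c, Pr B r A e (a • e') c) (hee : B e' e' = 0) (hv : B v' e = 0)
    (hv' : B e' v' ≠ 0) {u : V} {c : K} (hu : Val B e u c) : r e u c ∈ A := by
  have h1 : ∀ v, B v e = 0 → B e' v ≠ 0 → ∃ c, Pr B r A e v c := fun v h1 h2 => by
    obtain ⟨c, hc'⟩ := h.tv v
    obtain ⟨d, hd⟩ := he' (c / B e' v)
    obtain ⟨d', hd'⟩ := he' (B e' v)⁻¹
    have h3 := h.pr_tr hc hd' (w := v - (c / B e' v) • e') (s := 1) (by
      have : σ (B e' v) ≠ 0 := (map_ne_zero σ).2 h2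
      simp [hee, hc', h.skew e' v, h2, this]) (by rw [map_sub, LinearMap.sub_apply, h1, hd.1.ue,
        sub_zero]) (map_one σ)
    have h4 := h.pr_add h3 hd
    simp only [map_sub, map_smulₛₗ, LinearMap.smul_apply, hee, smul_eq_mul, mul_zero, sub_zero,
      RingHom.id_apply, inv_mul_cancel₀ h2, one_mul, one_smul, sub_add_cancel] at h4
    exact ⟨_, h4⟩
  obtain ⟨d, hd⟩ : ∃ c, Pr B r A e u c := by
    by_cases h2 : B e' u = 0
    · obtain ⟨c₁, h3⟩ := h1 (u + v') (by simp [hu.ue, hv]) (by simpa [h2] using hv')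
      obtain ⟨c₂, h4⟩ := h1 v' hv hv'
      exact ⟨_, by simpa only [add_sub_cancel_right] using h.pr_sub h3 h4⟩
    · exact h1 u hu.ue h2
  simpa using (h.pr_add hd (h0 (c - d)
    (by rw [map_sub]; linear_combination hu.uu - hd.1.uu))).2

theorem fix_basis {x : G} (hx : x ∈ Uni b f) {i : ℕ}
    (h1 : ∀ j : Fin n, (j : ℕ) < i → f x (b j.rev) = b j.rev) (j : Fin n) (hj : (j : ℕ) ≤ i) :
    f x (b j) = b j := by
  refine sub_eq_zero.1 (eq_zero_of_mem_Fl (b := b) fun l _ => ?_)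
  rcases lt_or_ge (l : ℕ) j with e | e
  · rw [h.repr_eq_zero, map_sub, LinearMap.sub_apply, ← h.iso x (b j), h1 l (by omega), sub_self]
  · exact Cl.mem_Uni.1 hx j _ (basis_mem_Fl (Nat.lt_succ_self _)) l e

theorem le_of_forall (h1 : ∀ i : Fin n, (i : ℕ) < n / 2 → ∀ u ∈ Fl b (n - (i + 1)), ∀ c,
    B u u = c - σ c → r (b i) u c ∈ A) : Uni b f ≤ A := by
  have key : ∀ i ≤ n / 2, ∀ x ∈ Uni b f,
      (∀ j : Fin n, (j : ℕ) < i → f x (b j.rev) = b j.rev) → x ∈ A := by
    intro i hi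
    induction hi using Nat.decreasingInduction with
    | self =>
      intro x hx h2
      rw [show x = 1 from h.inj (b.ext fun j => by
        rcases le_or_gt (j : ℕ) (n / 2) with e | e
        · simpa using h.fix_basis hx h2 j e
        · simpa using h2 j.rev (by rw [Fin.val_rev]; omega))]
      exact one_mem _
    | of_succ k hk ih =>
      intro x hx h2
      let i : Fin n := ⟨k, by omega⟩
      have h3 : b i ∈ Fl b (i + 1) := basis_mem_Fl (Nat.lt_succ_self _)
      obtain ⟨v, hv⟩ : ∃ v, v = (B (b i.rev) (b i))⁻¹ • b i.rev := ⟨_, rfl⟩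
      obtain ⟨h4, h5⟩ := h.val_of_fix (h.orth_Fl (by simp only [i]; omega) h3 h3)
        (v := v) (by simp [hv, h.ne']) (h.fix_basis hx h2 i le_rfl)
      have h6 := Cl.mem_Uni.1 hx (n - (i + 1)) v
        (hv ▸ Submodule.smul_mem _ _ (basis_mem_Fl (by rw [Fin.val_rev]; omega)))
      have h7 : ∀ j : Fin n, (j : ℕ) < k → B (b j.rev) (f x v - v) = 0 := fun j hj => by
        rw [map_sub, ← h.iso x (b j.rev) v, h2 j hj, sub_self]
      generalize -B v (f x v - v) = c at h4 h5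
      generalize f x v - v = u at h4 h5 h6 h7
      rw [← mul_mem_cancel_left (inv_mem (h1 i hk _ h6 _ h4.uu))]
      refine ih _ (mul_mem (inv_mem (h.mem_Uni (by simp only [i]; omega) h3 h6 h4.uu)) hx)
        fun j hj => ?_
      rw [act_mul]
      rcases (Nat.lt_succ_iff.1 hj).eq_or_lt with e | e
      · rw [show j = i from Fin.ext e]
        refine smul_right_injective V (inv_ne_zero (h.ne' i)) ?_
        simp only [← map_smul]
        rw [← hv, ← h5, act_inv]
      · have h8 := h.app h4 (b j.rev)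
        rw [h.orth j.rev i (by simp [Fin.ext_iff, i]; omega), h7 j e] at h8
        simp only [zero_smul, add_zero, mul_zero] at h8
        rw [h2 j e, ← h8, act_inv, h8]
  exact fun x hx => key 0 (Nat.zero_le _) x hx fun j hj => absurd hj (Nat.not_lt_zero _)

variable {p : ℕ} [Fact p.Prime] [CharP K p] [Finite K]

theorem le_of_sc (hn : 4 ≤ n) (hex : (∃ τ, τ + σ τ ≠ 0) ∨ 5 ≤ n ∨ ∃ a : K, a ≠ 0 ∧ a ≠ 1)
    (hc : ∀ x ∈ A, ∀ g : G, g * x * g⁻¹ ∈ Uni b f → g * x * g⁻¹ ∈ A) {z : G} (hz : z ∈ A)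
    (hz1 : z ≠ 1) (hzp : PE p z) (hzc : z ∈ Subgroup.centralizer (Uni b f : Set G)) :
    Uni b f ≤ A := by
  let o : Fin n := ⟨0, by omega⟩
  let l : Fin n := ⟨1, by omega⟩
  have hlo : o ≠ l := by simp [o, l]
  have ho : b o ∈ Fl b 1 := basis_mem_Fl one_pos
  have hoo := h.orth_Fl (by omega) ho ho
  have hperp : ∀ u, B u (b o) = 0 → u ∈ Fl b (n - 1) := fun u hu => h.mem_Fl_iff.2 fun j hj => by
    rwa [show j = o from Fin.ext (by simp only [o]; omega)]
  have hcl : Cls B r A (b o) := fun x hx g u c h1 h2 =>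
    h2 ▸ hc x hx g (h2 ▸ h.mem_Uni (by omega) ho (hperp u h1.ue) h1.uu)
  have hsw : ∀ j : Fin n, o ≠ j → (j : ℕ) < n / 2 → ∀ a : K, a ≠ 0 → ∃ x, f x (b o) = a • b j :=
    fun j h1 h2 a ha => (h.exists_swap (p := p) (H := ⊤) h1 (by simp only [o]; omega) h2 ha
      fun _ _ _ _ _ _ _ _ => trivial).imp fun _ => And.right
  have hl2 : (l : ℕ) < n / 2 := by simp only [l]; omega
  obtain ⟨h1, h2, -⟩ := (Cl.mem_Rad (by omega)).1 (h.centric one_pos (by omega) z
    (fun y hy => hzc y (Rad_le_Uni (by omega) hy)) hzp)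
  obtain ⟨v, hv⟩ : ∃ v, B v (b o) = 1 := ⟨(B (b o.rev) (b o))⁻¹ • b o.rev, by simp [h.ne']⟩
  obtain ⟨h3, -⟩ := h.val_of_fix hoo hv (h1 _ ho)
  set u := f z v - v with hu
  have h4 : z = r (b o) u (-B v u) := h.ext fun x => by
    have h5 := eq_smul_of_mem_Fl_one (i := o) rfl (h2 _ (hperp (x - B x (b o) • v) (by simp [hv])))
    set a := b.repr (f z (x - B x (b o) • v) - (x - B x (b o) • v)) o
    have h6 := h.iso z (x - B x (b o) • v) v
    rw [sub_eq_iff_eq_add.1 h5, sub_eq_iff_eq_add.1 hu.symm] at h6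
    simp only [map_add, map_sub, map_smul, LinearMap.add_apply, LinearMap.sub_apply,
      LinearMap.smul_apply, smul_eq_mul, h.symm h3.ue, h.skew v (b o), hv, map_one] at h6
    rw [map_sub, map_smul, sub_eq_iff_eq_add.1 hu.symm] at h5
    rw [h.app h3, show B x u + -B v u * B x (b o) = a by linear_combination h6]
    linear_combination (norm := module) h5
  have h5 : Pr B r A (b o) u (-B v u) := ⟨h3, h4 ▸ hz⟩
  obtain ⟨c₀, h6, h7⟩ : ∃ c ≠ 0, Pr B r A (b o) 0 c := by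
    by_cases h6 : u ∈ Fl b 1
    · generalize -B v u = c at h3 h4 h5
      rw [eq_smul_of_mem_Fl_one (i := o) rfl h6, ← zero_add (_ • b o)] at h3 h4 h5
      exact ⟨_, fun e => hz1 (by rw [h4, h.r_shift h3, e, h.r_zero hoo]), h.pr_shift h5⟩
    · obtain ⟨j, hj, hj'⟩ : ∃ j : Fin n, j + 1 < n ∧ B u (b j) ≠ 0 := by
        simpa [h.mem_Fl_iff] using h6
      exact h.exists_pr_zero hcl rfl hex h5 (by simp [Fin.ext_iff, o]; omega) hj'
  obtain ⟨w, hw⟩ := hsw l hlo hl2 1 one_ne_zero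
  rw [one_smul] at hw
  have h8 : ∀ c, σ c = c → Pr B r A (b o) 0 c := fun c => h.pr_zero_of hcl (fun a ha => by
    obtain ⟨x, hx⟩ := hsw l hlo hl2 a ha
    exact ⟨w⁻¹ * x, by rw [act_mul, hx, map_smul, ← hw, act_inv]⟩) h6 h7
  have hl : ∀ a : K, b l + a • b o ∈ Fl b 2 := fun a =>
    add_mem (basis_mem_Fl (by simp [l])) (Submodule.smul_mem _ _ (basis_mem_Fl (by simp [o])))
  have h9 : ∀ a : K, r (b l + a • b o) 0 1 ∈ A := fun a => by
    obtain ⟨x, -, hx⟩ := h.exists_elem (p := p) hlo.symm hl2 (by simp only [o]; omega) a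
    have h10 := h.r_conj (h8 1 (map_one σ)).1 (x * w)
    rw [act_mul, hw, hx _ (basis_mem_Fl hl2), map_zero, b.repr_self, Finsupp.single_eq_same,
      mul_one] at h10
    exact h10 ▸ hc _ (h8 1 (map_one σ)).2 _
      (h10 ▸ h.mem_Uni (k := 2) (by omega) (hl a) (zero_mem _) (by simp))
  have hll : B (b l) (b l) = 0 := h.orth _ _ (by simp [Fin.ext_iff, l]; omega)
  have hlo' : B (b l) (b o) = 0 := h.orth _ _ (by simp [Fin.ext_iff, l, o]; omega)
  have h10 : ∀ u c, Val B (b o) u c → r (b o) u c ∈ A := fun u c =>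
    h.pr_all hcl h8 (e' := b l) (v' := b l.rev) (fun a => by
      have h11 : Val B (b o) (a • b l) (a * σ a) :=
        ⟨hoo, by simp [hlo'], by simp [hll, h.invol, mul_comm]⟩
      refine ⟨_, h11, (mul_mem_cancel_right (h9 0)).1 ?_⟩
      convert h9 (σ a) using 1
      refine h.ext fun x => ?_
      rw [act_mul, h.app h11, h.app (h.val_zero (h.orth_Fl (by omega) (hl _) (hl _)) (map_one σ)),
        h.app (h.val_zero (h.orth_Fl (by omega) (hl _) (hl _)) (map_one σ))]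
      simp only [map_add, map_smulₛₗ, LinearMap.add_apply, LinearMap.smul_apply, hll, hlo', h.invol,
        zero_smul, add_zero, smul_zero, map_zero, smul_eq_mul, RingHom.id_apply]
      module) hll (h.orth _ _ (by simpa using hlo)) (h.ne l)
  refine h.le_of_forall fun i hi u hu c hc' => ?_
  obtain ⟨g, hg⟩ : ∃ g, f g (b o) = b i := by
    rcases eq_or_ne o i with rfl | e
    · exact ⟨1, by simp⟩
    · exact (hsw i e hi 1 one_ne_zero).imp fun _ e => e.trans (one_smul _ _)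
  have h11 : b i ∈ Fl b (i + 1) := basis_mem_Fl (Nat.lt_succ_self _)
  have h12 := h.val_conj (h.val_of_mem (by omega) h11 hu hc') g⁻¹
  rw [← hg, act_inv] at h12
  have h13 := h.r_conj h12 g
  rw [hg, act_inv'] at h13
  exact h13 ▸ hc _ (h10 _ _ h12) g (h13 ▸ h.mem_Uni (by omega) h11 hu hc')

theorem simple (hn : 4 ≤ n) (hex : (∃ τ, τ + σ τ ≠ 0) ∨ 5 ≤ n ∨ ∃ a : K, a ≠ 0 ∧ a ≠ 1)
    (hd : ∀ g, LinearMap.det (f g) = 1) (hN : Odd n → ∀ s, σ s = s → ∃ a, a * σ a = s)
    (S : Sylow p (G ⧸ Subgroup.center G)) :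
    (groupFusionSystem (S : Subgroup (G ⧸ Subgroup.center G))).IsSimple p := by
  have hdg : ∀ g ∈ Bor b f, ∀ j, dg b f g j = 1 → dg b f g j.rev = 1 := fun g hg j hj => by
    have h1 := h.dg_mul_rev hg j.rev
    rwa [Fin.rev_rev, hj, map_one, mul_one] at h1
  refine simple_of_flag (b := b) h.inj h.normalizer_le ?_
    (fun A _ hc z => h.le_of_sc hn hex hc) (m := n / 2) (fun g hg h1 => ?_)
    (fun i hi g hg hg' => ?_) S
  · let o : Fin n := ⟨0, by omega⟩
    have h2 : o.rev ≠ o := by simp [Fin.ext_iff, o]; omega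
    refine ⟨r (b o.rev) 0 1, fun h1 => h.ne o ?_⟩
    simpa [h.app (h.val_zero (h.orth o.rev o.rev (by simpa using h2)) (map_one σ)), h2.symm] using
      Cl.mem_Bor.1 h1 1 _ (basis_mem_Fl (i := o) one_pos) o.rev (by simp [o]; omega)
  · have h2 : ∀ j : Fin n, (j : ℕ) ≠ n / 2 ∨ (j.rev : ℕ) < n / 2 → dg b f g j = 1 := fun j hj => by
      rcases lt_or_ge (j : ℕ) (n / 2) with e | e
      · exact h1 j e
      · simpa using hdg g hg j.rev (h1 _ (by have := j.2; rw [Fin.val_rev] at *; omega))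
    refine mem_Uni_of_dg hg fun i => ?_
    by_cases e : (i : ℕ) = n / 2
    · exact dg_eq_one_of_det hg (hd g) fun j hj => h2 j (.inl (e ▸ Fin.val_ne_of_ne hj))
    · exact h2 i (.inl e)
  obtain ⟨k, hk, hk', hki⟩ : ∃ k, 0 < k ∧ k ≤ n / 2 ∧ k ≠ i + 1 := by
    by_cases e : (i : ℕ) = 0
    exacts [⟨2, by omega⟩, ⟨1, by omega⟩]
  have h1 : ∀ x ∈ Yg b f i (n / 2), PE p x →
      x ∈ Yg b f i (n / 2) ⊓ hull p (Rad b f k (n - k)) := fun x hx hp =>
    ⟨hx, mem_hull (mem_normalizer_Rad (stab_of_mem_Yg hx hk' hki)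
      (h.stab_perp (by omega) (stab_of_mem_Yg hx hk' hki))) hp⟩
  suffices ∃ w ∈ Yg b f i (n / 2) ⊓ hull p (Rad b f k (n - k)),
      ∃ w' ∈ Yg b f i (n / 2) ⊓ hull p (Rad b f k (n - k)),
      f w' (b i) = dg b f g i • f w (b i) by
    obtain ⟨w, hw, w', hw', e⟩ := this
    obtain ⟨x, h3, h4, h5, h6⟩ := exists_step hw hw' e
    exact ⟨x, h.mem_Bor h4, h5, h6, _, Rad_le_Uni (by omega), h.centric hk (by omega), h3⟩
  rcases (Nat.succ_le_of_lt hi).eq_or_lt with e | e
  · have h2 : ∃ u ∈ Fl b (n - n / 2), B u (b i.rev) = 0 ∧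
        B u u = dg b f g i - σ (dg b f g i) := by
      rcases Nat.even_or_odd n with ⟨m, hm⟩ | hm
      · refine ⟨0, zero_mem _, by simp, ?_⟩
        have h2 := hd g
        rw [det_of_mem_Bor hg, Finset.prod_eq_mul i i.rev (by simp [Fin.ext_iff]; omega)
          (fun j _ hj => ?_) (by simp) (by simp)] at h2
        · have h3 := congrArg σ (h.dg_mul_rev hg i)
          rw [map_mul, h.invol, map_one, ← h2] at h3
          simp [mul_right_cancel₀ (dg_ne_zero hg _) h3]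
        · have := Fin.val_ne_of_ne hj.1
          have := Fin.val_ne_of_ne hj.2
          have := j.2
          rcases lt_or_ge j i with e' | e'
          · exact hg' j e'
          · simpa using hdg g hg j.rev (hg' _ (by
              simp only [Fin.lt_def, Fin.le_def, Fin.val_rev] at *; omega))
      · let j : Fin n := ⟨n / 2, by omega⟩
        have h2 : j.rev = j := by obtain ⟨m, hm⟩ := hm; simp [Fin.ext_iff, j]; omega
        have h3 := h.ne j
        have h4 := h.skew (b j) (b j)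
        rw [h2] at h3
        obtain ⟨a, ha⟩ := hN hm ((dg b f g i - σ (dg b f g i)) / B (b j) (b j)) (by
          rw [map_div₀, map_sub, h.invol, ← neg_div_neg_eq, ← h4, neg_sub])
        exact ⟨a • b j, Submodule.smul_mem _ _ (basis_mem_Fl (by
            obtain ⟨m, hm⟩ := hm; simp only [j]; omega)),
          by simp [h.orth j i.rev (by simp [Fin.ext_iff, j]; omega)],
          by rw [← div_mul_cancel₀ (_ - _) h3, ← ha]; simp; ring⟩
    have h3 : ∀ c ≠ 0, ∀ u ∈ Fl b (n - n / 2), B u (b i.rev) = 0 → B u u = c - σ c →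
        ∃ w ∈ Yg b f i (n / 2) ⊓ hull p (Rad b f k (n - k)),
          f w (b i) = c • σ (B (b i) (b i.rev))⁻¹ • b i.rev := fun c hc u hu h3 h4 => by
      have h5 : ∀ e u c, Val B e u c → (∀ v ∈ Fl b i, B v e = 0 ∧ B v u = 0) →
          r e u c ∈ Yg b f i (n / 2) ⊓ hull p (Rad b f k (n - k)) := fun e u c h5 h6 =>
        h1 _ (mem_Yg.2 ⟨mem_trv_bot.2 fun v hv => by simp [h.app h5, h6 v hv],
          fun l _ _ => by omega⟩) (h.pe h5)
      have hi' : b i ∈ Fl b (n / 2) := basis_mem_Fl hi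
      have hu' : ∀ v ∈ Fl b (n / 2), B v u = 0 := fun v hv => h.orth_Fl (by omega) hv hu
      have hσ : σ c ≠ 0 := (map_ne_zero σ).2 hc
      have h6 : Val B (σ (B (b i) (b i.rev))⁻¹ • b i.rev) u c :=
        ⟨by simp [h.orth i.rev i.rev (by simp [Fin.ext_iff]; omega)], by simp [h3], h4⟩
      have h7 : Val B (b i) (-c⁻¹ • u) (-c⁻¹) :=
        ⟨h.orth_Fl (by omega) hi' hi', by simp [h.symm (hu' _ hi')], by
          simp [h4]; field_simp; ring⟩
      refine ⟨(r _ _ _)⁻¹ * r _ _ _, mul_mem (inv_mem (h5 _ _ _ h7 fun v hv =>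
        ⟨h.orth_Fl (by omega) hv hi', by simp [hu' v (Fl_mono hi.le hv)]⟩)) (h5 _ _ _ h6 fun v hv =>
          ⟨by simp [h.repr_eq_zero.1 (hv i le_rfl)], hu' v (Fl_mono hi.le hv)⟩), ?_⟩
      have h8 : σ (B (b i) (b i.rev)) ≠ 0 := (map_ne_zero σ).2 (h.ne i)
      rw [act_mul, ← act_inv f (r (b i) (-c⁻¹ • u) (-c⁻¹)) (c • _), h.app h6, h.app h7]
      congr 1
      simp [h.invol, h.ne i, hu' _ hi', h.symm h3, h.skew (b i) (b i.rev), h8, smul_smul, hc]
      module
    obtain ⟨u, hu, h4, h5⟩ := h2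
    obtain ⟨w, hw, e1⟩ := h3 1 one_ne_zero 0 (zero_mem _) (by simp) (by simp)
    obtain ⟨w', hw', e2⟩ := h3 _ (dg_ne_zero hg i) u hu h4 h5
    exact ⟨w, hw, w', hw', by rw [e1, e2, one_smul]⟩
  · let j : Fin n := ⟨i + 1, by omega⟩
    have hij : i ≠ j := fun e => by simp [Fin.ext_iff, j] at e
    have h2 : ∀ a : K, a ≠ 0 → ∃ w ∈ Yg b f i (n / 2) ⊓ hull p (Rad b f k (n - k)), f w (b i) = a • b j :=
      fun a ha => h.exists_swap (p := p) hij hi e ha fun s t c x hs ht hp hx => h1 _ (mem_Yg.2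
        ⟨mem_trv_bot.2 fun v hv => by
          rw [hx v (Fl_mono hi.le hv), hv s (by rcases hs with rfl | rfl <;> simp [j])]; simp,
        fun l hl hl' v hv => by
          rw [hx v (Fl_mono hl' hv)]
          exact add_mem hv (Submodule.smul_mem _ _ (basis_mem_Fl (by
            rcases ht with rfl | rfl
            exacts [by omega, hl])))⟩) hp
    obtain ⟨w, hw, e1⟩ := h2 1 one_ne_zero
    obtain ⟨w', hw', e2⟩ := h2 _ (dg_ne_zero hg i)
    exact ⟨w, hw, w', hw', by rw [e1, e2, one_smul]⟩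

end Hyp

end Cfsg.Agent.H5.Cl
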