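import Cfsg.Agent.H5.Flag

/-!
# The fusion system of `PSL_n` in the defining characteristic
-/

set_option autoImplicit false
set_option maxHeartbeats 400000
set_option linter.unusedSectionVars false

namespace Cfsg.Agent.H5.Cl

open Cfsg Cfsg.Agent.L Module

variable {K V G : Type*} [Field K] [AddCommGroup V] [Module K V] [Group G] [Finite G] {n : ℕ}
  {b : Basis (Fin n) K V} {f : G →* End K V} {t : Dual K V → V → G}

/-- `G` acts faithfully on `V` and `t` gives the transvections. -/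
structure IsTv (f : G →* End K V) (t : Dual K V → V → G) : Prop where
  inj : Function.Injective f
  app : ∀ {φ : Dual K V} {v : V}, φ v = 0 → ∀ x, f (t φ v) x = x + φ x • v

namespace IsTv

variable (h : IsTv f t)
include h

theorem ext {x y : G} (e : ∀ v, f x v = f y v) : x = y := h.inj (LinearMap.ext e)

theorem add {φ ψ : Dual K V} {v : V} (h1 : φ v = 0) (h2 : ψ v = 0) :
    t (φ + ψ) v = t φ v * t ψ v := h.ext fun x => by
  rw [act_mul, h.app h1, h.app h2, h.app (by simp [h1, h2])]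
  simp only [LinearMap.add_apply, map_add, map_smul, h1]
  module

theorem conj {φ : Dual K V} {v w : V} (h1 : φ v = 0) {g : G} (hg : f g w = v) :
    g * t (φ ∘ₗ f g) w * g⁻¹ = t φ v := h.ext fun x => by
  rw [act_mul, act_mul, h.app h1, h.app (by simp [hg, h1])]
  simp [act_inv', hg]

theorem mem_Rad {φ : Dual K V} {v : V} {k : ℕ} (hk : k ≤ n) (hv : v ∈ Fl b k)
    (hφ : ∀ x ∈ Fl b k, φ x = 0) : t φ v ∈ Rad b f k n :=
  (Cl.mem_Rad hk).2 ⟨fun x hx => by simp [h.app (hφ v hv), hφ x hx],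
    fun x _ => by simpa [h.app (hφ v hv)] using Submodule.smul_mem _ _ hv,
    fun _ => mem_Fl_of_le le_rfl _⟩

theorem mem_Uni {φ : Dual K V} {i : Fin n} (hφ : ∀ x ∈ Fl b (i + 1), φ x = 0) :
    t φ (b i) ∈ Uni b f :=
  Rad_le_Uni i.2 (h.mem_Rad i.2 (basis_mem_Fl (Nat.lt_succ_self _)) hφ)

theorem normalizer_le : Subgroup.normalizer (Uni b f : Set G) ≤ Bor b f := fun g hg =>
  Subgroup.mem_iInf.2 fun k => by
    rcases le_or_gt n k with e | e
    · exact fun v _ => mem_Fl_of_le e _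
    refine stab_of_mem_normalizer (m := n) (fun k hk v hv j hj => ?_) hg k e.le
    have h1 : ∀ x ∈ Fl b (k + 1), b.coord j x = 0 := fun x hx => hx j hj
    have h2 := hv _ (h.mem_Uni (i := ⟨k, hk⟩) h1) ⟨k, hk⟩ le_rfl
    simpa [h.app (h1 _ (basis_mem_Fl (i := ⟨k, hk⟩) (Nat.lt_succ_self _)))] using h2

theorem swap {i j : Fin n} (hij : i ≠ j) {a : K} (ha : a ≠ 0) :
    f (t (-a⁻¹ • b.coord j) (b i) * t (a • b.coord i) (b j)) (b i) = a • b j := by
  rw [act_mul, h.app (by simp [hij.symm]), h.app (by simp [hij])]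
  simp [hij, ha]

variable {p : ℕ} [Fact p.Prime] [CharP K p]

theorem pe {φ : Dual K V} {v : V} (h1 : φ v = 0) : PE p (t φ v) :=
  pe_of_nilpotent h.inj ⟨2, LinearMap.ext fun x => by simp [pow_two, h.app h1, h1]⟩

theorem centric {k : ℕ} (h0 : 0 < k) (hk : k < n) :
    ∀ x ∈ Subgroup.centralizer (Rad b f k n : Set G), PE p x → x ∈ Rad b f k n := by
  intro x hx hp
  have h1 : ∀ j : Fin n, k ≤ j → ∀ v ∈ Fl b k, ∀ w,
      b.repr w j • f x v = b.repr (f x w) j • v := fun j hj v hv w => by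
    have h2 : ∀ x ∈ Fl b k, b.coord j x = 0 := fun x hx => hx j hj
    have h3 := congrArg (fun y => f y w) (hx _ (h.mem_Rad hk.le hv h2))
    simpa [act_mul, h.app (h2 v hv), eq_comm] using h3
  have h2 : ∀ v ∈ Fl b k, f x v = v := fun v hv =>
    hp.fix (by simpa using h1 ⟨k, hk⟩ le_rfl v hv (b ⟨k, hk⟩))
  refine (Cl.mem_Rad hk.le).2 ⟨h2, fun w _ j hj => ?_, fun _ => mem_Fl_of_le le_rfl _⟩
  have h3 : b ⟨0, h0.trans hk⟩ ∈ Fl b k := basis_mem_Fl h0
  have h4 := h1 j hj _ h3 w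
  rw [h2 _ h3] at h4
  simpa [sub_eq_zero] using (smul_left_injective K (b.ne_zero _) h4).symm

theorem le_of_sc (hn : 3 ≤ n) {A : Subgroup G}
    (hc : ∀ x ∈ A, ∀ g : G, g * x * g⁻¹ ∈ Uni b f → g * x * g⁻¹ ∈ A) {z : G} (hz : z ∈ A)
    (hz1 : z ≠ 1) (hzp : PE p z) (hzc : z ∈ Subgroup.centralizer (Uni b f : Set G)) : Uni b f ≤ A := by
  let o : Fin n := ⟨0, by omega⟩
  have hU : ∀ φ : Dual K V, φ (b o) = 0 → t φ (b o) ∈ Uni b f := fun φ hφ =>
    h.mem_Uni fun x hx => by rw [eq_smul_of_mem_Fl_one (i := o) rfl hx, map_smul, hφ, smul_zero]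
  have hR : ∀ φ ψ : Dual K V, φ (b o) = 0 → t φ (b o) ∈ A → ∀ w, φ w ≠ 0 → ψ w = 0 →
      ψ (b o) = 0 → t ψ (b o) ∈ A := fun φ ψ h1 h2 w h3 h4 h5 => by
    have h6 : ψ ((φ w)⁻¹ • w) = 0 := by simp [h4]
    have h7 : f (t ψ ((φ w)⁻¹ • w)) (b o) = b o := by simp [h.app h6, h5]
    have h8 : φ ∘ₗ f (t ψ ((φ w)⁻¹ • w)) = φ + ψ := LinearMap.ext fun x => by
      simp [h.app h6, h3]
    have h9 := h.conj h1 h7
    rw [h8, mul_inv_eq_iff_eq_mul, ← eq_inv_mul_iff_mul_eq, ← mul_assoc] at h9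
    have h10 := hc _ h2 (t ψ ((φ w)⁻¹ • w))⁻¹
    rw [inv_inv, ← h9] at h10
    have h11 := h10 (hU _ (by simp [h1, h5]))
    rwa [h.add h1 h5, mul_mem_cancel_left h2] at h11
  obtain ⟨h1, h2, -⟩ := (Cl.mem_Rad (by omega)).1 (h.centric one_pos (by omega) z
    (fun y hy => hzc y (Rad_le_Uni (by omega) hy)) hzp)
  let φ := b.coord o ∘ₗ (f z - 1)
  have hφ : φ (b o) = 0 := by simp [φ, h1 _ (basis_mem_Fl (i := o) one_pos)]
  have hzφ : z = t φ (b o) := h.ext fun v => by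
    rw [h.app hφ, ← sub_eq_iff_eq_add']
    exact eq_smul_of_mem_Fl_one rfl (h2 v (mem_Fl_of_le le_rfl _))
  obtain ⟨j, hj⟩ : ∃ j, φ (b j) ≠ 0 := by
    by_contra! h0
    exact hz1 (h.ext fun v => by rw [hzφ, h.app hφ, b.ext (f₂ := 0) h0]; simp)
  have hjo : j ≠ o := fun e => hj (e ▸ hφ)
  obtain ⟨l, hl, hl'⟩ : ∃ l : Fin n, o ≠ l ∧ j ≠ l := by
    by_cases e : (j : ℕ) = 1
    · exact ⟨⟨2, by omega⟩, by simp [o], fun e' => by simp [e'] at e⟩
    · exact ⟨⟨1, by omega⟩, by simp [o], fun e' => e (by simp [e'])⟩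
  have h3 : ∀ ψ : Dual K V, ψ (b o) = 0 → t ψ (b o) ∈ A := fun ψ hψ => by
    have h4 := hR φ (b.coord l) hφ (hzφ ▸ hz) _ hj (by simp [hl']) (by simp [hl])
    have h5 : (ψ (b j) • b.coord j) (b o) = 0 := by simp [hjo.symm]
    have h6 : (ψ - ψ (b j) • b.coord j) (b o) = 0 := by simp [hjo.symm, hψ]
    rw [← sub_add_cancel ψ (ψ (b j) • b.coord j), h.add h6 h5]
    exact mul_mem (hR φ _ hφ (hzφ ▸ hz) _ hj (by simp) h6)
      (hR _ _ (by simp [hl]) h4 (b l) (by simp) (by simp [hl'.symm]) h5)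
  have h4 : ∀ (i : Fin n) (ψ : Dual K V), (∀ x ∈ Fl b (i + 1), ψ x = 0) → t ψ (b i) ∈ A := by
    intro i ψ hψ
    have h5 := hψ _ (basis_mem_Fl (Nat.lt_succ_self _))
    obtain ⟨g, hg⟩ : ∃ g, f g (b o) = b i := by
      rcases eq_or_ne o i with rfl | e
      · exact ⟨1, by simp⟩
      · exact ⟨_, (h.swap e one_ne_zero).trans (one_smul _ _)⟩
    rw [← h.conj h5 hg]
    exact hc _ (h3 _ (by simp [hg, h5])) g (by rw [h.conj h5 hg]; exact h.mem_Uni hψ)
  have h5 : ∀ k, ∀ x ∈ Uni b f, (∀ v, f x v - v ∈ Fl b k) → x ∈ A := fun k => by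
    induction k with
    | zero =>
      intro x _ hx
      rw [h.ext (x := x) (y := 1) fun v => by simpa [sub_eq_zero] using eq_zero_of_mem_Fl (hx v)]
      exact one_mem _
    | succ k ih =>
      intro x hx hx'
      rcases le_or_gt n k with e | e
      · exact ih x hx fun v => mem_Fl_of_le e _
      let i : Fin n := ⟨k, e⟩
      have h6 : ∀ v ∈ Fl b (i + 1), (-(b.coord i ∘ₗ (f x - 1))) v = 0 := fun v hv => by
        exact neg_eq_zero.2 (Cl.mem_Uni.1 hx k v hv i le_rfl)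
      rw [← mul_mem_cancel_left (h4 i _ h6)]
      refine ih _ (mul_mem (h.mem_Uni h6) hx) fun v => ?_
      have h7 := h6 _ (hx' v)
      rw [map_sub, sub_eq_zero] at h7
      rw [act_mul, h.app (h6 _ (basis_mem_Fl (Nat.lt_succ_self _))), h7]
      convert sub_mem_Fl (i := i) (hx' v) using 1
      simp only [LinearMap.neg_apply, LinearMap.comp_apply, LinearMap.sub_apply, End.one_apply,
        Basis.coord_apply]
      module
  exact fun x hx => h5 n x hx fun v => mem_Fl_of_le le_rfl _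

theorem simple (b : Basis (Fin n) K V) (hn : 3 ≤ n) (hd : ∀ g, LinearMap.det (f g) = 1)
    (S : Sylow p (G ⧸ Subgroup.center G)) :
    (groupFusionSystem (S : Subgroup (G ⧸ Subgroup.center G))).IsSimple p := by
  refine simple_of_flag (b := b) h.inj h.normalizer_le ?_
    (fun A _ hc z => h.le_of_sc hn hc) (m := n - 1) (fun g hg h1 => ?_)
    (fun i hi g hg _ => ?_) S
  · refine ⟨t (b.coord ⟨0, by omega⟩) (b ⟨1, by omega⟩), fun h1 => ?_⟩
    have h2 := mem_Bor.1 h1 1 _ (basis_mem_Fl (i := ⟨0, by omega⟩) one_pos) ⟨1, by omega⟩ le_rfl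
    rw [h.app (by simp)] at h2
    simp at h2
  · refine mem_Uni_of_dg hg fun i => ?_
    rcases lt_or_ge (i : ℕ) (n - 1) with e | e
    · exact h1 i e
    · exact dg_eq_one_of_det hg (hd g) fun j hj => h1 j (by
        have := Fin.val_ne_of_ne hj; omega)
  · let j : Fin n := ⟨i + 1, by omega⟩
    have hij : i ≠ j := fun e => by simp [Fin.ext_iff, j] at e
    obtain ⟨k, hk, hk', hki⟩ : ∃ k, 0 < k ∧ k < n ∧ k ≠ i + 1 := by
      by_cases e : (i : ℕ) = 0
      exacts [⟨2, by omega⟩, ⟨1, by omega⟩]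
    have h1 : ∀ (r s : Fin n) (a : K), r ≠ s → i ≤ s → (r : ℕ) < i + 2 →
        t (a • b.coord s) (b r) ∈ Yg b f i n ⊓ hull p (Rad b f k n) := fun r s a hrs hs hr => by
      have h2 : (a • b.coord s) (b r) = 0 := by simp [hrs]
      have h3 : t (a • b.coord s) (b r) ∈ Yg b f i n := mem_Yg.2
        ⟨mem_trv_bot.2 fun v hv => by simp [h.app h2, hv s hs], fun l hl _ v hv => by
          rw [h.app h2]; exact add_mem hv (Submodule.smul_mem _ _ (basis_mem_Fl (by omega)))⟩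
      exact ⟨h3, mem_hull (mem_normalizer_Rad (stab_of_mem_Yg h3 hk'.le hki)
        fun v _ => mem_Fl_of_le le_rfl _) (h.pe h2)⟩
    have h2 : ∀ a : K, t (-a⁻¹ • b.coord j) (b i) * t (a • b.coord i) (b j) ∈
        Yg b f i n ⊓ hull p (Rad b f k n) := fun a =>
      mul_mem (h1 _ _ _ hij (Nat.le_succ _) (by omega)) (h1 _ _ _ hij.symm le_rfl (by simp [j]))
    obtain ⟨x, h3, h4, h5, h6⟩ := exists_step (a := dg b f g i) (h2 1) (h2 (dg b f g i))
      (by rw [h.swap hij one_ne_zero, h.swap hij (dg_ne_zero hg i), one_smul])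
    refine ⟨x, Subgroup.mem_iInf.2 fun l => ?_, h5, h6, _, Rad_le_Uni hk'.le,
      h.centric hk hk', h3⟩
    rcases le_total l n with e | e
    exacts [h4 l e, fun v _ => mem_Fl_of_le e _]

end IsTv

theorem psl_simple {K : Type*} [Field K] [Finite K] {p : ℕ} [Fact p.Prime] [CharP K p] {n : ℕ}
    (hn : 3 ≤ n) (S : Sylow p (Matrix.ProjectiveSpecialLinearGroup (Fin n) K)) :
    (groupFusionSystem (S : Subgroup (Matrix.ProjectiveSpecialLinearGroup (Fin n) K))).IsSimple p := by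
  let f : Matrix.SpecialLinearGroup (Fin n) K →* End K (Fin n → K) :=
    (Matrix.toLinAlgEquiv' : _ ≃ₐ[K] _).toMonoidHom.comp (slToMat n K)
  have h : ∀ (φ : Dual K (Fin n → K)) (v : Fin n → K), ∃ g, φ v = 0 →
      ∀ x, f g x = x + φ x • v := fun φ v => by
    by_cases e : φ v = 0
    · refine ⟨⟨LinearMap.toMatrix' (LinearMap.transvection φ v), by
        rw [LinearMap.det_toMatrix', LinearMap.transvection.det, e, add_zero]⟩, fun _ x => ?_⟩
      exact (LinearMap.congr_fun (Matrix.toLin'_toMatrix' (LinearMap.transvection φ v)) x).trans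
        (LinearMap.transvection.apply φ v x)
    · exact ⟨1, fun e' => absurd e' e⟩
  choose t ht using h
  exact IsTv.simple (f := f) (t := t) ⟨fun x y e => Subtype.ext
    ((Matrix.toLinAlgEquiv' : _ ≃ₐ[K] _).injective e), fun {φ v} => ht φ v⟩ (Pi.basisFun K _) hn
    (fun g => (LinearMap.det_toLin' _).trans g.2) S

end Cfsg.Agent.H5.Cl
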