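import Mathlib

/-! Frobenius' formula for the characters of symmetric groups: the combinatorial part. -/

set_option autoImplicit false

namespace Cfsg.Agent.H5.Sym

open Finset Equiv

variable {ι : Type*} [Fintype ι] [DecidableEq ι]

/-- multiplication by the power sum `p_k` on coefficient functions -/
def T (k : ℕ) (F : (ι → ℤ) → ℤ) : (ι → ℤ) → ℤ := fun β => ∑ i, F (β - Pi.single i (k : ℤ))

instance instLeftCommT : LeftCommutative (T (ι := ι)) where
  left_comm k l F := by
    funext β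
    simp only [T]
    rw [sum_comm]
    refine sum_congr rfl fun i _ => sum_congr rfl fun j _ => ?_
    rw [sub_right_comm]

/-- coefficients of the alternant `a_κ` -/
def vac (κ β : ι → ℤ) : ℤ := ∑ w : Perm ι, if β = κ ∘ w then ((Perm.sign w : ℤˣ) : ℤ) else 0

/-- coefficients of `p_μ a_κ` -/
def X (κ : ι → ℤ) (μ : Multiset ℕ) : (ι → ℤ) → ℤ := μ.foldr T (vac κ)

theorem X_zero (κ : ι → ℤ) : X κ 0 = vac κ := rfl

theorem X_cons (κ : ι → ℤ) (k : ℕ) (μ : Multiset ℕ) (β : ι → ℤ) :
    X κ (k ::ₘ μ) β = ∑ i, X κ μ (β - Pi.single i (k : ℤ)) := by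
  rw [X, Multiset.foldr_cons]; rfl

theorem X_add (κ : ι → ℤ) (μ ν : Multiset ℕ) : X κ (μ + ν) = μ.foldr T (X κ ν) :=
  Multiset.foldr_add _ _ _ _

def Anti (F : (ι → ℤ) → ℤ) : Prop :=
  ∀ (β : ι → ℤ) (w : Perm ι), F (β ∘ w) = ((Perm.sign w : ℤˣ) : ℤ) * F β

theorem sign_mul_sign (w : Perm ι) : ((Perm.sign w : ℤˣ) : ℤ) * (Perm.sign w : ℤˣ) = 1 := by
  rw [← Units.val_mul, Int.units_mul_self, Units.val_one]

theorem anti_vac (κ : ι → ℤ) : Anti (vac κ) := fun β w => by
  simp only [vac, mul_sum]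
  rw [← Equiv.sum_comp (Equiv.mulRight w)]
  refine sum_congr rfl fun v _ => ?_
  have : β ∘ w = κ ∘ ⇑(v * w) ↔ β = κ ∘ v := by
    rw [Perm.coe_mul, ← Function.comp_assoc]
    exact w.surjective.right_cancellable
  simp only [Equiv.coe_mulRight, this]
  split_ifs
  · simp [mul_comm]
  · simp

omit [Fintype ι] in
theorem single_comp (w : Perm ι) (i : ι) (k : ℤ) :
    (Pi.single (w i) k : ι → ℤ) ∘ w = Pi.single i k := by
  funext j; simp [Pi.single_apply]

theorem Anti.T {F : (ι → ℤ) → ℤ} (h : Anti F) (k : ℕ) : Anti (T k F) := fun β w => by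
  simp only [Sym.T, mul_sum]
  refine Fintype.sum_equiv w _ _ fun i => ?_
  rw [← h, ← single_comp w i]; rfl

theorem anti_X (κ : ι → ℤ) (μ : Multiset ℕ) : Anti (X κ μ) := by
  induction μ using Multiset.induction_on with
  | empty => exact anti_vac κ
  | cons k μ ih => rw [X, Multiset.foldr_cons]; exact ih.T k

theorem Anti.eq_zero {F : (ι → ℤ) → ℤ} (h : Anti F) {β : ι → ℤ} {i j : ι} (hij : i ≠ j)
    (e : β i = β j) : F β = 0 := by
  have h1 := h β (swap i j)
  have : β ∘ swap i j = β := by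
    funext a
    simp only [Function.comp, swap_apply_def]
    split_ifs with h1 h2
    · rw [h1, e]
    · rw [h2, e]
    · rfl
  rw [this, Perm.sign_swap hij] at h1
  simp only [Units.val_neg, Units.val_one] at h1
  omega

theorem Anti.inj {F : (ι → ℤ) → ℤ} (h : Anti F) {β : ι → ℤ} (h0 : F β ≠ 0) :
    Function.Injective β := fun i j e => by_contra fun hij => h0 (h.eq_zero hij e)

theorem vac_ne_zero {κ β : ι → ℤ} (h : vac κ β ≠ 0) : ∃ w : Perm ι, β = κ ∘ w := by
  obtain ⟨w, -, hw⟩ := exists_ne_zero_of_sum_ne_zero h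
  exact ⟨w, by_contra fun e => hw (if_neg e)⟩

theorem vac_self {κ : ι → ℤ} (h : Function.Injective κ) : vac κ κ = 1 := by
  rw [vac, sum_eq_single 1]
  · simp
  · refine fun w _ hw => if_neg fun e => hw (Equiv.ext fun i => ?_)
    exact (h (congrFun e i)).symm
  · simp

theorem vac_comp {κ : ι → ℤ} (h : Function.Injective κ) (w : Perm ι) :
    vac κ (κ ∘ w) = ((Perm.sign w : ℤˣ) : ℤ) := by
  rw [anti_vac, vac_self h, mul_one]

theorem sum_sub_single (β : ι → ℤ) (i : ι) (k : ℤ) :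
    ∑ j, (β - Pi.single i k : ι → ℤ) j = ∑ j, β j - k := by
  simp [sum_sub_distrib]

theorem dvd_congr' {e a b : ℤ} (h : e ∣ a) (hab : b = a := by ring) : e ∣ b := hab ▸ h

theorem X_ne_zero {κ : ι → ℤ} {e : ℕ} {μ : Multiset ℕ} (he : ∀ k ∈ μ, e ∣ k) {β : ι → ℤ}
    (h : X κ μ β ≠ 0) : (∃ w : Perm ι, ∀ i, κ (w i) ≤ β i ∧ (e : ℤ) ∣ β i - κ (w i)) ∧
      ∑ i, β i = ∑ i, κ i + μ.sum := by
  induction μ using Multiset.induction_on generalizing β with
  | empty =>
    obtain ⟨w, rfl⟩ := vac_ne_zero h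
    exact ⟨⟨w, fun i => by simp⟩, by simp [Equiv.sum_comp w κ]⟩
  | cons k μ ih =>
    rw [X_cons] at h
    obtain ⟨i, -, hi⟩ := exists_ne_zero_of_sum_ne_zero h
    obtain ⟨⟨w, hw⟩, hs⟩ := ih (fun k hk => he k (Multiset.mem_cons_of_mem hk)) hi
    rw [sum_sub_single] at hs
    refine ⟨⟨w, fun j => ?_⟩, by rw [Multiset.sum_cons, Nat.cast_add]; linarith⟩
    obtain ⟨h1, h2⟩ := hw j
    have hk : (e : ℤ) ∣ k := Int.natCast_dvd_natCast.2 (he k (Multiset.mem_cons_self _ _))
    simp only [Pi.sub_apply, Pi.single_apply] at h1 h2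
    split_ifs at h1 h2
    · exact ⟨by omega, dvd_congr' (h2.add hk)⟩
    · exact ⟨by omega, by simpa using h2⟩

/-- injective tuples of natural numbers -/
structure Good (β : ι → ℤ) : Prop where
  inj : Function.Injective β
  nn : ∀ i, 0 ≤ β i

theorem good_of_X {κ : ι → ℤ} (hκ : ∀ i, 0 ≤ κ i) {μ : Multiset ℕ} {β : ι → ℤ}
    (h : X κ μ β ≠ 0) : Good β := by
  obtain ⟨⟨w, hw⟩, -⟩ := X_ne_zero (e := 1) (fun k _ => one_dvd k) h
  exact ⟨(anti_X κ μ).inj h, fun i => (hκ _).trans (hw i).1⟩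

theorem sum_of_X {κ : ι → ℤ} {μ : Multiset ℕ} {β : ι → ℤ} (h : X κ μ β ≠ 0) :
    ∑ i, β i = ∑ i, κ i + μ.sum := (X_ne_zero (e := 1) (fun k _ => one_dvd k) h).2

/-- all beads are pushed up on the abacus with `e` runners -/
structure IsCore (e : ℕ) (κ : ι → ℤ) : Prop extends Good κ where
  down : ∀ i, (e : ℤ) ≤ κ i → ∃ j, κ j = κ i - e

omit [Fintype ι] [DecidableEq ι] in
theorem IsCore.down' {e : ℕ} {κ : ι → ℤ} (h : IsCore e κ) (i : ι) (t : ℕ) (ht : e * t ≤ κ i) :
    ∃ j, κ j = κ i - e * t := by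
  induction t with
  | zero => exact ⟨i, by simp⟩
  | succ t ih =>
    push_cast at ht
    obtain ⟨j, hj⟩ := ih (by nlinarith)
    obtain ⟨l, hl⟩ := h.down j (by linarith)
    exact ⟨l, by push_cast; linarith⟩

omit [Fintype ι] [DecidableEq ι] in
theorem IsCore.exists_eq {e : ℕ} {κ : ι → ℤ} (h : IsCore e κ) (i : ι) {m : ℤ} (h0 : 0 ≤ m)
    (hm : m ≤ κ i) (hd : (e : ℤ) ∣ κ i - m) : ∃ j, κ j = m := by
  obtain ⟨t, ht⟩ := hd
  rcases Nat.eq_zero_or_pos e with rfl | he
  · exact ⟨i, by simp at ht; omega⟩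
  have : 0 ≤ t := by by_contra hn; nlinarith
  obtain ⟨t, rfl⟩ := Int.eq_ofNat_of_zero_le this
  obtain ⟨j, hj⟩ := h.down' i t (by omega)
  exact ⟨j, by omega⟩

/-- the number of beads above bead `i` on its runner -/
def rk (e : ℕ) (β : ι → ℤ) (i : ι) : ℕ := #{j | β j < β i ∧ (e : ℤ) ∣ β i - β j}

/-- the core arrangement -/
def cor (e : ℕ) (β : ι → ℤ) (i : ι) : ℤ := β i % e + e * rk e β i

omit [DecidableEq ι] in
theorem rk_lt_rk {e : ℕ} {β : ι → ℤ} {i j : ι} (h : β j < β i) (hd : (e : ℤ) ∣ β i - β j) :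
    rk e β j < rk e β i := by
  refine card_lt_card ⟨fun l => ?_, fun hs => ?_⟩
  · simp only [mem_filter, mem_univ, true_and]
    exact fun ⟨h1, h2⟩ => ⟨h1.trans h, by simpa using hd.add h2⟩
  · have : j ∈ ({j | β j < β i ∧ (e : ℤ) ∣ β i - β j} : Finset ι) := by simp [h, hd]
    simpa using hs this

omit [DecidableEq ι] in
theorem dvd_sub_cor (e : ℕ) (β : ι → ℤ) (i : ι) : (e : ℤ) ∣ β i - cor e β i :=
  ⟨β i / e - rk e β i, by have := Int.emod_add_mul_ediv (β i) e; rw [cor]; linarith⟩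

omit [Fintype ι] [DecidableEq ι] in
theorem emod_eq_of_dvd {e a b : ℤ} (h : e ∣ a - b) : a % e = b % e :=
  Int.emod_eq_emod_iff_emod_sub_eq_zero.2 (Int.emod_eq_zero_of_dvd h)

omit [DecidableEq ι] in
theorem card_le_of_lt {e : ℕ} (he : 0 < e) {β : ι → ℤ} (h : Good β) (r : ℤ)
    (hre : r < e) (t : ℕ) : #{j | β j < r + e * t ∧ (e : ℤ) ∣ r - β j} ≤ t := by
  have he' : (0 : ℤ) < e := by exact_mod_cast he
  refine le_trans (card_le_card_of_injOn (t := range t) (fun j => (β j / e).toNat) (fun j hj => ?_)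
    fun j hj l hl hjl => ?_) (card_range t).le
  · simp only [coe_filter, mem_univ, true_and, Set.mem_setOf_eq] at hj
    have h1 := Int.ediv_nonneg (h.nn j) he'.le
    simp only [coe_range, Set.mem_Iio, Int.toNat_lt h1]
    obtain ⟨s, hs⟩ := hj.2
    rw [Int.ediv_lt_iff_lt_mul he']
    have : -s < t := by nlinarith [hj.1]
    nlinarith
  · simp only [coe_filter, mem_univ, true_and, Set.mem_setOf_eq] at hj hl
    have h1 := Int.ediv_nonneg (h.nn j) he'.le
    have h2 := Int.ediv_nonneg (h.nn l) he'.le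
    have h3 : β j / e = β l / e := by simp only at hjl; omega
    have h4 : β j % e = β l % e := emod_eq_of_dvd (by simpa using hl.2.sub hj.2)
    apply h.inj
    rw [← Int.emod_add_mul_ediv (β j) e, ← Int.emod_add_mul_ediv (β l) e, h3, h4]

omit [DecidableEq ι] in
theorem rk_le {e : ℕ} (he : 0 < e) {β : ι → ℤ} (h : Good β) (i : ι) :
    (rk e β i : ℤ) ≤ β i / e := by
  have he' : (0 : ℤ) < e := by exact_mod_cast he
  have h1 := Int.ediv_nonneg (h.nn i) he'.le
  have h2 := card_le_of_lt he h (β i % e) (Int.emod_lt_of_pos _ he') (β i / e).toNat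
  rw [Int.toNat_of_nonneg h1, Int.emod_add_mul_ediv] at h2
  have : rk e β i ≤ (β i / e).toNat := by
    refine le_trans (card_le_card fun j => ?_) h2
    simp only [mem_filter, mem_univ, true_and]
    refine fun ⟨h3, h4⟩ => ⟨h3, ?_⟩
    exact dvd_congr' (h4.add (Int.dvd_sub_self_of_emod_eq (a := β i) (b := e) rfl))
  omega

omit [DecidableEq ι] in
theorem cor_le {e : ℕ} (he : 0 < e) {β : ι → ℤ} (h : Good β) (i : ι) : cor e β i ≤ β i := by
  have he' : (0 : ℤ) < e := by exact_mod_cast he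
  have := rk_le he h i
  have := Int.emod_add_mul_ediv (β i) e
  rw [cor]; nlinarith

omit [DecidableEq ι] in
theorem cor_emod (e : ℕ) (β : ι → ℤ) (i : ι) : cor e β i % e = β i % e :=
  (emod_eq_of_dvd (dvd_sub_cor e β i)).symm

omit [DecidableEq ι] in
theorem cor_ediv {e : ℕ} (he : 0 < e) (β : ι → ℤ) (i : ι) : cor e β i / e = rk e β i := by
  have he' : (0 : ℤ) < e := by exact_mod_cast he
  rw [cor, Int.add_mul_ediv_left _ _ he'.ne',
    Int.ediv_eq_zero_of_lt (Int.emod_nonneg _ he'.ne') (Int.emod_lt_of_pos _ he'), zero_add]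

omit [DecidableEq ι] in
theorem isCore_cor {e : ℕ} (he : 0 < e) {β : ι → ℤ} (h : Good β) : IsCore e (cor e β) := by
  classical
  have he' : (0 : ℤ) < e := by exact_mod_cast he
  refine ⟨⟨fun i j hij => ?_, fun i => ?_⟩, fun i hi => ?_⟩
  · have h1 : (e : ℤ) ∣ β i - β j := by
      have := (dvd_sub_cor e β i).sub (dvd_sub_cor e β j)
      rw [hij] at this; simpa using this
    have h2 : rk e β i = rk e β j := by
      have := cor_ediv he β i
      rw [hij, cor_ediv he] at this; exact_mod_cast this.symm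
    rcases lt_trichotomy (β i) (β j) with h3 | h3 | h3
    · exact absurd h2 (rk_lt_rk h3 (dvd_sub_comm.1 h1)).ne
    · exact h.inj h3
    · exact absurd h2 (rk_lt_rk h3 h1).ne'
  · exact add_nonneg (Int.emod_nonneg _ he'.ne') (by positivity)
  · have h1 : 0 < rk e β i := Nat.pos_of_ne_zero fun h0 => by
      have := Int.emod_lt_of_pos (β i) he'
      rw [cor, h0] at hi; simp at hi; omega
    obtain ⟨j, hj, hm⟩ := exists_max_image _ β (card_pos.1 h1)
    simp only [mem_filter, mem_univ, true_and] at hj hm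
    have h2 : rk e β i = rk e β j + 1 := by
      rw [rk, rk, ← card_insert_of_notMem (a := j) (by simp)]
      congr 1; ext l
      simp only [mem_filter, mem_univ, true_and, mem_insert]
      constructor
      · rintro ⟨h3, h4⟩
        rcases (hm l ⟨h3, h4⟩).eq_or_lt with h5 | h5
        · exact Or.inl (h.inj h5)
        · exact Or.inr ⟨h5, by simpa using h4.sub hj.2⟩
      · rintro (rfl | ⟨h3, h4⟩)
        · exact hj
        · exact ⟨h3.trans hj.1, by simpa using hj.2.add h4⟩
    refine ⟨j, ?_⟩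
    rw [cor, cor, h2, emod_eq_of_dvd hj.2]; push_cast; ring

theorem IsCore.exists_perm {e : ℕ} (he : 0 < e) {κ γ : ι → ℤ} (h : IsCore e κ) (hγ : Good γ)
    (hd : ∀ i, (e : ℤ) ∣ γ i - κ i) : ∃ w : Perm ι, cor e γ = κ ∘ w := by
  have he' : (0 : ℤ) < e := by exact_mod_cast he
  have key : ∀ i, ∃ j, κ j = cor e γ i := fun i => by
    have h1 := card_le_of_lt he h.toGood (γ i % e) (Int.emod_lt_of_pos _ he') (rk e γ i)
    have h0 : (e : ℤ) ∣ γ i % e - γ i := Int.dvd_sub_self_of_emod_eq rfl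
    obtain ⟨j, hj, hl⟩ : ∃ j, (e : ℤ) ∣ γ i - γ j ∧ cor e γ i ≤ κ j := by
      by_contra hn
      push Not at hn
      have : insert i (univ.filter fun j => γ j < γ i ∧ (e : ℤ) ∣ γ i - γ j) ⊆
          univ.filter fun j => κ j < γ i % e + e * rk e γ i ∧ (e : ℤ) ∣ γ i % e - κ j := by
        intro j hj
        have h2 : (e : ℤ) ∣ γ i - γ j := by
          rcases mem_insert.1 hj with rfl | hj
          · simp
          · exact (mem_filter.1 hj).2.2
        simp only [mem_filter, mem_univ, true_and]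
        exact ⟨hn j h2, dvd_congr' ((h0.add h2).add (hd j))⟩
      have h3 := card_le_card this
      rw [card_insert_of_notMem (by simp)] at h3
      unfold rk at h1 h3
      omega
    refine h.exists_eq j ((isCore_cor he hγ).nn i) hl ?_
    exact dvd_congr' (((dvd_sub_cor e γ i).sub hj).sub (hd j))
  choose w hw using key
  have hi : Function.Injective w := fun i j e' => (isCore_cor he hγ).inj (by rw [← hw, ← hw, e'])
  exact ⟨Equiv.ofBijective w (Finite.injective_iff_bijective.1 hi), funext fun i => (hw i).symm⟩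

theorem IsCore.sum_cor {e : ℕ} (he : 0 < e) {κ γ : ι → ℤ} (h : IsCore e κ) (hγ : Good γ)
    (hd : ∀ i, (e : ℤ) ∣ γ i - κ i) : ∑ i, cor e γ i = ∑ i, κ i := by
  obtain ⟨w, hw⟩ := h.exists_perm he hγ hd
  rw [hw]; exact Equiv.sum_comp w κ

theorem IsCore.sum_le {e : ℕ} (he : 0 < e) {κ γ : ι → ℤ} (h : IsCore e κ) (hγ : Good γ)
    (hd : ∀ i, (e : ℤ) ∣ γ i - κ i) : ∑ i, κ i ≤ ∑ i, γ i :=
  h.sum_cor he hγ hd ▸ sum_le_sum fun i _ => cor_le he hγ i

theorem IsCore.eq_of_sum {e : ℕ} (he : 0 < e) {κ γ : ι → ℤ} (h : IsCore e κ) (hγ : Good γ)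
    (hd : ∀ i, (e : ℤ) ∣ γ i - κ i) (hs : ∑ i, γ i = ∑ i, κ i) : ∃ w : Perm ι, γ = κ ∘ w := by
  obtain ⟨w, hw⟩ := h.exists_perm he hγ hd
  refine ⟨w, hw ▸ funext fun i => ?_⟩
  exact ((sum_eq_sum_iff_of_le fun i _ => cor_le he hγ i).1
    ((h.sum_cor he hγ hd).trans hs.symm) i (mem_univ i)).symm

/-- removing hooks of length divisible by `e` -/
theorem IsCore.split {e : ℕ} (he : 0 < e) {κ δ : ι → ℤ} (h : IsCore e κ) (hδ : ∀ i, 0 ≤ δ i)
    {μ : Multiset ℕ} (hμ : ∀ k ∈ μ, e ∣ k) (ν : Multiset ℕ) {β : ι → ℤ}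
    (hd : ∀ i, (e : ℤ) ∣ β i - κ i) (hs : ∑ i, β i ≤ ∑ i, κ i + μ.sum) :
    X δ (μ + ν) β = X κ μ β * X δ ν κ := by
  induction μ using Multiset.induction_on generalizing β with
  | empty =>
    rw [zero_add, X_zero]
    by_cases h0 : ∃ w : Perm ι, β = κ ∘ w
    · obtain ⟨w, rfl⟩ := h0
      rw [anti_X, vac_comp h.inj]
    · have h1 : vac κ β = 0 := by_contra fun h1 => h0 (vac_ne_zero h1)
      rw [h1, zero_mul]
      by_contra h2
      have h3 := good_of_X hδ h2
      exact h0 (h.eq_of_sum he h3 hd (le_antisymm (by simpa using hs) (h.sum_le he h3 hd)))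
  | cons k μ ih =>
    rw [Multiset.cons_add, X_cons, X_cons, sum_mul]
    refine sum_congr rfl fun i _ => ih (fun k hk => hμ k (Multiset.mem_cons_of_mem hk))
      (fun j => ?_) ?_
    · have hk : (e : ℤ) ∣ k := Int.natCast_dvd_natCast.2 (hμ k (Multiset.mem_cons_self _ _))
      simp only [Pi.sub_apply, Pi.single_apply]
      split_ifs
      · exact dvd_congr' ((hd j).sub hk)
      · simpa using hd j
    · rw [sum_sub_single]; rw [Multiset.sum_cons, Nat.cast_add] at hs; linarith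

theorem IsCore.split_zero {e : ℕ} (he : 0 < e) {κ δ : ι → ℤ} (h : IsCore e κ) (hδ : ∀ i, 0 ≤ δ i)
    {μ : Multiset ℕ} (hμ : ∀ k ∈ μ, e ∣ k) (ν : Multiset ℕ) {β : ι → ℤ}
    (hd : ∀ i, (e : ℤ) ∣ β i - κ i) (hs : ∑ i, β i < ∑ i, κ i + μ.sum) : X δ (μ + ν) β = 0 := by
  rw [h.split he hδ hμ ν hd hs.le, mul_eq_zero]
  exact Or.inl (by_contra fun h0 => hs.ne (sum_of_X h0))

theorem IsCore.mem_range {δ γ : ι → ℤ} (h : IsCore 1 δ) (hγ : Good γ) {m : ℕ}
    (hs : ∑ i, γ i + m < ∑ i, δ i + Fintype.card ι) : ∃ i, γ i = m := by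
  by_contra hn
  push Not at hn
  have h1 : Good fun i => if (m : ℤ) < γ i then γ i - 1 else γ i := by
    refine ⟨fun i j e => hγ.inj ?_, fun i => ?_⟩
    · have := hn i; have := hn j
      split_ifs at e <;> omega
    · have := hγ.nn i
      split_ifs <;> omega
  have h2 := h.sum_le one_pos h1 (by simp)
  have h3 : ∑ i, (if (m : ℤ) < γ i then γ i - 1 else γ i) =
      ∑ i, γ i - #{i | (m : ℤ) < γ i} := by
    rw [card_filter, Nat.cast_sum, ← sum_sub_distrib]
    exact sum_congr rfl fun i _ => by split_ifs <;> simp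
  have h4 := card_le_of_lt one_pos hγ 0 (by simp) m
  have h5 := card_filter_add_card_filter_not (s := univ) (fun i => (m : ℤ) < γ i)
  have h6 : (univ.filter fun i => ¬(m : ℤ) < γ i) =
      univ.filter fun j => γ j < 0 + (1 : ℕ) * (m : ℤ) ∧ ((1 : ℕ) : ℤ) ∣ 0 - γ j := by
    ext i; have := hn i; simp; omega
  rw [h6, card_univ] at h5
  omega

theorem card_lt_eq {γ : ι → ℤ} (hγ : Good γ) {k : ℕ} (h : ∀ m < k, ∃ i, γ i = (m : ℕ)) :
    #{i | γ i < k} = k := by
  refine le_antisymm (by simpa using card_le_of_lt one_pos hγ 0 (by simp) k) ?_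
  choose f hf using h
  refine le_trans (by simp) (card_le_card_of_injOn (s := (univ : Finset (Fin k)))
    (fun m => f m m.2) (fun m _ => by simp [hf]) fun m _ l _ e => Fin.ext ?_)
  have := hf m m.2
  rw [show f m m.2 = f l l.2 from e, hf] at this
  exact_mod_cast this.symm

/-- the Heisenberg relation -/
theorem IsCore.heis {δ : ι → ℤ} (h : IsCore 1 δ) {k : ℕ} (hk : 0 < k) {ν : Multiset ℕ}
    (hN : k + ν.sum ≤ Fintype.card ι) {β : ι → ℤ} (hβ : ∀ i, 0 ≤ β i) :
    ∑ i, X δ ν (β + Pi.single i (k : ℤ)) = k * ν.count k * X δ (ν.erase k) β := by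
  have anti : ∀ ν, Anti fun β => ∑ i, X δ ν (β + Pi.single i (k : ℤ)) := fun ν β w => by
    simp only [mul_sum]
    refine Fintype.sum_equiv w _ _ fun i => ?_
    rw [← anti_X, ← single_comp w i]; rfl
  have red : ∀ ν β, (Function.Injective β → ∑ i, X δ ν (β + Pi.single i (k : ℤ)) =
      k * ν.count k * X δ (ν.erase k) β) → ∑ i, X δ ν (β + Pi.single i (k : ℤ)) =
      k * ν.count k * X δ (ν.erase k) β := fun ν β H => by
    by_cases hi : Function.Injective β
    · exact H hi
    · have h1 : X δ (ν.erase k) β = 0 := by_contra fun h0 => hi ((anti_X _ _).inj h0)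
      rw [h1, mul_zero]
      exact by_contra fun h0 => hi ((anti ν).inj h0)
  induction ν using Multiset.induction_on generalizing β with
  | empty =>
    refine red _ _ fun hi => ?_
    rw [Multiset.count_zero, Nat.cast_zero, mul_zero, zero_mul]
    refine sum_eq_zero fun i _ => by_contra fun h0 => ?_
    have h1 := sum_of_X h0
    have h2 := h.sum_le one_pos ⟨hi, hβ⟩ (by simp)
    simp [sum_add_distrib] at h1
    omega
  | cons l ν ih =>
    refine red _ _ fun hi => ?_
    rw [Multiset.sum_cons] at hN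
    have neg : ∀ {μ γ} j, γ j < 0 → X δ μ γ = 0 := fun j hj =>
      by_contra fun h0 => absurd ((good_of_X h.nn h0).nn j) (not_le.2 hj)
    have key : ∀ j, ∑ i, X δ ν (β + Pi.single i (k : ℤ) - Pi.single j (l : ℤ)) =
        k * ν.count k * X δ (ν.erase k) (β - Pi.single j (l : ℤ)) +
          if β j < l ∧ l = k then X δ ν β else 0 := fun j => by
      by_cases hj : β j < l
      · have e1 : X δ (ν.erase k) (β - Pi.single j (l : ℤ)) = 0 := neg j (by simp [hj])
        rw [e1, mul_zero, zero_add,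
          sum_eq_single j (fun i _ hij => neg j (by simp [hij.symm, hj])) (by simp)]
        by_cases hl : l = k
        · rw [if_pos ⟨hj, hl⟩, hl, add_sub_cancel_right]
        · rw [if_neg fun h' => hl h'.2]
          by_contra h0
          obtain ⟨m, hm⟩ := Int.eq_ofNat_of_zero_le (hβ j)
          obtain ⟨i, hi'⟩ := h.mem_range (good_of_X h.nn h0) (m := m) (by
            rw [sum_of_X h0]; omega)
          by_cases hij : i = j
          · subst hij; simp at hi'; omega
          · exact hij (hi (by simpa [hij, hm] using hi'))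
      · rw [if_neg fun h' => hj h'.1, add_zero, ← ih (by omega) fun i => ?_]
        · exact sum_congr rfl fun i _ => by rw [add_sub_right_comm]
        · have := hβ i
          by_cases hij : i = j
          · subst hij; simp; omega
          · simpa [hij]
    simp only [X_cons]
    rw [sum_comm, sum_congr rfl fun j _ => key j, sum_add_distrib, ← mul_sum, ← X_cons]
    by_cases hl : l = k
    · subst hl
      have h1 : (ν.count l : ℤ) * X δ (l ::ₘ ν.erase l) β = ν.count l * X δ ν β := by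
        by_cases hm : l ∈ ν
        · rw [Multiset.cons_erase hm]
        · simp [Multiset.count_eq_zero_of_notMem hm]
      have h2 : ∑ j, (if β j < l ∧ l = l then X δ ν β else 0) = l * X δ ν β := by
        simp only [and_true]
        rw [← sum_filter, sum_const, nsmul_eq_mul]
        by_cases h0 : X δ ν β = 0
        · simp [h0]
        · rw [card_lt_eq ⟨hi, hβ⟩ fun m hm => h.mem_range ⟨hi, hβ⟩ (by rw [sum_of_X h0]; omega)]
      rw [h2, mul_assoc, h1, Multiset.count_cons_self, Multiset.erase_cons_head]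
      push_cast; ring
    · simp [hl, Multiset.count_cons_of_ne (Ne.symm hl), Multiset.erase_cons_tail _ hl]

theorem finite_X {κ : ι → ℤ} (hκ : ∀ i, 0 ≤ κ i) (μ : Multiset ℕ) :
    (Function.support (X κ μ)).Finite := by
  refine (Set.Finite.pi' (t := fun _ => Set.Icc 0 (∑ i, κ i + μ.sum))
    fun _ => Set.finite_Icc _ _).subset fun β hβ i => ?_
  have h := good_of_X hκ hβ
  exact ⟨h.nn i, sum_of_X hβ ▸ single_le_sum (fun j _ => h.nn j) (mem_univ i)⟩

/-- centralizer orders -/
def zc (μ : Multiset ℕ) : ℕ := μ.prod * ∏ k ∈ μ.toFinset, (μ.count k).factorial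

theorem zc_cons (k : ℕ) (μ : Multiset ℕ) : zc (k ::ₘ μ) = k * (μ.count k + 1) * zc μ := by
  have h1 : ∀ ν : Multiset ℕ, ∏ l ∈ ν.toFinset, (ν.count l).factorial =
      (ν.count k).factorial * ∏ l ∈ ν.toFinset.erase k, (ν.count l).factorial := fun ν => by
    by_cases h : k ∈ ν
    · rw [mul_prod_erase _ (fun l => (ν.count l).factorial) (Multiset.mem_toFinset.2 h)]
    · rw [erase_eq_of_notMem (by simpa), Multiset.count_eq_zero_of_notMem h]; simp
  rw [zc, zc, h1, h1 μ, Multiset.toFinset_cons, erase_insert_eq_erase, Multiset.count_cons_self,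
    Multiset.prod_cons, Nat.factorial_succ, prod_congr rfl fun l hl => by
      rw [Multiset.count_cons_of_ne (ne_of_mem_erase hl)]]
  ring

theorem finsum_vac_mul (κ : ι → ℤ) (F : (ι → ℤ) → ℤ) :
    ∑ᶠ β, vac κ β * F β = ∑ w : Perm ι, ((Perm.sign w : ℤˣ) : ℤ) * F (κ ∘ w) := by
  simp only [vac, sum_mul]
  rw [finsum_sum_comm]
  · refine sum_congr rfl fun w _ => ?_
    rw [finsum_eq_single _ (κ ∘ w) fun β hβ => by simp [hβ]]; simp
  · exact fun w _ => (Set.finite_singleton (κ ∘ w)).subset fun β hβ => by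
      by_contra h; simp [show β ≠ κ ∘ w from h] at hβ

/-- column orthogonality -/
theorem IsCore.orth {δ : ι → ℤ} (h : IsCore 1 δ) {μ ν : Multiset ℕ} (hμ : ∀ k ∈ μ, 0 < k)
    (hν : ∀ k ∈ ν, 0 < k) (hN : μ.sum + ν.sum ≤ Fintype.card ι) :
    ∑ᶠ β, X δ μ β * X δ ν β = if μ = ν then ((Fintype.card ι).factorial * zc μ : ℕ) else 0 := by
  induction μ using Multiset.induction_on generalizing ν with
  | empty =>
    rw [X_zero, finsum_vac_mul]
    split_ifs with h0
    · subst h0
      simp [X_zero, vac_comp h.inj, sign_mul_sign, zc, Fintype.card_perm]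
    · refine sum_eq_zero fun w _ => mul_eq_zero_of_right _ (by_contra fun h1 => ?_)
      have h2 := sum_of_X h1
      obtain ⟨k, hk⟩ := Multiset.exists_mem_of_ne_zero (Ne.symm h0)
      have := Multiset.single_le_sum (fun _ _ => Nat.zero_le _) k hk
      have := hν k hk
      simp only [Function.comp, Equiv.sum_comp w δ] at h2
      omega
  | cons k μ ih =>
    have hk := hμ k (Multiset.mem_cons_self _ _)
    rw [Multiset.sum_cons] at hN
    have fin : ∀ (F G : (ι → ℤ) → ℤ), (Function.support G).Finite →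
        (Function.support fun β => F β * G β).Finite := fun F G hG =>
      hG.subset fun β hβ h0 => hβ (by simp [h0])
    simp only [X_cons, sum_mul]
    rw [finsum_sum_comm _ _ fun i _ => fin _ _ (finite_X h.nn ν), sum_congr rfl fun i _ =>
      (finsum_comp_equiv (Equiv.addRight (Pi.single i (k : ℤ) : ι → ℤ))).symm]
    simp only [Equiv.coe_addRight, add_sub_cancel_right]
    rw [← finsum_sum_comm _ _ fun i _ =>
      (finite_X h.nn μ).subset fun β hβ h0 => hβ (by simp [h0])]
    have h1 : ∀ β, ∑ i, X δ μ β * X δ ν (β + Pi.single i (k : ℤ)) =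
        (k * ν.count k) * (X δ μ β * X δ (ν.erase k) β) := fun β => by
      by_cases h0 : X δ μ β = 0
      · simp [h0]
      · rw [← mul_sum, h.heis hk (by omega) (good_of_X h.nn h0).nn]; ring
    have h2 : (ν.erase k).sum ≤ ν.sum := by
      obtain ⟨t, ht⟩ := Multiset.le_iff_exists_add.1 (Multiset.erase_le k ν)
      conv_rhs => rw [ht, Multiset.sum_add]
      omega
    simp only [h1]
    rw [← mul_finsum, ih (fun l hl => hμ l (Multiset.mem_cons_of_mem hl))
      (fun l hl => hν l (Multiset.mem_of_mem_erase hl)) (by omega)]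
    by_cases h3 : k ::ₘ μ = ν
    · subst h3
      simp [zc_cons]; ring
    · rw [if_neg h3]
      by_cases hm : k ∈ ν
      · rw [if_neg fun e => h3 (by rw [e, Multiset.cons_erase hm])]; simp
      · simp [Multiset.count_eq_zero_of_notMem hm]

end Cfsg.Agent.H5.Sym
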