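import Cfsg.Agent.H5.Sym1

/-! Degree formula (hook formula) and its `p`-part. -/

set_option autoImplicit false

namespace Cfsg.Agent.H5.Sym

open Finset Equiv

variable {ι : Type*} [Fintype ι] [DecidableEq ι]

def gf (e : ℕ) (t : ℤ) : ℚ := if (e : ℤ) ∣ t ∧ 0 ≤ t then (((t / e).toNat.factorial : ℕ) : ℚ)⁻¹ else 0

theorem gf_sub {e : ℕ} (he : 0 < e) (t : ℤ) : gf e (t - e) = (t : ℚ) / e * gf e t := by
  have he' : (0 : ℤ) < e := by exact_mod_cast he
  have he'' : (e : ℚ) ≠ 0 := by exact_mod_cast he.ne'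
  by_cases h : (e : ℤ) ∣ t
  · obtain ⟨s, rfl⟩ := h
    have h1 : (e : ℤ) * s - e = e * (s - 1) := by ring
    simp only [gf, h1, dvd_mul_right, true_and, mul_nonneg_iff_of_pos_left he',
      Int.mul_ediv_cancel_left _ he'.ne']
    rcases lt_trichotomy s 0 with h | rfl | h
    · rw [if_neg (by omega), if_neg (by omega), mul_zero]
    · simp
    · obtain ⟨s, rfl⟩ : ∃ u : ℕ, s = u + 1 := ⟨(s - 1).toNat, by omega⟩
      rw [if_pos (by omega), if_pos (by omega), add_sub_cancel_right, Int.toNat_natCast,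
        Int.toNat_natCast_add_one, Nat.factorial_succ]
      push_cast; field_simp
  · have h' : ¬(e : ℤ) ∣ t - e := fun h' => h (dvd_congr' (h'.add (dvd_refl _)))
    simp [gf, h, h']

theorem X_replicate {e : ℕ} (he : 0 < e) (κ : ι → ℤ) (m : ℕ) {β : ι → ℤ}
    (hs : ∑ i, β i = ∑ i, κ i + e * m) :
    (X κ (Multiset.replicate m e) β : ℚ) =
      m.factorial * (Matrix.of fun j i => gf e (β i - κ j)).det := by
  simp only [Matrix.det_apply', Matrix.of_apply]
  induction m generalizing β with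
  | zero =>
    simp only [Multiset.replicate_zero, X_zero, vac, Int.cast_sum, Nat.factorial_zero, Nat.cast_one,
      one_mul]
    refine sum_congr rfl fun w _ => ?_
    split_ifs with h
    · simp [h, gf]
    · rw [Int.cast_zero, eq_comm, mul_eq_zero]
      refine Or.inr (by_contra fun h0 => h (funext fun i => ?_))
      have h1 : ∀ i, κ (w i) ≤ β i := fun i => by_contra fun h1 =>
        prod_ne_zero_iff.1 h0 i (mem_univ i) (if_neg fun h2 => by omega)
      exact ((sum_eq_sum_iff_of_le fun i _ => h1 i).1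
        (by rw [Equiv.sum_comp w κ, hs]; simp) i (mem_univ i)).symm
  | succ m ih =>
    rw [Multiset.replicate_succ, X_cons, Int.cast_sum, sum_congr rfl fun i _ =>
      ih (by rw [sum_sub_single, hs]; push_cast; ring), ← mul_sum, sum_comm, Nat.factorial_succ,
      Nat.cast_mul, mul_comm (m + 1 : ℕ).cast, mul_assoc, mul_sum _ _ (m + 1 : ℕ).cast]
    refine congrArg _ (sum_congr rfl fun w _ => ?_)
    have h1 : ∀ i, ∏ j, gf e ((β - Pi.single i (e : ℤ) : ι → ℤ) j - κ (w j)) =
        ((β i - κ (w i) : ℤ) : ℚ) / e * ∏ j, gf e (β j - κ (w j)) := fun i => by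
      rw [← mul_prod_erase _ _ (mem_univ i), ← mul_prod_erase _ _ (mem_univ i), ← mul_assoc,
        ← gf_sub he]
      congr 1
      · simp [sub_right_comm]
      · exact prod_congr rfl fun j hj => by simp [ne_of_mem_erase hj]
    have h2 : ∑ i, ((β i - κ (w i) : ℤ) : ℚ) / e = (m + 1 : ℕ) := by
      rw [← sum_div, ← Int.cast_sum, sum_sub_distrib, Equiv.sum_comp w κ, hs]
      have he'' : (e : ℚ) ≠ 0 := by exact_mod_cast he.ne'
      push_cast; field_simp; ring
    simp only [h1]
    rw [← mul_sum, ← sum_mul, h2]; ring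

omit [DecidableEq ι] in
theorem prod_pairs {n : ℕ} (v : Fin n → ℕ) (hv : Function.Injective v) :
    |∏ i, ∏ j ∈ Ioi i, ((v j : ℚ) - v i)| = ∏ i, ∏ j with v j < v i, ((v i - v j : ℕ) : ℚ) := by
  have h1 : ∀ i, ∏ j ∈ Ioi i, |(v j : ℚ) - v i| =
      (∏ j, if i < j ∧ v j < v i then ((v i - v j : ℕ) : ℚ) else 1) *
        ∏ j, if i < j ∧ v i < v j then ((v j - v i : ℕ) : ℚ) else 1 := fun i => by
    rw [← prod_mul_distrib, ← filter_lt_eq_Ioi, prod_filter]
    refine prod_congr rfl fun j _ => ?_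
    by_cases h : i < j
    · rcases lt_trichotomy (v i) (v j) with h1 | h1 | h1
      · simp [h, h1, h1.not_gt, h1.le, abs_of_nonneg]
      · exact absurd (hv h1) h.ne
      · simp [h, h1, h1.not_gt, h1.le, abs_of_nonpos]
    · simp [h]
  simp only [abs_prod, h1]
  rw [prod_mul_distrib, prod_comm (f := fun i j => if i < j ∧ v i < v j then _ else _),
    ← prod_mul_distrib]
  refine prod_congr rfl fun i _ => ?_
  rw [← prod_mul_distrib, prod_filter]
  refine prod_congr rfl fun j _ => ?_
  by_cases h : v j < v i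
  · rcases lt_trichotomy i j with h1 | rfl | h1
    · simp [h, h1, h1.not_gt]
    · simp at h
    · simp [h, h1, h1.not_gt]
  · simp [h]

theorem det_desc {t q : ι → ℕ} (ht : IsCore 1 fun i => (t i : ℤ)) (hq : Function.Injective q) :
    |(Matrix.of fun j i => ((q i).descFactorial (t j) : ℚ)).det| =
      ∏ i, ∏ j with q j < q i, ((q i - q j : ℕ) : ℚ) := by
  have h1 : ∀ j, t j < Fintype.card ι := fun j => by
    have := card_lt_eq ht.toGood (k := t j + 1) fun m hm => ht.exists_eq j (by simp)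
      (by simp; omega) (by simp)
    have := card_le_univ (univ.filter fun i => (t i : ℤ) < (t j + 1 : ℕ))
    omega
  have h2 : Function.Bijective fun j => (⟨t j, h1 j⟩ : Fin (Fintype.card ι)) :=
    (Fintype.bijective_iff_injective_and_card _).2
      ⟨fun i j e => ht.inj (by simpa using e), by simp⟩
  set f := (Equiv.ofBijective _ h2).symm
  have h3 : ∀ a, t (f a) = a := fun a => congrArg Fin.val ((Equiv.ofBijective _ h2).apply_symm_apply a)
  have h4 := Matrix.det_eval_matrixOfPolynomials_eq_det_vandermonde (fun a => (q (f a) : ℚ))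
    (fun a => descPochhammer ℚ a) (fun a => descPochhammer_natDegree ℚ a)
    (fun a => monic_descPochhammer ℚ a)
  rw [← Matrix.det_submatrix_equiv_self f, ← Matrix.det_transpose, ← f.prod_comp]
  have h5 : ((Matrix.of fun j i => ((q i).descFactorial (t j) : ℚ)).submatrix f f).transpose =
      Matrix.of fun i j : Fin _ => (descPochhammer ℚ j).eval (q (f i) : ℚ) := by
    ext i j; simp [h3, descPochhammer_eval_eq_descFactorial]
  rw [h5, ← h4, Matrix.det_vandermonde, prod_pairs (fun a => q (f a)) (hq.comp f.injective)]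
  refine prod_congr rfl fun i _ => ?_
  rw [prod_filter, prod_filter, ← f.prod_comp]

/-- position on the runner -/
def qq (e : ℕ) (β : ι → ℤ) (i : ι) : ℕ := (β i / e).toNat

def den (e : ℕ) (β : ι → ℤ) : ℕ := ∏ i, (qq e β i).factorial

def num (e : ℕ) (β : ι → ℤ) : ℕ :=
  ∏ i, ∏ j with β j < β i ∧ (e : ℤ) ∣ β i - β j, (qq e β i - qq e β j)

omit [Fintype ι] [DecidableEq ι] in
theorem Good.eq_qq {β : ι → ℤ} (h : Good β) (e : ℕ) (i : ι) : β i = β i % e + e * qq e β i := by
  rw [qq, Int.toNat_of_nonneg (Int.ediv_nonneg (h.nn i) (by simp)), Int.emod_add_mul_ediv]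

omit [Fintype ι] [DecidableEq ι] in
theorem Good.sub_eq {β γ : ι → ℤ} (h : Good β) (h' : Good γ) {e : ℕ} {i j : ι}
    (hd : β i % e = γ j % e) : β i - γ j = e * (qq e β i - qq e γ j) := by
  have := h.eq_qq e i; have := h'.eq_qq e j; linarith

omit [Fintype ι] [DecidableEq ι] in
theorem Good.qq_lt_iff {β : ι → ℤ} (h : Good β) {e : ℕ} (he : 0 < e) {i j : ι}
    (hd : β i % e = β j % e) : qq e β j < qq e β i ↔ β j < β i := by
  have h1 := h.sub_eq h hd
  have he' : (0 : ℤ) < e := by exact_mod_cast he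
  rw [← sub_pos (a := β i), h1, mul_pos_iff_of_pos_left he']; omega

theorem IsCore.formula {e : ℕ} (he : 0 < e) {κ β : ι → ℤ} (h : IsCore e κ) (hβ : Good β)
    (hd : ∀ i, (e : ℤ) ∣ β i - κ i) {m : ℕ} (hs : ∑ i, β i = ∑ i, κ i + e * m) :
    (X κ (Multiset.replicate m e) β).natAbs * den e β = m.factorial * num e β := by
  have he' : (0 : ℤ) < e := by exact_mod_cast he
  have hr : ∀ i, κ i % e = β i % e := fun i => (emod_eq_of_dvd (hd i)).symm
  set A : Matrix ι ι ℚ := Matrix.of fun j i =>
    if β j % e = β i % e then ((qq e β i).descFactorial (qq e κ j) : ℚ) else 0 with hA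
  have h1 : (Matrix.of fun j i => gf e (β i - κ j)) =
      Matrix.of fun j i => ((qq e β i).factorial : ℚ)⁻¹ * A j i := by
    ext j i
    simp only [hA, Matrix.of_apply, gf]
    by_cases h2 : β j % e = β i % e
    · rw [hβ.sub_eq h.toGood (h2.symm.trans (hr j).symm), if_pos h2,
        Int.mul_ediv_cancel_left _ he'.ne']
      simp only [dvd_mul_right, true_and, mul_nonneg_iff_of_pos_left he', sub_nonneg, Nat.cast_le]
      split_ifs with h3
      · rw [← Nat.factorial_mul_descFactorial h3, Int.toNat_sub]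
        have := (Nat.descFactorial_pos.2 h3).ne'
        push_cast; field_simp
      · simp [Nat.descFactorial_of_lt (not_le.1 h3)]
    · rw [if_neg h2, if_neg fun h3 => h2 ((hr j).symm.trans (emod_eq_of_dvd h3.1).symm), mul_zero]
  have h2 : |A.det| = num e β := by
    have hb : A.BlockTriangular fun i => β i % e := fun i j hij => if_neg hij.ne'
    rw [hb.det, abs_prod, num, Nat.cast_prod,
      ← prod_fiberwise_of_maps_to (g := fun i => β i % e) fun i _ => mem_image_of_mem _ (mem_univ i)]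
    refine prod_congr rfl fun a _ => ?_
    have h3 : A.toSquareBlock (fun i => β i % e) a = Matrix.of fun j i : {i // β i % e = a} =>
        ((qq e β i).descFactorial (qq e κ j) : ℚ) := by
      ext j i; simp [Matrix.toSquareBlock_def, hA, i.2, j.2]
    rw [h3, det_desc, prod_subtype (p := fun i => β i % e = a) _ (by simp)]
    · refine prod_congr rfl fun i _ => ?_
      rw [Nat.cast_prod, prod_filter, prod_filter, ← prod_subtype (univ.filter fun i => β i % e = a)
        (by simp) fun j => if qq e β j < qq e β i then ((qq e β i - qq e β j : ℕ) : ℚ) else 1,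
        prod_filter]
      refine prod_congr rfl fun j _ => ?_
      by_cases h4 : β j % e = a
      · have h5 := i.2.trans h4.symm
        simp [h4, hβ.qq_lt_iff he h5, Int.ModEq.dvd (show β j ≡ β i [ZMOD e] from h5.symm)]
      · rw [if_neg h4, if_neg fun h5 => h4 ((emod_eq_of_dvd h5.2).symm.trans i.2)]
    · refine ⟨⟨fun i j hij => Subtype.ext (h.inj ?_), by simp⟩, fun i hi => ?_⟩
      · have := h.toGood.sub_eq h.toGood (i := i) (j := j) (e := e) (by rw [hr, hr, i.2, j.2])
        rw [hij] at this; omega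
      · have h4 := h.toGood.eq_qq e i
        have h5 := Int.emod_nonneg (κ i) he'.ne'
        obtain ⟨j, hj⟩ := h.down i (by simp only [Nat.cast_one] at hi; nlinarith)
        have h6 : κ j % e = κ i % e := by rw [hj]; simp
        refine ⟨⟨j, by rw [← hr, h6, hr, i.2]⟩, ?_⟩
        have h7 := h.toGood.sub_eq h.toGood h6
        rw [hj] at h7
        have : (e : ℤ) * (qq e κ j - qq e κ i + 1) = 0 := by linarith
        have := (mul_eq_zero.1 this).resolve_left he'.ne'
        simp only [Nat.cast_one]; omega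
    · intro i j hij
      have := hβ.sub_eq hβ (i := i) (j := j) (e := e) (by rw [i.2, j.2])
      simp only at hij; rw [hij] at this
      exact Subtype.ext (hβ.inj (by omega))
  have h3 := congrArg abs (X_replicate he κ m hs)
  rw [h1, Matrix.det_mul_row, abs_mul, abs_mul, h2, prod_inv_distrib, ← Nat.cast_prod,
    Nat.abs_cast, abs_inv, Nat.abs_cast, ← Int.cast_abs, ← Int.natCast_natAbs, Int.cast_natCast] at h3
  have h4 : (den e β : ℚ) ≠ 0 := Nat.cast_ne_zero.2 (prod_ne_zero_iff.2 fun _ _ => Nat.factorial_ne_zero _)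
  have : ((X κ (Multiset.replicate m e) β).natAbs * den e β : ℚ) = m.factorial * num e β := by
    rw [h3]; unfold den at h4 ⊢; field_simp
  exact_mod_cast this

omit [DecidableEq ι] in
theorem Good.num_ne_zero {β : ι → ℤ} (h : Good β) {e : ℕ} (he : 0 < e) : num e β ≠ 0 :=
  prod_ne_zero_iff.2 fun _ _ => prod_ne_zero_iff.2 fun _ hj => Nat.sub_ne_zero_of_lt
    ((h.qq_lt_iff he (emod_eq_of_dvd (mem_filter.1 hj).2.2)).2 (mem_filter.1 hj).2.1)

omit [DecidableEq ι] in
theorem den_ne_zero (e : ℕ) (β : ι → ℤ) : den e β ≠ 0 :=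
  prod_ne_zero_iff.2 fun _ _ => Nat.factorial_ne_zero _

omit [DecidableEq ι] in
theorem Good.num_dvd_den {β : ι → ℤ} (h : Good β) {e : ℕ} (he : 0 < e) : num e β ∣ den e β := by
  refine prod_dvd_prod_of_dvd _ _ fun i _ => ?_
  have lt : ∀ j ∈ univ.filter fun j => β j < β i ∧ (e : ℤ) ∣ β i - β j, qq e β j < qq e β i :=
    fun j hj => (h.qq_lt_iff he (emod_eq_of_dvd (mem_filter.1 hj).2.2)).2 (mem_filter.1 hj).2.1
  rw [← prod_Ico_id_eq_factorial, ← prod_image (f := fun x => x) (g := fun j => qq e β i - qq e β j)]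
  · refine prod_dvd_prod_of_subset _ _ _ fun x hx => ?_
    obtain ⟨j, hj, rfl⟩ := mem_image.1 hx
    have := lt j hj
    rw [mem_Ico]; omega
  · intro j hj l hl e'
    have h1 := lt j hj
    have h2 := lt l hl
    have h3 := h.sub_eq h (i := j) (j := l) (e := e)
      ((emod_eq_of_dvd (mem_filter.1 hj).2.2).symm.trans (emod_eq_of_dvd (mem_filter.1 hl).2.2))
    rw [show qq e β j = qq e β l by simp only at e'; omega] at h3
    exact h.inj (by omega)

theorem IsCore.X_ne_zero {e : ℕ} (he : 0 < e) {κ β : ι → ℤ} (h : IsCore e κ) (hβ : Good β)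
    (hd : ∀ i, (e : ℤ) ∣ β i - κ i) {m : ℕ} (hs : ∑ i, β i = ∑ i, κ i + e * m) :
    X κ (Multiset.replicate m e) β ≠ 0 := fun h0 => by
  have := h.formula he hβ hd hs
  rw [h0, Int.natAbs_zero, zero_mul] at this
  exact mul_ne_zero (Nat.factorial_ne_zero _) (hβ.num_ne_zero he) this.symm

theorem fact_factorial {p : ℕ} (hp : p.Prime) (b : ℕ) :
    b.factorial.factorization p = b / p + (b / p).factorial.factorization p := by
  haveI := Fact.mk hp
  rw [Nat.factorization_def _ hp, Nat.factorization_def _ hp, ← padicValNat_mul_div_factorial,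
    padicValNat_factorial_mul, add_comm]

theorem fact_mul {p a b : ℕ} (ha : a ≠ 0) (hb : b ≠ 0) :
    (a * b).factorization p = a.factorization p + b.factorization p := by
  rw [Nat.factorization_mul ha hb]; rfl

omit [DecidableEq ι] in
theorem Good.fact_den {β : ι → ℤ} (h : Good β) {p : ℕ} (hp : p.Prime) :
    (den 1 β).factorization p = ∑ i, qq p β i + (den p β).factorization p := by
  rw [den, den, Nat.factorization_prod_apply fun _ _ => Nat.factorial_ne_zero _,
    Nat.factorization_prod_apply fun _ _ => Nat.factorial_ne_zero _, ← sum_add_distrib]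
  refine sum_congr rfl fun i _ => ?_
  have : qq 1 β i / p = qq p β i := by
    obtain ⟨b, hb⟩ := Int.eq_ofNat_of_zero_le (h.nn i)
    simp only [qq, hb, Nat.cast_one, Int.ediv_one, Int.toNat_natCast, ← Int.natCast_ediv]
  rw [fact_factorial hp, this]

omit [DecidableEq ι] in
theorem Good.fact_num {β : ι → ℤ} (h : Good β) {p : ℕ} (hp : p.Prime) :
    (num 1 β).factorization p = ∑ i, rk p β i + (num p β).factorization p := by
  have n1 := prod_ne_zero_iff.1 (h.num_ne_zero one_pos)
  have n2 := prod_ne_zero_iff.1 (h.num_ne_zero hp.pos)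
  rw [num, num, Nat.factorization_prod_apply n1, Nat.factorization_prod_apply n2,
    ← sum_add_distrib]
  refine sum_congr rfl fun i hi => ?_
  rw [Nat.factorization_prod_apply (prod_ne_zero_iff.1 (n1 i hi)),
    Nat.factorization_prod_apply (prod_ne_zero_iff.1 (n2 i hi)), rk, card_eq_sum_ones,
    ← sum_add_distrib, sum_filter, sum_filter]
  refine sum_congr rfl fun j _ => ?_
  have e1 : ∀ i, (qq 1 β i : ℤ) = β i := fun i => by simpa using (h.eq_qq 1 i).symm
  by_cases h1 : β j < β i
  · have h3 : ((qq 1 β i - qq 1 β j : ℕ) : ℤ) = β i - β j := by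
      rw [Nat.cast_sub (by have := e1 i; have := e1 j; omega), e1, e1]
    by_cases h2 : (p : ℤ) ∣ β i - β j
    · have h4 := (h.qq_lt_iff hp.pos (emod_eq_of_dvd h2)).2 h1
      have h5 : qq 1 β i - qq 1 β j = p * (qq p β i - qq p β j) := by
        zify [h4.le]; rw [h3, h.sub_eq h (emod_eq_of_dvd h2)]
      rw [if_pos ⟨h1, by simp⟩, if_pos ⟨h1, h2⟩, h5, fact_mul hp.ne_zero (by omega),
        hp.factorization_self]
    · rw [if_pos ⟨h1, by simp⟩, if_neg fun h => h2 h.2, Nat.factorization_eq_zero_of_not_dvd]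
      rwa [← Int.natCast_dvd_natCast, h3]
  · simp [h1]

theorem IsCore.val_le {p : ℕ} (hp : p.Prime) {κ β : ι → ℤ} (h : IsCore p κ) (hβ : Good β)
    (hd : ∀ i, (p : ℤ) ∣ β i - κ i) {w : ℕ} (hs : ∑ i, β i = ∑ i, κ i + p * w) :
    (X κ (Multiset.replicate w p) β).natAbs.factorization p ≤ w.factorial.factorization p := by
  have h1 := congrArg (Nat.factorization · p) (h.formula hp.pos hβ hd hs)
  rw [fact_mul (Int.natAbs_ne_zero.2 (h.X_ne_zero hp.pos hβ hd hs)) (den_ne_zero _ _),
    fact_mul (Nat.factorial_ne_zero _) (hβ.num_ne_zero hp.pos)] at h1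
  have := (Nat.factorization_le_iff_dvd (hβ.num_ne_zero hp.pos) (den_ne_zero _ _)).2
    (hβ.num_dvd_den hp.pos) p
  omega

theorem IsCore.val_deg {p : ℕ} (hp : p.Prime) {δ κ β : ι → ℤ} (hδ : IsCore 1 δ) (h : IsCore p κ)
    (hβ : Good β) (hd : ∀ i, (p : ℤ) ∣ β i - κ i) {n w : ℕ} (hn : ∑ i, β i = ∑ i, δ i + n)
    (hs : ∑ i, β i = ∑ i, κ i + p * w) :
    (X δ (Multiset.replicate n 1) β).natAbs.factorization p + (p * w).factorial.factorization p =
      n.factorial.factorization p + (X κ (Multiset.replicate w p) β).natAbs.factorization p := by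
  have hn' : ∑ i, β i = ∑ i, δ i + (1 : ℕ) * n := by simpa using hn
  have h1 := congrArg (Nat.factorization · p) (h.formula hp.pos hβ hd hs)
  have h2 := congrArg (Nat.factorization · p) (hδ.formula one_pos hβ (by simp) hn')
  rw [fact_mul (Int.natAbs_ne_zero.2 (h.X_ne_zero hp.pos hβ hd hs)) (den_ne_zero _ _),
    fact_mul (Nat.factorial_ne_zero _) (hβ.num_ne_zero hp.pos)] at h1
  rw [fact_mul (Int.natAbs_ne_zero.2 (hδ.X_ne_zero one_pos hβ (by simp) hn')) (den_ne_zero _ _),
    fact_mul (Nat.factorial_ne_zero _) (hβ.num_ne_zero one_pos), hβ.fact_den hp,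
    hβ.fact_num hp] at h2
  have h3 : ∑ i, qq p β i = ∑ i, rk p β i + w := by
    have h4 := h.sum_cor hp.pos hβ hd
    rw [sum_congr rfl fun i _ => hβ.eq_qq p i, ← h4] at hs
    simp only [cor, sum_add_distrib, ← mul_sum] at hs
    have : (p : ℤ) * ∑ i, (qq p β i : ℤ) = p * (∑ i, (rk p β i : ℤ) + w) := by linarith
    exact_mod_cast mul_left_cancel₀ (by exact_mod_cast hp.ne_zero) this
  rw [Nat.factorization_factorial_mul hp]
  omega

/-- the last bead on its runner -/
def Top (e : ℕ) (κ : ι → ℤ) (i : ι) : Prop := ∀ j, (e : ℤ) ∣ κ i - κ j → κ j ≤ κ i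

omit [DecidableEq ι] in
theorem exists_top (e : ℕ) (κ : ι → ℤ) (j : ι) : ∃ i, Top e κ i ∧ (e : ℤ) ∣ κ i - κ j := by
  obtain ⟨i, hi, hm⟩ := exists_max_image (univ.filter fun i => (e : ℤ) ∣ κ i - κ j) κ ⟨j, by simp⟩
  simp only [mem_filter, mem_univ, true_and] at hi hm
  exact ⟨i, fun l hl => hm l (dvd_congr' (hi.sub hl)), hi⟩

omit [DecidableEq ι] in
theorem IsCore.not_good {e : ℕ} (he : 0 < e) {κ : ι → ℤ} (h : IsCore e κ) {a : ι → ℤ}
    (ha : ∀ i, 0 < a i → Top e κ i) (hn : ∃ i, a i < 0) : ¬Good fun i => κ i + e * a i := fun hg => by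
  have he' : (0 : ℤ) < e := by exact_mod_cast he
  obtain ⟨i, hi, hm⟩ := exists_min_image (univ.filter fun i => a i < 0) κ
    (hn.imp fun i hi => by simpa using hi)
  simp only [mem_filter, mem_univ, true_and] at hi hm
  have h1 : κ i + e * a i < κ i := by nlinarith
  obtain ⟨j, hj⟩ := h.exists_eq i (hg.nn i) h1.le ⟨-a i, by ring⟩
  rcases lt_trichotomy (a j) 0 with h2 | h2 | h2
  · have := hm j h2; omega
  · have := hg.inj (a₁ := j) (a₂ := i) (by simp [h2, hj])
    subst this; omega
  · have := ha j h2 i ⟨a i, by rw [hj]; ring⟩; omega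

theorem IsCore.X_eq_zero {e : ℕ} (he : 0 < e) {κ : ι → ℤ} (h : IsCore e κ) {a : ι → ℤ}
    (ha : ∀ i, 0 < a i → Top e κ i) (hn : ∃ i, a i < 0) (μ : Multiset ℕ) :
    X κ μ (fun i => κ i + e * a i) = 0 :=
  by_contra fun h0 => h.not_good he ha hn (good_of_X h.nn h0)

omit [Fintype ι] in
theorem row_sub (e : ℕ) (κ a : ι → ℤ) (i : ι) (t : ℕ) :
    (fun j => κ j + e * a j) - Pi.single i ((e * t : ℕ) : ℤ) =
      fun j => κ j + e * (a - Pi.single i (t : ℤ) : ι → ℤ) j := by
  funext j
  simp only [Pi.sub_apply, Pi.single_apply]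
  split_ifs <;> push_cast <;> ring

theorem IsCore.rows {e : ℕ} (he : 0 < e) {κ : ι → ℤ} (h : IsCore e κ) {m : ℕ} {a : ι → ℤ}
    (ha : ∀ i, 0 < a i → Top e κ i) (h0 : ∀ i, 0 ≤ a i) (hm : ∑ i, a i = m) :
    X κ (Multiset.replicate m e) (fun i => κ i + e * a i) * ∏ i, ((a i).toNat.factorial : ℤ) =
      m.factorial := by
  induction m generalizing a with
  | zero =>
    have : ∀ i, a i = 0 := fun i => (sum_eq_zero_iff_of_nonneg fun i _ => h0 i).1 hm i (mem_univ i)
    simp [this, X_zero, vac_self h.inj]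
  | succ m ih =>
    rw [Multiset.replicate_succ, X_cons, sum_mul, Nat.factorial_succ, Nat.cast_mul, ← hm, sum_mul]
    refine sum_congr rfl fun i _ => ?_
    have h1 := row_sub e κ a i 1
    rw [mul_one, Nat.cast_one] at h1
    have h2 : ∀ j, 0 < (a - Pi.single i 1 : ι → ℤ) j → Top e κ j := fun j hj => ha j (by
      simp only [Pi.sub_apply, Pi.single_apply] at hj; split_ifs at hj <;> omega)
    rw [h1]
    rcases (h0 i).eq_or_lt with h3 | h3
    · rw [h.X_eq_zero he h2 ⟨i, by simp [← h3]⟩, ← h3]; simp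
    · rw [← ih h2 (fun j => ?_) (by rw [sum_sub_single, hm]; simp), ← mul_prod_erase _ _ (mem_univ i),
        ← mul_prod_erase _ _ (mem_univ i)]
      · obtain ⟨b, hb⟩ : ∃ b : ℕ, a i = b + 1 := ⟨(a i - 1).toNat, by omega⟩
        have h4 : ∏ j ∈ univ.erase i, (((a - Pi.single i 1 : ι → ℤ) j).toNat.factorial : ℤ) =
            ∏ j ∈ univ.erase i, ((a j).toNat.factorial : ℤ) :=
          prod_congr rfl fun j hj => by simp [ne_of_mem_erase hj]
        rw [h4]
        simp only [Pi.sub_apply, Pi.single_eq_same, hb, add_sub_cancel_right, Int.toNat_natCast,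
          Int.toNat_natCast_add_one, Nat.factorial_succ]
        push_cast; ring
      · have := h0 j
        simp only [Pi.sub_apply, Pi.single_apply]; split_ifs with h4
        · subst h4; omega
        · omega

theorem IsCore.row {e : ℕ} (he : 0 < e) {κ : ι → ℤ} (h : IsCore e κ) {i : ι} (hi : Top e κ i)
    (m : ℕ) : X κ (Multiset.replicate m e)
      (fun j => κ j + e * (Pi.single i (m : ℤ) : ι → ℤ) j) = 1 := by
  have := h.rows he (m := m) (a := Pi.single i (m : ℤ)) (fun j hj => by
    by_cases h1 : j = i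
    · rwa [h1]
    · simp [h1] at hj) (fun j => by by_cases h1 : j = i <;> simp [h1]) (by simp)
  rw [prod_eq_single i (fun j _ hj => by simp [hj]) (by simp)] at this
  simp only [Pi.single_eq_same, Int.toNat_natCast] at this
  exact mul_right_cancel₀ (by exact_mod_cast Nat.factorial_ne_zero m) (this.trans (one_mul _).symm)

/-- the quotient `(a, 1)` on one runner -/
theorem IsCore.hook {e : ℕ} (he : 0 < e) {κ : ι → ℤ} (h : IsCore e κ) {i j : ι} (hi : Top e κ i)
    (hj : κ j = κ i - e) (a : ℕ) : X κ (Multiset.replicate (a + 1) e)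
      (fun l => κ l + e * (Pi.single i (a : ℤ) + Pi.single j 1 : ι → ℤ) l) = a := by
  have he' : (0 : ℤ) < e := by exact_mod_cast he
  have hij : j ≠ i := fun e' => by rw [e'] at hj; omega
  induction a with
  | zero => exact (anti_X _ _).eq_zero hij (by simp [hij, hij.symm, hj])
  | succ a ih =>
    rw [Multiset.replicate_succ, X_cons, sum_eq_add_of_mem i j (mem_univ _) (mem_univ _) hij.symm]
    · have h1 := row_sub e κ (Pi.single i ((a + 1 : ℕ) : ℤ) + Pi.single j 1) i 1
      have h2 := row_sub e κ (Pi.single i ((a + 1 : ℕ) : ℤ) + Pi.single j 1) j 1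
      rw [mul_one, Nat.cast_one] at h1 h2
      rw [h1, h2, add_sub_cancel_right, h.row he hi, add_sub_right_comm, ← Pi.single_sub,
        Nat.cast_add_one, add_sub_cancel_right, ih]
    · rintro l - ⟨h1, h2⟩
      by_contra h0
      have hg := good_of_X h.nn h0
      obtain ⟨k, hk⟩ := h.down l (by simpa [h1, h2] using hg.nn l)
      have h3 : k ≠ i := fun e' => by
        have := hi l ⟨-1, by rw [← e', hk]; ring⟩
        rw [e'] at hk; omega
      have h4 : k ≠ j := fun e' => h1 (h.inj (by rw [e', hj] at hk; omega))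
      have h5 : k ≠ l := fun e' => by rw [e'] at hk; omega
      exact h5 (hg.inj (by simp [h1, h2, h3, h4, h5, hk]))

/-- two rows, evaluated on a class with one longer cycle -/
theorem IsCore.rows_pos {e : ℕ} (he : 0 < e) {κ : ι → ℤ} (h : IsCore e κ) {m t : ℕ} {a : ι → ℤ}
    (ha : ∀ i, 0 < a i → Top e κ i) (h0 : ∀ i, 0 ≤ a i) (hm : ∑ i, a i = m + t)
    {i : ι} (hi : (t : ℤ) ≤ a i) :
    0 < X κ ((e * t) ::ₘ Multiset.replicate m e) (fun i => κ i + e * a i) := by
  have h2 : ∀ i j, 0 < (a - Pi.single i (t : ℤ) : ι → ℤ) j → Top e κ j := fun i j hj => ha j (by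
    simp only [Pi.sub_apply, Pi.single_apply] at hj; split_ifs at hj <;> omega)
  have h3 : ∀ i, (t : ℤ) ≤ a i → 0 < X κ (Multiset.replicate m e)
      fun j => κ j + e * (a - Pi.single i (t : ℤ) : ι → ℤ) j := fun i hi => by
    have := h.rows he (h2 i) (m := m) (fun j => by
      have := h0 j
      simp only [Pi.sub_apply, Pi.single_apply]; split_ifs with h4
      · subst h4; omega
      · omega) (by rw [sum_sub_single, hm]; simp)
    have h5 : (0 : ℤ) < m.factorial := by exact_mod_cast Nat.factorial_pos m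
    rw [← this] at h5
    exact (pos_iff_pos_of_mul_pos h5).2 (prod_pos fun _ _ => by positivity)
  rw [X_cons]
  refine sum_pos' (fun j _ => ?_) ⟨i, mem_univ i, by rw [row_sub]; exact h3 i hi⟩
  rw [row_sub]
  by_cases hj : (t : ℤ) ≤ a j
  · exact (h3 j hj).le
  · exact (h.X_eq_zero he (h2 j) ⟨j, by simpa using hj⟩ _).ge

end Cfsg.Agent.H5.Sym
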