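import Cfsg.Agent.H5.Sym2
import Cfsg.Agent.H3.Orth

/-! The irreducible characters of the symmetric groups (Frobenius). -/

set_option autoImplicit false

namespace Cfsg.Agent.H5.Sym

open Finset Equiv Cfsg Cfsg.Agent.H3
open scoped ComplexConjugate

variable {ι : Type*} [Fintype ι] [DecidableEq ι]

theorem foldr_T_fin (F : (ι → ℤ) → ℤ) (n : ℕ) (m : Fin n → ℕ) (β : ι → ℤ) :
    (univ.val.map m).foldr T F β = ∑ g : Fin n → ι, F (β - ∑ q, Pi.single (g q) (m q : ℤ)) := by
  induction n generalizing β with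
  | zero => simp
  | succ n ih =>
    rw [Fin.univ_val_map, List.ofFn_succ, ← Multiset.cons_coe, Multiset.foldr_cons,
      ← Fin.univ_val_map, ← (Fin.consEquiv fun _ => ι).sum_comp, Fintype.sum_prod_type]
    refine sum_congr rfl fun i _ => (ih _ _).trans (sum_congr rfl fun g _ => ?_)
    simp [Fin.sum_univ_succ, sub_sub, Fin.consEquiv]

theorem foldr_T_univ (F : (ι → ℤ) → ℤ) {Q : Type*} [Fintype Q] [DecidableEq Q] (m : Q → ℕ)
    (β : ι → ℤ) :
    (univ.val.map m).foldr T F β = ∑ g : Q → ι, F (β - ∑ q, Pi.single (g q) (m q : ℤ)) := by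
  set e := (Fintype.equivFin Q).symm
  rw [← Multiset.map_univ_val_equiv e, Multiset.map_map, foldr_T_fin]
  refine Fintype.sum_equiv (e.arrowCongr (Equiv.refl ι)) _ _ fun g => ?_
  rw [← e.sum_comp]; simp

variable {α : Type*} [Fintype α] [DecidableEq α]

/-- the content of a colouring -/
def cont (f : α → ι) : ι → ℤ := ∑ a, Pi.single (f a) 1

theorem foldr_T_parts (F : (ι → ℤ) → ℤ) (σ : Perm α) (β : ι → ℤ) :
    σ.partition.parts.foldr T F β = ∑ f : α → ι with f ∘ σ = f, F (β - cont f) := by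
  let π : α → σ.cycleFactorsFinset ⊕ {a // σ a = a} := fun a =>
    if h : σ a = a then .inr ⟨a, h⟩ else
      .inl ⟨σ.cycleOf a, Perm.cycleOf_mem_cycleFactorsFinset_iff.2 (Perm.mem_support.2 h)⟩
  have h1 : ∀ a c, π a = .inl c ↔ a ∈ c.1.support := fun a c => by
    by_cases h : σ a = a
    · simp only [π, dif_pos h, reduceCtorEq, false_iff]
      exact fun h' => Perm.mem_support.1 (Perm.mem_cycleFactorsFinset_support_le c.2 h') h
    · simp only [π, dif_neg h, Sum.inl.injEq, Subtype.ext_iff]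
      rw [eq_comm, Perm.eq_cycleOf_of_mem_cycleFactorsFinset_iff _ _ c.2]
  have h2 : ∀ a b, π a = .inr b ↔ a = b.1 := fun a b => by
    by_cases h : σ a = a
    · simp [π, dif_pos h, Subtype.ext_iff]
    · simp only [π, dif_neg h, reduceCtorEq, false_iff]
      rintro rfl; exact h b.2
  have hs : Function.Surjective π := by
    rintro (c | b)
    · obtain ⟨a, ha⟩ := (Perm.mem_cycleFactorsFinset_iff.1 c.2).1.nonempty_support
      exact ⟨a, (h1 a c).2 ha⟩
    · exact ⟨b, (h2 _ _).2 rfl⟩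
  have h3 : ∀ a, π (σ a) = π a := fun a => by
    by_cases h : σ a = a
    · rw [h]
    · simp only [π, dif_neg h, dif_neg fun e => h (σ.injective e), Perm.cycleOf_self_apply]
  have h4 : ∀ f : α → ι, f ∘ σ = f → ∀ a b, π a = π b → f a = f b := fun f hf a b e => by
    by_cases h : σ b = b
    · rw [(h2 a ⟨b, h⟩).1 (e.trans (dif_pos h))]
    · obtain ⟨k, -, rfl⟩ := ((Perm.mem_support_cycleOf_iff' h).1
        ((h1 a _).1 (e.trans (dif_neg h)))).exists_pow_eq'
      clear e
      induction k with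
      | zero => rfl
      | succ k ih => rw [pow_succ', Perm.mul_apply, ← ih]; exact congrFun hf _
  have h5 : σ.partition.parts = univ.val.map fun q => #{a | π a = q} := by
    rw [← univ_disjSum_univ, val_disjSum, Multiset.map_disjSum, Perm.parts_partition,
      Perm.cycleType_def]
    congr 1
    · simp only [h1, filter_univ_mem, univ_eq_attach, attach_val]
      exact (Multiset.attach_map_val' _ _).symm
    · simp only [h2, filter_eq', mem_univ, if_true, card_singleton, Multiset.map_const',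
        card_val, card_univ, Fintype.card_subtype]
      rw [← card_compl]; congr 2; ext a; simp
  rw [h5, foldr_T_univ]
  refine sum_bij (fun g _ => g ∘ π) (fun g _ => ?_) (fun g _ g' _ e => hs.right_cancellable.1 e)
    (fun f hf => ⟨f ∘ Function.surjInv hs, mem_univ _, funext fun a =>
      h4 f (mem_filter.1 hf).2 _ _ (Function.surjInv_eq hs _)⟩) fun g _ => ?_
  · simp only [mem_filter, mem_univ, true_and]
    exact funext fun a => congrArg g (h3 a)
  · rw [cont, ← sum_fiberwise univ π]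
    refine congrArg (fun t => F (β - t)) (sum_congr rfl fun q _ => ?_)
    rw [sum_congr rfl fun a ha => by rw [Function.comp, (mem_filter.1 ha).2], sum_const,
      ← Pi.single_smul]
    simp

theorem int_inner_fixed {G Ω : Type*} [Group G] [Fintype G] [MulAction G Ω] [Fintype Ω]
    [DecidableEq Ω] (c : Ω → ℤ) (hc : ∀ (g : G) x, c (g • x) = c x) {ψ : G → ℂ}
    (hψ : IsCharacter G ψ) :
    ∃ m : ℤ, classInner (fun g : G => ((∑ x with g • x = x, c x : ℤ) : ℂ)) ψ = m := by
  classical
  let S : ℤ → SubMulAction G Ω := fun v => ⟨{x | c x = v}, fun g x hx => (hc g x).trans hx⟩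
  have h1 : (fun g : G => ((∑ x with g • x = x, c x : ℤ) : ℂ)) = ∑ v ∈ univ.image c,
      (v : ℂ) • fun g : G => (Nat.card (MulAction.fixedBy (S v) g) : ℂ) := by
    funext g
    rw [← sum_fiberwise_of_maps_to (g := c) fun x _ => mem_image_of_mem c (mem_univ x),
      Finset.sum_apply, Int.cast_sum]
    refine sum_congr rfl fun v _ => ?_
    rw [sum_congr rfl fun x hx => (mem_filter.1 hx).2, sum_const, nsmul_eq_mul, Pi.smul_apply,
      smul_eq_mul, mul_comm, Int.cast_mul, Int.cast_natCast, ← Fintype.card_coe,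
      ← Nat.card_eq_fintype_card]
    refine congrArg (fun n : ℕ => (v : ℂ) * n) (Nat.card_congr ⟨fun x => ⟨⟨x.1, (mem_filter.1 x.2).2⟩,
      Subtype.ext (mem_filter.1 (mem_filter.1 x.2).1).2⟩, fun x => ⟨x.1.1, ?_⟩,
      fun _ => rfl, fun _ => rfl⟩)
    simp only [mem_filter, mem_univ, true_and]
    exact ⟨congrArg Subtype.val x.2, x.1.2⟩
  choose k hk using fun v => (isCharacter_permChar (G := G) (S v)).exists_nat_classInner hψ
  refine ⟨∑ v ∈ univ.image c, v * k v, ?_⟩
  rw [h1, classInner_sum_left]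
  simp only [classInner_smul_left, hk]; simp

/-- the virtual character with `β`-numbers `β` -/
def chi (δ β : ι → ℤ) (σ : Perm α) : ℂ := X δ σ.partition.parts β

theorem isClassFunction_chi (δ β : ι → ℤ) : IsClassFunction (Perm α) (chi δ β) :=
  isClassFunction_iff.2 fun g h e => by rw [chi, chi, Perm.partition_eq_of_isConj.1 e]

theorem int_inner_chi (δ β : ι → ℤ) {ψ : Perm α → ℂ} (hψ : IsCharacter (Perm α) ψ) :
    ∃ m : ℤ, classInner (chi δ β) ψ = m := by
  letI := arrowAction (G := Perm α) (A := α) (B := ι)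
  obtain ⟨m, hm⟩ := int_inner_fixed (G := Perm α) (fun f : α → ι => vac δ (β - cont f))
    (fun g f => by rw [cont, cont, 
      ← Equiv.sum_comp g⁻¹ (fun a => (Pi.single (f a) 1 : ι → ℤ))]; rfl) hψ
  refine ⟨m, hm ▸ congrArg (classInner · ψ) (funext fun σ => ?_)⟩
  rw [chi, X, foldr_T_parts]
  refine congrArg _ (sum_congr (filter_congr fun f _ => ?_) fun _ _ => rfl)
  change f ∘ σ = f ↔ f ∘ ⇑σ⁻¹ = f
  rw [Perm.inv_def, comp_symm_eq, eq_comm]

theorem zc_add_replicate {μ : Multiset ℕ} (h : 1 ∉ μ) (r : ℕ) :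
    zc (μ + Multiset.replicate r 1) = r.factorial * zc μ := by
  induction r with
  | zero => simp
  | succ r ih =>
    rw [Multiset.replicate_succ, Multiset.add_cons, zc_cons, ih, Nat.factorial_succ]
    simp [Multiset.count_eq_zero_of_notMem h, mul_assoc]

theorem zc_parts (σ : Perm α) :
    zc σ.partition.parts = Nat.card (Subgroup.centralizer ({σ} : Set (Perm α))) := by
  rw [Perm.nat_card_centralizer, Perm.parts_partition, Perm.sum_cycleType,
    zc_add_replicate fun h => (Perm.one_lt_of_mem_cycleType h).false, zc, mul_assoc]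

variable {δ : ι → ℤ}

theorem finite_chi (hδ : ∀ i, 0 ≤ δ i) (σ : Perm α) :
    (Function.support fun β => chi δ β σ).Finite :=
  (finite_X hδ σ.partition.parts).subset fun β hβ h0 => hβ (by simp [chi, h0])

theorem IsCore.sum_chi (h : IsCore 1 δ) (hN : 2 * Fintype.card α ≤ Fintype.card ι) (σ τ : Perm α) :
    ∑ᶠ β, chi δ β σ * chi δ β τ = (Fintype.card ι).factorial *
      (Nat.card (Subgroup.centralizer ({τ} : Set (Perm α))) * classInd τ σ) := by
  have h1 := h.orth (fun k hk => σ.partition.parts_pos hk) (fun k hk => τ.partition.parts_pos hk)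
    (by rw [σ.partition.parts_sum, τ.partition.parts_sum]; omega)
  have h2 := (Int.castRingHom ℂ).toAddMonoidHom.map_finsum (f := fun β =>
    X δ σ.partition.parts β * X δ τ.partition.parts β)
    ((finite_X h.nn σ.partition.parts).subset fun β hβ h0 => hβ (by simp [h0]))
  simp only [RingHom.toAddMonoidHom_eq_coe, AddMonoidHom.coe_coe, eq_intCast, Int.cast_mul] at h2
  simp only [chi]
  rw [← h2, h1]
  split_ifs with h3
  · rw [classInd_of_isConj (Perm.partition_eq_of_isConj.2 (Nat.Partition.ext h3.symm)), h3,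
      zc_parts]; simp
  · rw [classInd_of_not_isConj fun e => h3 (by rw [Perm.partition_eq_of_isConj.1 e])]; simp

theorem IsCore.sum_inner (h : IsCore 1 δ) (hN : 2 * Fintype.card α ≤ Fintype.card ι)
    (ψ φ : IrrCharacter (Perm α)) [Decidable (φ = ψ)] :
    ∑ᶠ β, classInner (chi δ β) ψ.1 * conj (classInner (chi δ β) φ.1) =
      if φ = ψ then ((Fintype.card ι).factorial : ℂ) else 0 := by
  have h0 : (Nat.card (Perm α) : ℂ) ≠ 0 := natCard_ne_zero
  have h1 : ∀ β, classInner (chi δ β) ψ.1 * conj (classInner (chi δ β) φ.1) =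
      ∑ τ, ∑ σ, ((Nat.card (Perm α) : ℂ)⁻¹ ^ 2 * (conj (ψ.1 σ) * φ.1 τ)) *
        (chi δ β σ * chi δ β τ) := fun β => by
    simp only [classInner, map_mul, map_sum, map_inv₀, map_natCast, Complex.conj_conj, chi,
      map_intCast, mul_sum, sum_mul]
    exact sum_congr rfl fun τ _ => sum_congr rfl fun σ _ => by ring
  have fin : ∀ (c : ℂ) (σ τ : Perm α),
      (Function.support fun β => c * (chi δ β σ * chi δ β τ)).Finite := fun c σ τ =>
    (finite_chi h.nn σ).subset fun β hβ h0 => hβ (by simp [h0])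
  simp only [h1]
  rw [finsum_sum_comm, sum_congr rfl fun τ _ => finsum_sum_comm _ _ fun σ _ => fin _ σ τ]
  · simp only [← mul_finsum, h.sum_chi hN]
    have h2 : ∀ τ, ∑ σ, (Nat.card (Perm α) : ℂ)⁻¹ ^ 2 * (conj (ψ.1 σ) * φ.1 τ) *
        ((Fintype.card ι).factorial * (Nat.card (Subgroup.centralizer ({τ} : Set (Perm α))) *
          classInd τ σ)) = (Fintype.card ι).factorial * ((Nat.card (Perm α) : ℂ)⁻¹ *
            (φ.1 τ * conj (ψ.1 τ))) := fun τ => by
      have h3 := sum_classInd_mul τ (ψ.2.isClassFunction.map conj)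
      have h4 := card_centralizer_mul_index τ
      rw [sum_congr rfl fun σ _ => (by ring : _ = (Nat.card (Perm α) : ℂ)⁻¹ ^ 2 * φ.1 τ *
        (Fintype.card ι).factorial * Nat.card (Subgroup.centralizer ({τ} : Set (Perm α))) *
        (classInd τ σ * conj (ψ.1 σ))), ← mul_sum, h3]
      field_simp
      rw [← h4]; ring
    simp only [h2]
    rw [← mul_sum, ← mul_sum, ← classInner, classInner_irr]; simp
  · exact fun τ _ => (Set.Finite.biUnion (Set.finite_univ (α := Perm α))
      fun σ _ => finite_chi h.nn σ).subset fun β hβ => by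
        obtain ⟨σ, -, h1⟩ := exists_ne_zero_of_sum_ne_zero hβ
        exact Set.mem_biUnion (Set.mem_univ σ) fun h0 => h1 (by simp [h0])

theorem chi_comp (δ β : ι → ℤ) (w : Perm ι) :
    chi (α := α) δ (β ∘ w) = (((Perm.sign w : ℤˣ) : ℤ) : ℂ) • chi δ β := by
  funext σ; simp [chi, anti_X δ _ β w]

theorem Anti.orbit {m : (ι → ℤ) → ℤ} (hm : Anti m) (hf : (Function.support m).Finite)
    (hs : ∑ᶠ β, m β * m β = (Fintype.card ι).factorial) {β : ι → ℤ} (h0 : m β ≠ 0) :
    m β * m β = 1 ∧ ∀ γ, m γ ≠ 0 → ∃ w : Perm ι, γ = β ∘ w := by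
  classical
  have hi := hm.inj h0
  have inj : Function.Injective fun w : Perm ι => β ∘ w := fun w v e =>
    Equiv.ext fun i => hi (congrFun e i)
  have h1 : ∑ γ ∈ univ.image fun w : Perm ι => β ∘ w, m γ * m γ =
      (Fintype.card ι).factorial * (m β * m β) := by
    rw [sum_image fun _ _ _ _ e => inj e, sum_congr rfl fun w _ => by
      rw [hm, mul_mul_mul_comm, sign_mul_sign, one_mul]]
    simp [Fintype.card_perm]
  have h2 : (univ.image fun w : Perm ι => β ∘ w) ⊆ hf.toFinset := fun γ hγ => by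
    obtain ⟨w, -, rfl⟩ := mem_image.1 hγ
    simp [hm β w, h0]
  rw [finsum_eq_sum_of_support_subset (s := hf.toFinset) _ fun γ hγ => by
    simpa using hγ, ← sum_sdiff h2, h1] at hs
  have h3 : 0 ≤ ∑ γ ∈ hf.toFinset \ univ.image fun w : Perm ι => β ∘ w, m γ * m γ :=
    sum_nonneg fun _ _ => mul_self_nonneg _
  have h4 : 1 ≤ m β * m β := mul_self_pos.2 h0
  have h5 : (0 : ℤ) < (Fintype.card ι).factorial := by exact_mod_cast Nat.factorial_pos _
  have h6 : m β * m β = 1 := by nlinarith
  refine ⟨h6, fun γ hγ => by_contra fun hn => hγ ?_⟩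
  rw [h6, mul_one, add_eq_right, sum_eq_zero_iff_of_nonneg fun _ _ => mul_self_nonneg _] at hs
  refine mul_self_eq_zero.1 (hs γ (mem_sdiff.2 ⟨by simpa using hγ, fun h => hn ?_⟩))
  obtain ⟨w, -, rfl⟩ := mem_image.1 h
  exact ⟨w, rfl⟩

/-- `ψ` is labelled by the `β`-numbers `β` -/
def Lab (δ : ι → ℤ) (ψ : Perm α → ℂ) (β : ι → ℤ) : Prop :=
  ∃ ε : ℂ, (ε = 1 ∨ ε = -1) ∧ ∀ σ, ψ σ = ε * chi δ β σ

theorem IsCore.lab (h : IsCore 1 δ) (hN : 2 * Fintype.card α ≤ Fintype.card ι) :
    (∀ ψ : IrrCharacter (Perm α), ∃ β, Lab δ ψ.1 β) ∧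
      ∀ β, chi (α := α) δ β ≠ 0 → ∃ ψ : IrrCharacter (Perm α), Lab δ ψ.1 β := by
  classical
  choose m hm using fun (ψ : IrrCharacter (Perm α)) β => int_inner_chi δ β ψ.2.isCharacter
  have anti : ∀ ψ, Anti (m ψ) := fun ψ β w => by
    have := hm ψ (β ∘ w)
    rw [chi_comp, classInner_smul_left, hm] at this
    exact_mod_cast this.symm
  have fin : ∀ ψ, (Function.support (m ψ)).Finite := fun ψ =>
    (Set.Finite.biUnion (Set.finite_univ (α := Perm α)) fun σ _ => finite_chi h.nn σ).subset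
      fun β hβ => by
        by_contra hn
        have : chi (α := α) δ β = 0 := funext fun σ => by_contra fun h0 =>
          hn (Set.mem_biUnion (Set.mem_univ σ) h0)
        have h1 := hm ψ β
        rw [this, classInner_zero_left] at h1
        exact hβ (by exact_mod_cast h1.symm)
  have orth : ∀ ψ φ, ∑ᶠ β, m ψ β * m φ β =
      if φ = ψ then ((Fintype.card ι).factorial : ℤ) else 0 := fun ψ φ => by
    have h1 := h.sum_inner hN ψ φ
    have h2 := (Int.castRingHom ℂ).toAddMonoidHom.map_finsum (f := fun β => m ψ β * m φ β)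
      ((fin ψ).subset fun β hβ h0 => hβ (by simp [h0]))
    simp only [RingHom.toAddMonoidHom_eq_coe, AddMonoidHom.coe_coe, eq_intCast, Int.cast_mul] at h2
    simp only [hm, map_intCast] at h1
    rw [← h2] at h1
    exact_mod_cast h1
  have key : ∀ ψ β, m ψ β ≠ 0 → Lab δ ψ.1 β := fun ψ β h0 => by
    obtain ⟨h1, h2⟩ := (anti ψ).orbit (fin ψ) (by rw [orth, if_pos rfl]) h0
    have h3 : ∀ φ ≠ ψ, m φ β = 0 := fun φ hφ => by
      have h4 := orth ψ φ
      have inj : Function.Injective fun w : Perm ι => β ∘ w := fun w v e =>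
        Equiv.ext fun i => (anti ψ).inj h0 (congrFun e i)
      rw [if_neg hφ, finsum_eq_sum_of_support_subset (s := univ.image fun w : Perm ι => β ∘ w),
        sum_image fun _ _ _ _ e => inj e, sum_congr rfl fun w _ => by
          rw [anti, anti, mul_mul_mul_comm, sign_mul_sign, one_mul]] at h4
      · simpa [Fintype.card_perm, h0, Nat.factorial_ne_zero] using h4
      · intro γ hγ
        obtain ⟨w, rfl⟩ := h2 γ (left_ne_zero_of_mul hγ)
        simp
    refine ⟨m ψ β, by exact_mod_cast mul_self_eq_one_iff.1 h1, fun σ => ?_⟩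
    rw [(isClassFunction_chi δ β).apply_eq_sum_irr, sum_eq_single ψ
      (fun φ _ hφ => by simp [hm, h3 φ hφ]) (by simp), hm, ← mul_assoc, ← Int.cast_mul, h1]
    simp
  refine ⟨fun ψ => ?_, fun β hβ => ?_⟩
  · by_contra hn
    have h1 : ∀ β, m ψ β = 0 := fun β => by_contra fun h0 => hn ⟨β, key ψ β h0⟩
    have := orth ψ ψ
    simp [h1, eq_comm, Nat.factorial_ne_zero] at this
  · by_contra hn
    refine hβ ((isClassFunction_chi δ β).eq_zero_of_classInner fun ψ hψ => ?_)
    rw [hm ⟨ψ, hψ⟩, by_contra fun h0 : m ⟨ψ, hψ⟩ β ≠ 0 => hn ⟨_, key _ β h0⟩, Int.cast_zero]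

end Cfsg.Agent.H5.Sym
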