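import Cfsg.Agent.L.SylowIn
import Cfsg.Agent.H4.Degree
import Cfsg.Agent.H3.Orth

/-! `p`-subgroups of symmetric groups. -/

set_option autoImplicit false

namespace Cfsg.Agent.H5.Sym

open Equiv Subgroup Cfsg Cfsg.Agent.L Cfsg.Agent.H3 Cfsg.Agent.H4

variable {α : Type*} [Fintype α] [DecidableEq α] {p : ℕ} [hp : Fact p.Prime]

/-- permutations supported on `S` -/
def symOn (S : Finset α) : Subgroup (Perm α) := (Perm.ofSubtype (p := (· ∈ S))).range

theorem mem_symOn {S : Finset α} {σ : Perm α} : σ ∈ symOn S ↔ ∀ b ∉ S, σ b = b := by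
  rw [symOn, Perm.mem_range_ofSubtype_iff]
  exact ⟨fun h b hb => by_contra fun e => hb (h (by simpa using e)),
    fun h b hb => by_contra fun e => by simpa [h b e] using hb⟩

theorem card_symOn (S : Finset α) : Nat.card (symOn S) = S.card.factorial := by
  rw [symOn, ← Nat.card_congr (MonoidHom.ofInjective Perm.ofSubtype_injective).toEquiv,
    Nat.card_perm]; simp

theorem card_altOn {S : Finset α} (h : 2 ≤ S.card) :
    2 * Nat.card ↥(symOn S ⊓ alternatingGroup α) = S.card.factorial := by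
  haveI : Nontrivial S := Fintype.one_lt_card_iff_nontrivial.1 (by simp; omega)
  rw [symOn, ← alternatingGroup.map_ofSubtype, card_map_of_injective Perm.ofSubtype_injective,
    two_mul_nat_card_alternatingGroup, Nat.card_perm]; simp

theorem exists_symOn (S : Finset α) {μ : Multiset ℕ} (h : μ.sum ≤ S.card) (h2 : ∀ k ∈ μ, 2 ≤ k) :
    ∃ σ ∈ symOn S, σ.cycleType = μ := by
  obtain ⟨g, hg⟩ := (Perm.exists_with_cycleType_iff S (m := μ)).2 ⟨by simpa using h, h2⟩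
  exact ⟨_, ⟨g, rfl⟩, Perm.cycleType_ofSubtype.trans hg⟩

open Classical in
/-- the points moved by `P` -/
noncomputable def mov (P : Subgroup (Perm α)) : Finset α := {b | ∃ d ∈ P, d b ≠ b}

theorem mem_mov {P : Subgroup (Perm α)} {b : α} : b ∈ mov P ↔ ∃ d ∈ P, d b ≠ b := by simp [mov]

theorem le_symOn_mov (P : Subgroup (Perm α)) : P ≤ symOn (mov P) := fun d hd =>
  mem_symOn.2 fun _ hb => by_contra fun e => hb (mem_mov.2 ⟨d, hd, e⟩)

theorem apply_mem_mov {P : Subgroup (Perm α)} {d : Perm α} (hd : d ∈ P) {b : α} (hb : b ∈ mov P) :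
    d b ∈ mov P := by
  obtain ⟨c, hc, h⟩ := mem_mov.1 hb
  exact mem_mov.2 ⟨d * c * d⁻¹, P.mul_mem (P.mul_mem hd hc) (P.inv_mem hd), by simpa using h⟩

theorem mov_subset {P : Subgroup (Perm α)} {S : Finset α} (h : P ≤ symOn S) : mov P ⊆ S :=
  fun b hb => by_contra fun e => by
    obtain ⟨d, hd, h1⟩ := mem_mov.1 hb
    exact h1 (mem_symOn.1 (h hd) b e)

/-- permutations centralizing `P` and fixing its orbits -/
def orbE (P : Subgroup (Perm α)) : Subgroup (Perm α) where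
  carrier := {g | (∀ d ∈ P, d * g = g * d) ∧ ∀ b, ∃ d ∈ P, g b = d b}
  one_mem' := ⟨by simp, fun _ => ⟨1, P.one_mem, rfl⟩⟩
  mul_mem' := fun {g h} hg hh => ⟨fun d hd => by
    rw [← mul_assoc, hg.1 d hd, mul_assoc, hh.1 d hd, mul_assoc], fun b => by
      obtain ⟨d, hd, e⟩ := hh.2 b
      obtain ⟨d', hd', e'⟩ := hg.2 (d b)
      exact ⟨d' * d, P.mul_mem hd' hd, by simp [e, e']⟩⟩
  inv_mem' := fun {g} hg => ⟨fun d hd => (Commute.inv_right (hg.1 d hd)).eq, fun b => by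
    obtain ⟨d, hd, e⟩ := hg.2 (g⁻¹ b)
    exact ⟨d⁻¹, P.inv_mem hd, by rw [eq_comm, Perm.inv_eq_iff_eq, ← e]; simp⟩⟩

omit [Fintype α] [DecidableEq α] in
theorem pow_apply_eq {g d : Perm α} (h : d * g = g * d) {b : α} (e : g b = d b) (k : ℕ) :
    (g ^ k) b = (d ^ k) b := by
  induction k with
  | zero => rfl
  | succ k ih =>
    rw [pow_succ', Perm.mul_apply, ih, ← Perm.mul_apply, ← (Commute.pow_left h k).eq, pow_succ,
      Perm.mul_apply, Perm.mul_apply, e]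

omit [Fintype α] [DecidableEq α] in
theorem pow_card_mem {P : Subgroup (Perm α)} {d : Perm α} (hd : d ∈ P) : d ^ Nat.card P = 1 :=
  congrArg Subtype.val (pow_card_eq_one' (x := (⟨d, hd⟩ : P)))

omit [Fintype α] [DecidableEq α] in
theorem pow_card_orbE {P : Subgroup (Perm α)} {g : Perm α} (hg : g ∈ orbE P) :
    g ^ Nat.card P = 1 := Equiv.ext fun b => by
  obtain ⟨d, hd, e⟩ := hg.2 b
  rw [pow_apply_eq (hg.1 d hd) e, pow_card_mem hd]

theorem isPGroup_orbE {P : Subgroup (Perm α)} (hP : IsPGroup p P) : IsPGroup p (orbE P) := by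
  obtain ⟨k, hk⟩ := hP.exists_card_eq
  exact fun g => ⟨k, Subtype.ext (by simpa [hk] using pow_card_orbE g.2)⟩

omit [Fintype α] [DecidableEq α] in
theorem conj_mem_orbE {P : Subgroup (Perm α)} {y g : Perm α} (hy : ∀ d ∈ P, d * y = y * d)
    (hg : g ∈ orbE P) : y * g * y⁻¹ ∈ orbE P :=
  ⟨fun d hd => ((Commute.mul_right (hy d hd) (hg.1 d hd)).mul_right
    (Commute.inv_right (hy d hd))).eq, fun b => by
    obtain ⟨d, hd, e⟩ := hg.2 (y⁻¹ b)
    exact ⟨d, hd, by rw [Perm.mul_apply, Perm.mul_apply, e, ← Perm.mul_apply, ← hy d hd]; simp⟩⟩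

omit [Fintype α] [DecidableEq α] in
theorem exists_restrict (t : Perm α) (q : α → Prop) (h : ∀ x, q (t x) ↔ q x) :
    ∃ z : Perm α, (∀ b, q b → z b = t b) ∧ ∀ b, ¬q b → z b = b := by
  classical
  exact ⟨Perm.ofSubtype (t.subtypePerm h), fun _ => Perm.ofSubtype_subtypePerm_of_mem h,
    fun _ => Perm.ofSubtype_subtypePerm_of_not_mem h⟩

theorem exists_orbE {P : Subgroup (Perm α)} (hP : IsPGroup p P) {a : α} (ha : a ∈ mov P) :
    ∃ z ∈ orbE P, ∀ b, z b ≠ b ↔ ∃ d ∈ P, d a = b := by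
  classical
  obtain ⟨d₀, hd₀, h₀⟩ := mem_mov.1 ha
  let f := MulAction.toPermHom P (MulAction.orbit P a)
  haveI : Nontrivial f.range := ⟨⟨⟨f ⟨d₀, hd₀⟩, _, rfl⟩, 1, fun e => h₀ (congrArg Subtype.val
    (congrFun (congrArg (fun g : f.range => ⇑g.1) e) ⟨a, MulAction.mem_orbit_self a⟩))⟩⟩
  obtain ⟨⟨⟨_, t, rfl⟩, ht⟩, h1⟩ := @exists_ne _
    (hP.of_surjective _ f.rangeRestrict_surjective).center_nontrivial 1
  have h2 : ∀ d ∈ P, ∀ b, (∃ d ∈ P, d a = b) → d (t.1 b) = t.1 (d b) := by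
    rintro d hd _ ⟨c, hc, rfl⟩
    exact congrArg Subtype.val (congrFun (congrArg (fun g : f.range => ⇑g.1)
      (mem_center_iff.1 ht ⟨_, ⟨d, hd⟩, rfl⟩)) ⟨c a, ⟨c, hc⟩, rfl⟩)
  have h3 : ∀ d ∈ P, ∀ b, (∃ c ∈ P, c a = d b) ↔ ∃ c ∈ P, c a = b := fun d hd b =>
    ⟨fun ⟨c, hc, e⟩ => ⟨d⁻¹ * c, P.mul_mem (P.inv_mem hd) hc, by simp [e]⟩,
      fun ⟨c, hc, e⟩ => ⟨d * c, P.mul_mem hd hc, by simp [e]⟩⟩
  obtain ⟨z, z1, z2⟩ := exists_restrict t.1 (fun b => ∃ c ∈ P, c a = b) (h3 t t.2)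
  refine ⟨z, ⟨fun d hd => Equiv.ext fun b => ?_, fun b => ?_⟩, fun b => ?_⟩
  · simp only [Perm.mul_apply]
    by_cases hb : ∃ c ∈ P, c a = b
    · rw [z1 _ hb, z1 _ ((h3 d hd b).2 hb), h2 d hd b hb]
    · rw [z2 _ hb, z2 _ (mt (h3 d hd b).1 hb)]
  · by_cases hb : ∃ c ∈ P, c a = b
    · exact ⟨t, t.2, z1 _ hb⟩
    · exact ⟨1, P.one_mem, z2 _ hb⟩
  · refine ⟨fun h => by_contra fun hb => h (z2 _ hb), fun hb => ?_⟩
    rw [z1 _ hb]
    refine fun e => h1 (Subtype.ext (Subtype.ext (Equiv.ext ?_)))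
    rintro ⟨_, c, rfl⟩
    obtain ⟨d, hd, rfl⟩ := hb
    have := h2 (c * d⁻¹) (P.mul_mem c.2 (P.inv_mem hd)) _ ⟨d, hd, rfl⟩
    rw [e] at this
    exact Subtype.ext (show t.1 (c.1 a) = c.1 a by simpa using this.symm)

theorem exists_orbE_support {P : Subgroup (Perm α)} (hP : IsPGroup p P) :
    ∃ x ∈ orbE P, x.support = mov P := by
  classical
  obtain ⟨x, hx, hm⟩ := Finset.exists_max_image (Finset.univ.filter (· ∈ orbE P))
    (fun x => x.support.card) ⟨1, by simp [one_mem]⟩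
  simp only [Finset.mem_filter, Finset.mem_univ, true_and] at hx hm
  refine ⟨x, hx, Finset.Subset.antisymm (fun b hb => ?_) fun a ha => by_contra fun h => ?_⟩
  · obtain ⟨d, hd, e⟩ := hx.2 b
    exact mem_mov.2 ⟨d, hd, e ▸ Perm.mem_support.1 hb⟩
  · obtain ⟨z, hz, h1⟩ := exists_orbE hP ha
    have h2 : Perm.Disjoint x z := fun b => by
      by_cases hb : z b = b
      · exact Or.inr hb
      · obtain ⟨d, hd, rfl⟩ := (h1 b).1 hb
        left
        rw [← Perm.mul_apply, ← hx.1 d hd, Perm.mul_apply, Perm.notMem_support.1 h]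
    have h3 := hm _ (mul_mem hx hz)
    rw [h2.card_support_mul] at h3
    have : 0 < z.support.card :=
      Finset.card_pos.2 ⟨a, Perm.mem_support.2 ((h1 a).2 ⟨1, P.one_mem, rfl⟩)⟩
    omega

theorem fix_of_comm {P : Subgroup (Perm α)} (hP : IsPGroup p P) {y : Perm α}
    (hy : ¬p ∣ orderOf y) (h1 : ∀ d ∈ P, d * y = y * d)
    (h2 : ∀ z ∈ orbE P, z ∈ alternatingGroup α → z * y = y * z) {b : α} (hb : b ∈ mov P) :
    y b = b := by
  obtain ⟨k, hk⟩ := hP.exists_card_eq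
  have co : (Nat.card P).Coprime (orderOf y) :=
    hk ▸ ((Nat.Prime.coprime_iff_not_dvd hp.out).2 hy).pow_left k
  obtain ⟨z, hz, h3⟩ := exists_orbE hP hb
  have h4 := mul_mem (conj_mem_orbE h1 hz) (inv_mem hz)
  have h5 := h2 _ h4 (by simp [Perm.mem_alternatingGroup, mul_right_comm])
  have h6 : ∀ m : ℕ, y ^ m * z = (y * z * y⁻¹ * z⁻¹) ^ m * z * y ^ m := fun m => by
    induction m with
    | zero => simp
    | succ m ih =>
      rw [pow_succ', mul_assoc, ih, ← mul_assoc, ← mul_assoc, ← (Commute.pow_left h5 m).eq,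
        pow_succ]
      group
  have h7 := h6 (orderOf y)
  rw [pow_orderOf_eq_one, one_mul, mul_one, eq_comm, mul_eq_right] at h7
  have h8 : y * z * y⁻¹ * z⁻¹ = 1 := by
    rw [← orderOf_eq_one_iff]
    exact Nat.eq_one_of_dvd_coprimes co (orderOf_dvd_of_pow_eq_one (pow_card_orbE h4))
      (orderOf_dvd_of_pow_eq_one h7)
  rw [mul_inv_eq_one, mul_inv_eq_iff_eq_mul] at h8
  obtain ⟨d, hd, e⟩ := (h3 (y b)).1 (by
    rw [← Perm.mul_apply, ← h8]
    exact fun e => (h3 b).2 ⟨1, P.one_mem, rfl⟩ (y.injective e))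
  obtain ⟨m, hm⟩ := exists_pow_eq_self_of_coprime co
  rw [← hm]
  refine Perm.pow_apply_eq_self_of_apply_eq_self ?_ m
  rw [pow_apply_eq (h1 d hd) e.symm, pow_card_mem hd, Perm.one_apply]

section PGroup

variable {P : Type*} [Group P] [Finite P]

theorem normal_of_index_dvd (hP : IsPGroup p P) {H : Subgroup P} (h : H.index ∣ p) : H.Normal := by
  rcases (Nat.dvd_prime hp.out).1 h with h | h
  · rw [index_eq_one.1 h]; infer_instance
  · obtain ⟨k, hk⟩ := hP.exists_card_eq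
    refine normal_of_index_eq_minFac_card (h.trans ?_)
    have : k ≠ 0 := fun e => by
      have := H.index_dvd_card
      rw [h, hk, e, pow_zero, Nat.dvd_one] at this
      exact hp.out.ne_one this
    rw [hk, hp.out.pow_minFac this]

theorem comm_mem_of_index (hP : IsPGroup p P) {H : Subgroup P} (h : H.index ∣ p) (x y : P) :
    x * y * x⁻¹ * y⁻¹ ∈ H := by
  haveI := normal_of_index_dvd hP h
  haveI : IsCyclic (P ⧸ H) := isCyclic_of_card_dvd_prime h
  obtain ⟨g, hg⟩ := IsCyclic.exists_generator (α := P ⧸ H)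
  obtain ⟨a, ha⟩ := hg x
  obtain ⟨b, hb⟩ := hg y
  rw [← QuotientGroup.eq_one_iff]
  simp only [QuotientGroup.mk_mul, QuotientGroup.mk_inv, ← ha, ← hb]
  group

theorem exists_irr_degree (hP : IsPGroup p P) {K₁ K₂ : Subgroup P} (h12 : K₂ ≤ K₁)
    (h1 : K₁.index = p) (h2 : K₂.relIndex K₁ = p) (hn : ¬K₂.Normal) {D : Type*} [Group D]
    (f : D →* P) (hf : ∀ σ, ∃ d, (f d)⁻¹ * σ ∈ K₂.normalCore) :
    ∃ φ : IrrCharacter D, (φ : D → ℂ) 1 = p := by
  haveI := normal_of_index_dvd hP h1.dvd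
  obtain ⟨χ, hχ⟩ : ∃ χ : IrrCharacter (P ⧸ K₂.normalCore), χ.1 1 ≠ 1 := by
    by_contra h
    push Not at h
    refine hn ⟨fun k hk g => ?_⟩
    have := comm_iff_forall_irr_apply_one.2 h g k
    rw [← QuotientGroup.mk_mul, ← QuotientGroup.mk_mul, eq_comm, QuotientGroup.eq] at this
    have h3 := K₂.normalCore_le ((inferInstance : K₂.normalCore.Normal).conj_mem _ this g)
    have h3 := K₂.normalCore_le ((inferInstance : K₂.normalCore.Normal).conj_mem _ this g)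
    simpa [mul_assoc] using K₂.mul_mem hk h3
  obtain ⟨d, -, hd⟩ := χ.2.exists_apply_one
  have h3 := degree_dvd_index_of_abelian_normal χ.2 (K₁.map (QuotientGroup.mk' K₂.normalCore)) (by
    rintro _ ⟨x, hx, rfl⟩ _ ⟨y, hy, rfl⟩
    rw [← map_mul, ← map_mul, QuotientGroup.mk'_apply, QuotientGroup.mk'_apply, QuotientGroup.eq]
    intro g
    have := comm_mem_of_index (hP.to_subgroup K₁) (H := K₂.subgroupOf K₁) h2.dvd
      ⟨_, (inferInstance : K₁.Normal).conj_mem _ (inv_mem hy) g⟩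
      ⟨_, (inferInstance : K₁.Normal).conj_mem _ (inv_mem hx) g⟩
    simpa [mem_subgroupOf, mul_assoc] using this) hd
  have h4 := h3.trans (h1 ▸ index_map_dvd _ (QuotientGroup.mk'_surjective _))
  refine ⟨⟨_, χ.2.comp_of_surjective ((QuotientGroup.mk' _).comp f) fun q => ?_⟩, ?_⟩
  · obtain ⟨σ, rfl⟩ := QuotientGroup.mk_surjective q
    obtain ⟨d, hd⟩ := hf σ
    exact ⟨d, QuotientGroup.eq.2 hd⟩
  · rcases (Nat.dvd_prime hp.out).1 h4 with rfl | rfl
    · exact absurd (by simpa using hd) hχ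
    · simpa using hd

theorem exists_chain (hP : IsPGroup p P) {H : Subgroup P} (h : p < H.index) :
    ∃ K₁ K₂ : Subgroup P, H ≤ K₂ ∧ K₂ ≤ K₁ ∧ K₁.index = p ∧ K₂.relIndex K₁ = p ∧
      K₂.index = p ^ 2 := by
  obtain ⟨k, hk⟩ := hP.exists_card_eq
  obtain ⟨j, hj⟩ := (hP.to_subgroup H).exists_card_eq
  obtain ⟨i, hi⟩ := hP.index H
  have h1 : 1 < i := by rwa [← Nat.pow_lt_pow_iff_right hp.out.one_lt, pow_one, ← hi]
  have h2 := H.card_mul_index
  rw [hj, hi, hk, ← pow_add] at h2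
  obtain rfl := Nat.pow_right_injective hp.out.two_le h2
  obtain ⟨i, rfl⟩ := Nat.exists_eq_add_of_le' h1
  obtain ⟨K₂, h3, h4⟩ := Sylow.exists_subgroup_card_pow_prime_le p (m := j + i)
    (hk ▸ pow_dvd_pow p (by omega)) H hj (by omega)
  obtain ⟨K₁, h5, h6⟩ := Sylow.exists_subgroup_card_pow_prime_le p (m := j + i + 1)
    (hk ▸ pow_dvd_pow p (by omega)) K₂ h3 (by omega)
  have h0 : 0 < p ^ (j + i) := pow_pos hp.out.pos _
  have h7 : K₁.index = p := Nat.eq_of_mul_eq_mul_left (pow_pos hp.out.pos (j + i + 1)) (by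
    rw [← h5, K₁.card_mul_index, hk, h5]; ring)
  have h8 : K₂.index = p ^ 2 := Nat.eq_of_mul_eq_mul_left h0 (by
    rw [← h3, K₂.card_mul_index, hk, h3]; ring)
  refine ⟨K₁, K₂, h4, h6, h7, Nat.eq_of_mul_eq_mul_right hp.out.pos ?_, h8⟩
  rw [← sq, ← h8, ← relIndex_mul_index h6, h7]

end PGroup

theorem comm_of_card_lt {P : Subgroup (Perm α)} (hP : IsPGroup p P) (h : (mov P).card < p ^ 2)
    (x y : P) : x * y = y * x := by
  rw [← mul_inv_eq_one, mul_inv_rev, ← mul_assoc]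
  refine Subtype.ext (Equiv.ext fun b => ?_)
  by_cases hb : b ∈ mov P
  · refine comm_mem_of_index hP (H := MulAction.stabilizer P b) ?_ x y
    obtain ⟨i, hi⟩ := hP.index (MulAction.stabilizer P b)
    have h1 : (MulAction.stabilizer P b).index ≤ (mov P).card := by
      rw [MulAction.index_stabilizer, ← Set.ncard_coe_finset]
      refine Set.ncard_le_ncard ?_ (Set.toFinite _)
      rintro _ ⟨d, rfl⟩
      exact apply_mem_mov d.2 hb
    have h2 : i < 2 := (Nat.pow_lt_pow_iff_right hp.out.one_lt).1 (hi ▸ h1.trans_lt h)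
    exact hi ▸ (pow_dvd_pow p (by omega : i ≤ 1)).trans (pow_one p).dvd
  · exact mem_symOn.1 (le_symOn_mov P (Subtype.prop _)) b hb

/-- permutations acting on each orbit of `K` like an element of `K` -/
def blockGrp (K : Subgroup (Perm α)) : Subgroup (Perm α) where
  carrier := {g | ∀ b, ∃ k ∈ K, ∀ c ∈ K, g (c b) = k (c b)}
  one_mem' := fun _ => ⟨1, K.one_mem, fun _ _ => rfl⟩
  mul_mem' := fun {g h} hg hh b => by
    obtain ⟨k, hk, e⟩ := hg b
    obtain ⟨l, hl, e'⟩ := hh b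
    exact ⟨k * l, K.mul_mem hk hl, fun c hc => by
      rw [Perm.mul_apply, e' c hc]; exact e _ (K.mul_mem hl hc)⟩
  inv_mem' := fun {g} hg b => by
    obtain ⟨k, hk, e⟩ := hg b
    refine ⟨k⁻¹, K.inv_mem hk, fun c hc => Perm.inv_eq_iff_eq.2 ?_⟩
    simpa using (e _ (K.mul_mem (K.inv_mem hk) hc)).symm

theorem isPGroup_blockGrp {K : Subgroup (Perm α)} (hK : IsPGroup p K) :
    IsPGroup p (blockGrp K) := fun g => by
  obtain ⟨n, hn⟩ := hK.exists_card_eq
  refine ⟨n, Subtype.ext (Equiv.ext fun b => ?_)⟩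
  obtain ⟨k, hk, e⟩ := g.2 b
  have : ∀ m : ℕ, (g.1 ^ m) b = (k ^ m) b := fun m => by
    induction m with
    | zero => rfl
    | succ m ih => rw [pow_succ', pow_succ', Perm.mul_apply, ih, e _ (K.pow_mem hk m)]; rfl
  simp [this, ← hn, pow_card_mem hk]

theorem not_normal_of_sylow {P : Subgroup (Perm α)} {S : Finset α} (hP : IsSylowIn p P (symOn S))
    {a : α} {K₁ K₂ : Subgroup P} [hn : K₁.Normal] (h0 : MulAction.stabilizer P a ≤ K₂)
    (h12 : K₂ ≤ K₁) (h1 : K₁ ≠ ⊤) (h2 : ¬K₁ ≤ K₂) : ¬K₂.Normal := fun hn₂ => by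
  classical
  obtain ⟨g, hg, hg'⟩ := SetLike.not_le_iff_exists.1 h2
  obtain ⟨h, -, hh⟩ := SetLike.exists_of_lt (lt_top_iff_ne_top.2 h1)
  have h3 : P ≤ normalizer (blockGrp (K₁.map P.subtype) : Set (Perm α)) := fun d hd =>
    mem_normalizer_fintype fun t ht b => by
      obtain ⟨_, ⟨k, hk, rfl⟩, e⟩ := ht (d⁻¹ b)
      refine ⟨_, ⟨_, hn.conj_mem k hk ⟨d, hd⟩, rfl⟩, ?_⟩
      rintro _ ⟨c, hc, rfl⟩
      simpa using e _ ⟨_, hn.conj_mem c hc ⟨d, hd⟩⁻¹, rfl⟩
  have h4 : blockGrp (K₁.map P.subtype) ≤ P := le_sup_right.trans (hP.maximal _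
    (hP.isPGroup.to_sup_of_normal_right' (isPGroup_blockGrp ((hP.isPGroup.to_subgroup K₁).map _)) h3)
    le_sup_left (sup_le hP.le fun t ht => mem_symOn.2 fun b hb => by
      obtain ⟨_, ⟨k, -, rfl⟩, e⟩ := ht b
      exact (e 1 (one_mem _)).trans (mem_symOn.1 (hP.le k.2) b hb))).le
  have h5 : ∀ c ∈ K₁, ∀ b, (∃ k ∈ K₁, k.1 a = c.1 b) ↔ ∃ k ∈ K₁, k.1 a = b := fun c hc b =>
    ⟨fun ⟨k, hk, e⟩ => ⟨c⁻¹ * k, K₁.mul_mem (K₁.inv_mem hc) hk, by simp [e]⟩,
      fun ⟨k, hk, e⟩ => ⟨c * k, K₁.mul_mem hc hk, by simp [e]⟩⟩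
  set g' := Perm.ofSubtype (g.1.subtypePerm (p := fun b => ∃ k ∈ K₁, k.1 a = b) (h5 g hg))
  have h6 : g' ∈ P := h4 fun b => by
    by_cases hb : ∃ k ∈ K₁, k.1 a = b
    · refine ⟨_, ⟨g, hg, rfl⟩, ?_⟩
      rintro _ ⟨c, hc, rfl⟩
      exact Perm.ofSubtype_subtypePerm_of_mem _ ((h5 c hc b).2 hb)
    · refine ⟨1, one_mem _, ?_⟩
      rintro _ ⟨c, hc, rfl⟩
      exact Perm.ofSubtype_subtypePerm_of_not_mem _ (mt (h5 c hc b).1 hb)
  have h7 : g' (h.1 a) = h.1 a := Perm.ofSubtype_subtypePerm_of_not_mem _ fun ⟨k, hk, e⟩ =>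
    hh (by simpa using K₁.mul_mem hk (h12 (h0 (show (k⁻¹ * h).1 a = a by simp [← e]))))
  have h8 : g' a = g.1 a := Perm.ofSubtype_subtypePerm_of_mem _ ⟨1, one_mem _, rfl⟩
  have h9 := hn₂.conj_mem _ (h0 (show (h⁻¹ * ⟨g', h6⟩ * h).1 a = a by simp [h7])) h
  have h10 := h0 (show ((⟨g', h6⟩ : P)⁻¹ * g).1 a = a by simp [← h8])
  exact hg' (by simpa [mul_assoc] using K₂.mul_mem h9 h10)

theorem card_le_index {P : Subgroup (Perm α)} {a : α} {S : Finset α}
    (h : ∀ b ∈ S, ∃ d ∈ P, d a = b) : S.card ≤ (MulAction.stabilizer P a).index := by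
  rw [MulAction.index_stabilizer, ← Set.ncard_coe_finset]
  exact Set.ncard_le_ncard (fun b hb => let ⟨d, hd, e⟩ := h b hb; ⟨⟨d, hd⟩, e⟩) (Set.toFinite _)

theorem exists_cycle (S : Finset α) (h : p ^ 2 ≤ S.card) : ∃ c ∈ symOn S, c.IsCycle ∧
    c.support.card = p ^ 2 ∧ IsPGroup p (zpowers c) := by
  obtain ⟨c, hc, h1⟩ := exists_symOn S (μ := {p ^ 2}) (by simpa) (by
    have := hp.out.two_le; simp; nlinarith)
  have h2 : c.IsCycle := Perm.card_cycleType_eq_one.1 (by simp [h1])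
  have h3 : c.support.card = p ^ 2 := by rw [← Perm.sum_cycleType, h1]; simp
  exact ⟨c, hc, h2, h3, IsPGroup.of_card (by rw [Nat.card_zpowers, h2.orderOf, h3])⟩

theorem irr_of_cycle {P : Subgroup (Perm α)} {S : Finset α} (hP : IsSylowIn p P (symOn S))
    {c : Perm α} (hc : c ∈ P) (h1 : c.IsCycle) (h2 : c.support.card = p ^ 2) {D : Type*} [Group D]
    (f : D →* P) (hf : ∀ a ∈ c.support, ∀ K : Subgroup P, MulAction.stabilizer P a ≤ K →
      K.index = p ^ 2 → ∀ σ, ∃ d, (f d)⁻¹ * σ ∈ K.normalCore) :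
    ∃ φ : IrrCharacter D, (φ : D → ℂ) 1 = p := by
  obtain ⟨a, ha⟩ := h1.nonempty_support
  have h3 := card_le_index (P := P) (a := a) (S := c.support) fun b hb => by
    obtain ⟨i, hi⟩ := h1.exists_pow_eq (Perm.mem_support.1 ha) (Perm.mem_support.1 hb)
    exact ⟨_, P.pow_mem hc i, hi⟩
  have := hp.out.two_le
  obtain ⟨K₁, K₂, h4, h5, h6, h7, h8⟩ := exists_chain hP.isPGroup
    (H := MulAction.stabilizer P a) (by nlinarith)
  haveI := normal_of_index_dvd hP.isPGroup h6.dvd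
  exact exists_irr_degree hP.isPGroup h5 h6 h7 (not_normal_of_sylow hP h4 h5
    (fun e => by rw [e, index_top] at h6; omega)
    fun e => by rw [relIndex_eq_one.2 e] at h7; omega) f (hf a ha K₂ h4 h8)

theorem mem_alt_of_odd (h : p ≠ 2) {σ : Perm α} {k : ℕ} (e : σ ^ p ^ k = 1) :
    σ ∈ alternatingGroup α := by
  have := congrArg Perm.sign e
  rwa [map_pow, map_one, Int.units_pow_eq_pow_mod_two, Nat.odd_iff.1
    ((hp.out.odd_of_ne_two h).pow), pow_one] at this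

theorem sylow_odd (h : p ≠ 2) {P : Subgroup (Perm α)} {S : Finset α}
    (hP : IsSylowIn p P (symOn S ⊓ alternatingGroup α)) : IsSylowIn p P (symOn S) :=
  ⟨hP.le.trans inf_le_left, hP.isPGroup, fun Q hQ h1 h2 => hP.maximal Q hQ h1
    (le_inf h2 fun σ hσ => let ⟨_, e⟩ := hQ ⟨σ, hσ⟩; mem_alt_of_odd h (congrArg Subtype.val e))⟩

theorem irr_degree_odd {P : Subgroup (Perm α)} {S : Finset α} (hP : IsSylowIn p P (symOn S))
    (hS : p ^ 2 ≤ S.card) : ∃ φ : IrrCharacter P, (φ : P → ℂ) 1 = p := by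
  obtain ⟨c, hc, h1, h2, h3⟩ := exists_cycle S hS
  obtain ⟨g, -, hg⟩ := hP.exists_conj_mem h3 (zpowers_le.2 hc)
  exact irr_of_cycle hP (hg c (mem_zpowers c)) h1.conj (Perm.card_support_conj.trans h2)
    (MonoidHom.id _) fun _ _ K _ _ σ => ⟨σ, by simp [one_mem]⟩

theorem irr_degree_two {D : Subgroup (Perm α)} {S : Finset α}
    (hD : IsSylowIn 2 D (symOn S ⊓ alternatingGroup α)) (hS : 6 ≤ S.card) :
    ∃ φ : IrrCharacter D, (φ : D → ℂ) 1 = (2 : ℕ) := by
  obtain ⟨P, hP, hDP⟩ := exists_isSylowIn_ge hD.isPGroup (hD.le.trans inf_le_left)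
  have h0 : P ⊓ alternatingGroup α = D := hD.maximal _ hP.isPGroup.to_inf_left
    (le_inf hDP (hD.le.trans inf_le_right)) (inf_le_inf_right _ hP.le)
  obtain ⟨b₁, h₁, b₂, h₂, hb⟩ := Finset.one_lt_card.1 (by omega : 1 < S.card)
  obtain ⟨c, hc, h1, h2, h3⟩ := exists_cycle (p := 2) ((S.erase b₁).erase b₂) (by
    rw [Finset.card_erase_of_mem (by simp [h₂, hb.symm]), Finset.card_erase_of_mem h₁]; omega)
  have c1 : c b₁ = b₁ := mem_symOn.1 hc _ (by simp)
  have c2 : c b₂ = b₂ := mem_symOn.1 hc _ (by simp)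
  have h4 : c * swap b₁ b₂ = swap b₁ b₂ * c := by rw [mul_swap_eq_swap_mul, c1, c2]
  obtain ⟨g, -, hg⟩ := hP.exists_conj_mem (Q := zpowers c ⊔ zpowers (swap b₁ b₂))
    (h3.to_sup_of_normal_right' (IsPGroup.of_card (n := 1) (by
      rw [Nat.card_zpowers, (Perm.isCycle_swap hb).orderOf, Perm.card_support_swap hb, pow_one]))
      (zpowers_le.2 (Subgroup.centralizer_le_normalizer _ (mem_centralizer_iff.2 (by
        rintro _ ⟨k, rfl⟩; exact (Commute.zpow_left h4.symm k).eq)))))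
    (sup_le (zpowers_le.2 (mem_symOn.2 fun b h => mem_symOn.1 hc b (by simp [h])))
      (zpowers_le.2 (mem_symOn.2 fun b h =>
        swap_apply_of_ne_of_ne (fun e => h (e ▸ h₁)) fun e => h (e ▸ h₂))))
  have h5 := hg c (mem_sup_left (mem_zpowers _))
  have h6 := hg _ (mem_sup_right (mem_zpowers _))
  rw [← swap_apply_apply] at h6
  have h7 : (g * c * g⁻¹) (g b₁) = g b₁ := by simp [c1]
  have h8 : (g * c * g⁻¹) (g b₂) = g b₂ := by simp [c2]
  have h9 := g.injective.ne hb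
  have h10 := Perm.card_support_conj (σ := g) |>.trans h2
  have h11 := h1.conj (g := g)
  generalize g * c * g⁻¹ = c, g b₁ = b₁, g b₂ = b₂ at h5 h6 h7 h8 h9 h10 h11
  refine irr_of_cycle hP h5 h11 h10 (inclusion hDP) fun a ha K hK hi σ => ?_
  have h12 : (⟨_, h6⟩ : P) ∈ K.normalCore := fun t => by
    by_cases h13 : swap (t.1 b₁) (t.1 b₂) a = a
    · exact hK (show (t.1 * swap b₁ b₂ * t.1⁻¹) a = a by rwa [← swap_apply_apply])
    · obtain ⟨k, hk, hk'⟩ : ∃ k ∈ K, k.1 a ≠ a := by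
        by_contra hn
        push Not at hn
        have h14 : ∀ b, c b = b → t.1 b ≠ a := fun b hb e => by
          have := card_le_index (P := P) (a := a) (S := insert b c.support) fun x hx => by
            rcases Finset.mem_insert.1 hx with rfl | hx
            · exact ⟨_, t⁻¹.2, by simp [← e]⟩
            · obtain ⟨i, hi⟩ := h11.exists_pow_eq (Perm.mem_support.1 ha) (Perm.mem_support.1 hx)
              exact ⟨_, P.pow_mem h5 i, hi⟩
          rw [Finset.card_insert_of_notMem (by simpa), h10, ← le_antisymm hn hK, hi] at this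
          omega
        exact h13 (swap_apply_of_ne_of_ne (h14 _ h7).symm (h14 _ h8).symm)
      by_cases h14 : swap (t.1 b₁) (t.1 b₂) (k.1 a) = k.1 a
      · have := hK (show (k⁻¹ * (t * ⟨_, h6⟩ * t⁻¹) * k).1 a = a by
          simp [← swap_apply_apply, h14])
        simpa [mul_assoc] using K.mul_mem (K.mul_mem hk this) (K.inv_mem hk)
      · have h15 : swap (t.1 b₁) (t.1 b₂) a = k.1 a := by
          simp only [swap_apply_def] at h13 h14 ⊢
          split_ifs at h13 h14 ⊢ <;> simp_all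
        have := hK (show (k⁻¹ * (t * ⟨_, h6⟩ * t⁻¹)).1 a = a by simp [← swap_apply_apply, h15])
        simpa using K.mul_mem hk this
  by_cases h13 : σ.1 ∈ alternatingGroup α
  · exact ⟨⟨σ, h0.le ⟨σ.2, h13⟩⟩, (inv_mul_cancel σ).symm ▸ one_mem _⟩
  · refine ⟨⟨σ * swap b₁ b₂, h0.le ⟨P.mul_mem σ.2 h6, ?_⟩⟩, ?_⟩
    · simp [Perm.mem_alternatingGroup, Perm.sign_swap h9,
        (Int.units_eq_one_or _).resolve_left h13]
    · convert h12 using 1
      ext1; simp [mul_assoc]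

end Cfsg.Agent.H5.Sym
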