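import Cfsg.Agent.H5.More
import Cfsg.Agent.H3.Cover
import Cfsg.Agent.H3.BlkMisc

/-! General block-theoretic lemmas used for the blocks of symmetric and alternating groups. -/

set_option autoImplicit false

namespace Cfsg.Agent.H5.Sym

open Cfsg MonoidAlgebra Cfsg.Agent.H3 Cfsg.Agent.H4 Cfsg.Agent.L
open scoped ComplexConjugate

variable {p : ℕ} [hp : Fact p.Prime] {M : Ideal AlgInt} [hMm : M.IsMaximal]
  {G : Type*} [Group G] [Finite G]

theorem index_two_res {N : Subgroup G} [N.Normal] [Fintype N] (hN : N.index = 2)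
    {χ : IrrCharacter G} {θ : IrrCharacter N} (h : Over N χ θ) :
    (χ : G → ℂ) 1 = (θ : N → ℂ) 1 ∨
      ((χ : G → ℂ) 1 = 2 * (θ : N → ℂ) 1 ∧ ∀ g ∉ N, (χ : G → ℂ) g = 0) := by
  classical
  have := Fintype.ofFinite G
  have hr := χ.2.isCharacter.restrict N
  obtain ⟨m, hm⟩ := hr.exists_nat_classInner hr
  obtain ⟨e, he⟩ := hr.exists_nat_classInner θ.2.isCharacter
  have e0 : e ≠ 0 := by rintro rfl; exact h (by simpa using he)
  have h1 := χ.2.classInner_self
  have h2 := hm
  rw [classInner_self_eq] at h1 h2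
  have hc : (Nat.card G : ℝ) = 2 * Nat.card N := by
    rw [← N.card_mul_index, hN]; push_cast; ring
  have hp : (0 : ℝ) < Nat.card N := by exact_mod_cast Nat.card_pos
  have h3 : ∑ g, ‖(χ : G → ℂ) g‖ ^ 2 = 2 * Nat.card N := by
    have : (Nat.card G : ℝ)⁻¹ * ∑ g, ‖(χ : G → ℂ) g‖ ^ 2 = 1 := by exact_mod_cast h1
    rw [hc] at this; field_simp at this; linarith
  have h4 : ∑ g with g ∈ N, ‖(χ : G → ℂ) g‖ ^ 2 = m * Nat.card N := by
    have : (Nat.card N : ℝ)⁻¹ * ∑ g : N, ‖(χ : G → ℂ) g‖ ^ 2 = m := by exact_mod_cast h2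
    rw [Finset.sum_subtype (p := (· ∈ N)) _ (by simp)]
    field_simp at this; convert this using 1; ring
  have h5 := Finset.sum_filter_add_sum_filter_not Finset.univ (· ∈ N)
    fun g => ‖(χ : G → ℂ) g‖ ^ 2
  have h6 : 0 ≤ ∑ g with g ∉ N, ‖(χ : G → ℂ) g‖ ^ 2 := Finset.sum_nonneg fun _ _ => by positivity
  have hm2 : m ≤ 2 := by
    have : (m : ℝ) ≤ 2 := by nlinarith
    exact_mod_cast this
  have hs := hr.sub_irr θ.2 h
  obtain ⟨k, hk⟩ := hs.exists_nat_classInner hs
  have hk' := hk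
  rw [classInner_sub_left, classInner_sub_right, classInner_sub_right, hm, he,
    θ.2.isCharacter.classInner_comm hr, he, θ.2.classInner_self] at hk'
  have hk2 : (m : ℤ) - e - (e - 1) = k := by exact_mod_cast hk'
  obtain rfl | rfl : k = 0 ∨ k = 1 := by omega
  · left
    simpa [sub_eq_zero] using congrFun (classInner_self_eq_zero.1 (hk.trans Nat.cast_zero)) 1
  · right
    obtain ⟨rfl, rfl⟩ : m = 2 ∧ e = 1 := by omega
    have hi := hs.isIrrCharacter (by simpa using hk)
    obtain ⟨g, hg⟩ := h.exists_cjIrr χ.2 (φ := ⟨_, hi⟩) (by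
      change classInner _ (_ - _) ≠ 0
      rw [classInner_sub_right, hm, he]; norm_num)
    have := congrFun (congrArg Subtype.val hg) 1
    simp only [coe_cjIrr, conjFun_apply_one, Pi.sub_apply, OneMemClass.coe_one] at this
    refine ⟨by linear_combination -this, fun g hg => ?_⟩
    have h7 : ∑ g with g ∉ N, ‖(χ : G → ℂ) g‖ ^ 2 = 0 := by push_cast at h4; linarith
    simpa using (Finset.sum_eq_zero_iff_of_nonneg fun _ _ => by positivity).1 h7 g (by simpa)

/-- a union of blocks closed under multiplication by a sign character cannot separate two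
characters lying over one block of the kernel -/
theorem mem_of_sign {N : Subgroup G} [N.Normal] [Fintype N] (s : G →* ℂˣ)
    (hs : ∀ g ∉ N, (s g : ℂ) = -1) (hs1 : ∀ g ∈ N, (s g : ℂ) = 1) {U : Set (IrrCharacter G)}
    (hU : IsUnion M U) (hUs : ∀ χ ∈ U, ∀ ψ : IrrCharacter G,
      (∀ g, (ψ : G → ℂ) g = (χ : G → ℂ) g * s g) → ψ ∈ U) {χ ψ : IrrCharacter G} (hχ : χ ∈ U)
    {θ φ : IrrCharacter N} (h1 : Over N χ θ) (h2 : Over N ψ φ)
    (h : SameBlock M (θ : N → ℂ) φ) : ψ ∈ U := by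
  classical
  have ss : ∀ g, (s g : ℂ) * s g = 1 := fun g => by
    by_cases hg : g ∈ N
    · simp [hs1 g hg]
    · simp [hs g hg]
  let t : IrrCharacter G → IrrCharacter G := fun χ => ⟨χ.1 * fun g => (s g : ℂ),
    χ.2.mul_linear (isIrrCharacter_unitsHom s).isCharacter (by simp)⟩
  have tt : ∀ χ, t (t χ) = χ := fun χ => Subtype.ext (funext fun g => by
    simp only [t, Pi.mul_apply, mul_assoc, ss, mul_one])
  have h3 : cut N (eB M U) = eB M U := cut_eq_self_iff.mpr fun g hg => by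
    have : ∑ χ with χ ∈ U, (χ : G → ℂ) 1 * conj ((χ : G → ℂ) g) = 0 := by
      rw [← CharZero.neg_eq_self_iff, ← Finset.sum_neg_distrib]
      refine Finset.sum_nbij' t t (fun χ h => ?_) (fun χ h => ?_) (fun χ _ => tt χ)
        (fun χ _ => tt χ) fun χ _ => ?_
      · simpa using hUs χ (by simpa using h) _ fun _ => rfl
      · simpa using hUs χ (by simpa using h) _ fun _ => rfl
      · simp [t, hs g hg]
    rw [coeff_eB, blockCoeff_eq, this, mul_zero, red_zero]
  apply hU.mem_of_lam_eB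
  rw [← h3, h2.lam_cut ψ.2 φ.2 (eB_mem_Zc U), ← lam_eq_of_sameBlock θ.2 φ.2 h,
    ← h1.lam_cut χ.2 θ.2 (eB_mem_Zc U), h3, hU.lam_eB_of_mem hχ]
  exact one_ne_zero

variable [CharP (Res M) p]

/-- a character of defect at most one has height zero -/
theorem height_eq_zero {B : Set (IrrCharacter G)} (hB : IsPBlock M B) {φ : IrrCharacter G}
    (hφ : φ ∈ B) (h : (Nat.card G).factorization p ≤ nu p (φ : G → ℂ) + 1) :
    blockHeight p B (φ : G → ℂ) = 0 := by
  classical
  have := Fintype.ofFinite G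
  by_contra h0
  obtain ⟨χ, hχ, hχ0⟩ := exists_height_zero p (IsPBlock.nonempty hB)
  have hc := φ.2.isCharacter
  have h1 : red M (om (φ : G → ℂ) (tR p φ)) = 0 := by
    rw [← lam_redA_tR φ hc]
    by_contra h; exact h0 ((IsPBlock.lam_tR_ne_zero_iff hB hφ φ).1 h).2
  have h2 := (IsPBlock.lam_tR_ne_zero_iff hB hφ χ).2 ⟨hχ, hχ0⟩
  have e1 : classInner (regP p φ.1) φ.1 = classInner (regP p φ.1) (regP p φ.1) := by
    simp only [classInner, regP]
    congr 1; refine Finset.sum_congr rfl fun g _ => ?_; split_ifs <;> simp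
  have e2 : 1 - classInner (regP p φ.1) φ.1 =
      classInner (φ.1 - regP p φ.1) (φ.1 - regP p φ.1) := by
    rw [← φ.2.classInner_self, ← classInner_sub_left]
    simp only [classInner, regP, Pi.sub_apply]
    congr 1; refine Finset.sum_congr rfl fun g _ => ?_; split_ifs <;> simp
  have n1 : classInner (regP p φ.1) φ.1 ≠ 0 := fun e => φ.2.apply_one_ne_zero (by
    rw [← regP_of_pReg (p := p) φ.1 not_dvd_orderOf_one,
      classInner_self_eq_zero.1 (e1.symm.trans e)]; rfl)
  have n2 : 1 - classInner (regP p φ.1) φ.1 ≠ 0 := fun e => h2 (by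
    rw [lam_redA_tR φ χ.2.isCharacter, om_apply, ev_tR _ hc, classInner_regP_comm,
      ← sub_eq_zero.1 (classInner_self_eq_zero.1 (e2.symm.trans e)),
      χ.2.classInner_of_ne φ.2 fun e => h0 (e ▸ hχ0)]
    simp)
  obtain ⟨m, hm⟩ := (isGen_pow_mul_regPart (p := p)
    φ.2.isGeneralizedCharacter).exists_int_classInner φ.2.isGeneralizedCharacter
  have hm' : (p : ℂ) ^ (Nat.card G).factorization p * classInner (regP p φ.1) φ.1 = m := by
    rw [← hm, ← classInner_smul_left]; congr 1; funext g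
    simp only [regP, Pi.smul_apply, smul_eq_mul]; split_ifs <;> simp
  have hp0 : (p : ℂ) ^ (Nat.card G).factorization p ≠ 0 :=
    pow_ne_zero _ (Nat.cast_ne_zero.2 hp.out.ne_zero)
  rw [om_apply, ev_tR _ hc] at h1
  have h3 := (red_eq_zero_iff (by
    rw [← ev_tR _ hc, ← om_apply]; exact om_tR_mem φ hc)).1 h1
  rw [classInner_self_eq] at e1 e2
  generalize classInner (regP p φ.1) φ.1 = a at *
  obtain ⟨k, rfl⟩ : ∃ k : ℤ, a = k := by
    refine exists_int_of_mem_of_pow_mul (M := M) ?_ _ _ hm'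
    have m0 : 0 ≤ m := by
      rw [e1] at hm'
      have : (0 : ℝ) ≤ m := by
        rw [← Complex.ofReal_inj.1 (by push_cast; simpa using hm' :
          (((p : ℝ) ^ (Nat.card G).factorization p * ((Nat.card G : ℝ)⁻¹ *
            ∑ g, ‖regP p (φ : G → ℂ) g‖ ^ 2) : ℝ) : ℂ) = (m : ℝ))]
        positivity
      exact_mod_cast this
    lift m to ℕ using m0
    have ha : a = m / (p ^ (Nat.card G).factorization p : ℕ) := by
      push_cast; rw [eq_div_iff hp0, mul_comm, hm']; simp
    have m1 : m ≠ 0 := by rintro rfl; simp [ha] at n1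
    have q0 := pow_ne_zero ((Nat.card G).factorization p) hp.out.ne_zero
    have h4 : (Nat.card G : ℂ) * a / (φ : G → ℂ) 1 = (Nat.card G * m : ℕ) /
        (charDegree (φ : G → ℂ) * p ^ (Nat.card G).factorization p : ℕ) := by
      rw [ha, ← cast_charDegree hc]; push_cast; field_simp
    rw [h4, memLocalIdeal_natCast_div_iff (p := p) (mul_ne_zero Nat.card_pos.ne' m1)
      (mul_ne_zero (charDegree_ne_zero φ) q0), Nat.factorization_mul Nat.card_pos.ne' m1,
      Nat.factorization_mul (charDegree_ne_zero φ) q0] at h3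
    rw [ha, natCast_div_mem_iff (p := p) m1 q0]
    simp only [Finsupp.add_apply, nu] at h h3
    omega
  have k1 : (0 : ℝ) ≤ k := by
    rw [← Complex.ofReal_intCast, Complex.ofReal_inj] at e1; rw [e1]; positivity
  have k2 : (0 : ℝ) ≤ 1 - k := by
    rw [← Complex.ofReal_intCast, ← Complex.ofReal_one, ← Complex.ofReal_sub,
      Complex.ofReal_inj] at e2
    rw [e2]; positivity
  obtain rfl | rfl : k = 0 ∨ k = 1 := by
    have : 0 ≤ k := by exact_mod_cast k1
    have : 0 ≤ 1 - k := by exact_mod_cast k2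
    omega
  · simp at n1
  · simp at n2

theorem trunc_idem {Q : Subgroup G} (hQ : IsPGroup p Q) {K : Subgroup G} {e : (Res M)[G]}
    (he : e ∈ Zc (Res M) G) (hi : IsIdempotentElem e) (hK : cut K e = br Q e) :
    IsIdempotentElem (trunc K e) := by
  apply incl_injective K
  rw [map_mul, incl_trunc, hK, ← br_mul hQ (Zc_le_invAlg _ he) (Zc_le_invAlg _ he), hi.eq]

/-- two characters proportional on the coset `x K` lie in the same union of blocks -/
theorem mem_of_proportional {A : Set (IrrCharacter G)} (hA : IsUnion M A) {x : G}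
    (hx : ∃ k, orderOf x = p ^ k) {K : Subgroup G} (hK : K ≤ cz x)
    (hs : ∀ y ∈ cz x, (eB M A).coeff y ≠ 0 → y ∈ K) {χ ψ : IrrCharacter G} (hχ : χ ∈ A)
    (h0 : (χ : G → ℂ) x ≠ 0) {c : ℂ} (hc : ∀ k ∈ K, (χ : G → ℂ) (x * k) = c * (ψ : G → ℂ) (x * k)) :
    ψ ∈ A := by
  classical
  by_contra hψ
  have hQ := isPGroup_zpowers hx
  have h1 : cut K (eB M A) = br (Subgroup.zpowers x) (eB M A) := ga_ext fun g => by
    rw [br_zpowers, coeff_cut, coeff_cut]
    by_cases hg : g ∈ K
    · simp [hg, hK hg]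
    · by_cases hg' : g ∈ cz x
      · simpa [hg, hg'] using (by_contra fun h => hg (hs g hg' h) : (eB M A).coeff g = 0).symm
      · simp [hg, hg']
  have h2 := eq_eB_of_idem (trunc_mem_Zc K (eB_mem_Zc (M := M) A))
    (trunc_idem hQ (eB_mem_Zc A) hA.eB_idem h1)
  have hA' := isUnion_lam_eq (trunc K (eB M A)) 1
  generalize {χ : IrrCharacter K | lam M (χ : K → ℂ) (trunc K (eB M A)) = 1} = A' at h2 hA'
  have hF : incl K (fA A') ∈ intAlg M G := incl_mem_intAlg K hA'.fA_mem
  have hFi : IsIdempotentElem (incl K (fA A')) := (fA_idem A').map _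
  have hFr : redA M (incl K (fA A')) = br (Subgroup.zpowers x) (eB M A) := by
    rw [redA_incl, ← h1, ← incl_trunc, h2]; rfl
  have hFx : incl K (fA A') ∈ invAlg ℂ (Subgroup.zpowers x) := mem_invAlg.2 fun u hu g => by
    have hc : ∀ k ∈ K, u * k * u⁻¹ = k := fun k hk => by
      obtain ⟨n, rfl⟩ := Subgroup.mem_zpowers_iff.1 hu
      rw [mul_inv_eq_iff_eq_mul]
      exact (Commute.zpow_left (mem_cz.1 (hK hk)).symm n).eq
    by_cases hg : g ∈ K
    · rw [hc g hg]
    · rw [coeff_incl_of_notMem K _ hg, coeff_incl_of_notMem K _ fun h => hg ?_]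
      have := hc _ h
      rwa [mul_left_cancel (mul_right_cancel (this.trans (by group : _ = u * g * u⁻¹)))] at h
  have key : ∀ (f z : ℂ[G]) (θ : IrrCharacter G), IsIdempotentElem f → IsIdempotentElem z →
      f ∈ intAlg M G → z ∈ intAlg M G → f ∈ invAlg ℂ (Subgroup.zpowers x) → z ∈ Zc ℂ G →
      br (Subgroup.zpowers x) (redA M f) * br (Subgroup.zpowers x) (redA M z) = 0 →
      om (θ : G → ℂ) z = 1 → ev (θ : G → ℂ) (single x 1 * f) = 0 := by
    intro f z θ hf hz hf1 hz1 hf2 hz2 h3 h4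
    have := ev_eq_zero_of_cut_eq_zero (p := p) θ.2.isClassFunction
      (hf.mul_of_commute (Zc_commute hz2 f).symm hz) (mul_mem hf1 hz1) x
      (mem_invAlg.1 (mul_mem hf2 (Zc_le_invAlg _ hz2)) x (Subgroup.mem_zpowers x)) (by
        rw [pPart_of_pElt hx, ← br_zpowers, redA_mul hf1 hz1,
          br_mul hQ (redA_mem_invAlg hf2) (Zc_le_invAlg _ (redA_mem_Zc hz2)), h3])
    rwa [← mul_assoc, ev_mul_Zc θ.2 hz2, h4, mul_one] at this
  have hb : br (Subgroup.zpowers x) (br (Subgroup.zpowers x) (eB M A)) =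
      br (Subgroup.zpowers x) (eB M A) := by rw [br, cut_cut, Set.inter_self]
  have hbi : br (Subgroup.zpowers x) (eB M A) * br (Subgroup.zpowers x) (eB M A) =
      br (Subgroup.zpowers x) (eB M A) := by
    rw [← br_mul hQ (Zc_le_invAlg _ (eB_mem_Zc A)) (Zc_le_invAlg _ (eB_mem_Zc A)), hA.eB_idem.eq]
  have k1 := key _ _ χ hFi.one_sub (fA_idem A) (sub_mem (one_mem _) hF) hA.fA_mem
    (sub_mem (one_mem _) hFx) (fA_mem_Zc A) (by
      rw [redA_sub (one_mem _) hF, redA_one, hFr, map_sub, br_one, hb, ← eB, sub_mul, hbi,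
        one_mul, sub_self]) (om_fA_of_mem hχ)
  have k2 := key _ _ ψ hFi (fA_idem Aᶜ) hF hA.compl.fA_mem hFx (fA_mem_Zc _) (by
      rw [hFr, hb, ← eB, hA.eB_compl, map_sub, br_one, mul_sub, hbi, mul_one, sub_self])
    (om_fA_of_mem hψ)
  rw [mul_sub, map_sub, mul_one, ev_single, one_mul, ev_single_mul', ev_incl] at k1
  rw [ev_single_mul', ev_incl] at k2
  have : (fun h : K => (χ : G → ℂ) (x * h)) = c • fun h : K => (ψ : G → ℂ) (x * h) :=
    funext fun h => hc h h.2
  rw [this, ev_smul_left, k2, mul_zero, sub_zero] at k1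
  exact h0 k1

end Cfsg.Agent.H5.Sym
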