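import Cfsg.Agent.H5.Sym3
import Cfsg.Agent.H5.Sym4
import Cfsg.Agent.H5.Sym5

/-! Blocks of symmetric groups: weights, cores and defect groups. -/

set_option autoImplicit false

namespace Cfsg.Agent.H5.Sym

open Cfsg Equiv Cfsg.Agent.H3 Cfsg.Agent.H4 Cfsg.Agent.L

variable {p : ℕ} [hp : Fact p.Prime] {M : Ideal AlgInt} [hMm : M.IsMaximal] [CharP (Res M) p]
  {α : Type*} [Fintype α] [DecidableEq α]

section General
variable {G : Type*} [Group G] [Finite G] (f : G →* Perm α) (hf : Function.Injective f)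
  (ha : alternatingGroup α ≤ f.range)
include hf ha

theorem fix_of_coeff {A : Set (IrrCharacter G)} (hA : IsUnion M A) {Q : Subgroup G}
    (hQ : IsPGroup p Q) {y : G} (hy : y ∈ Subgroup.centralizer (Q : Set G))
    (h : (eB M A).coeff y ≠ 0) {b : α} (hb : b ∈ mov (Q.map f)) : f y b = b := by
  classical
  have hc : ∀ c ∈ Subgroup.centralizer (Q : Set G), ∀ d ∈ Q.map f, d * f c = f c * d := by
    rintro c hc _ ⟨d, hd, rfl⟩
    rw [← map_mul, hc d hd, map_mul]
  let E : Subgroup (Subgroup.centralizer (Q : Set G)) :=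
    (orbE (Q.map f)).comap (f.comp (Subgroup.subtype _))
  have : E.Normal := ⟨fun n hn g => by
    simpa [E, Subgroup.mem_comap] using conj_mem_orbE (hc g g.2) hn⟩
  have h1 := br_idem_of_normal (Q := E) ((isPGroup_orbE (hQ.map f)).comap_of_injective _
    (hf.comp Subtype.val_injective)) (trunc_mem_Zc _ (eB_mem_Zc A))
    (trunc_idem hQ (eB_mem_Zc A) hA.eB_idem rfl)
  have h2 : (⟨y, hy⟩ : Subgroup.centralizer (Q : Set G)) ∈ Subgroup.centralizer (E : Set _) :=
    by_contra fun e => h (cut_eq_self_iff.1 h1 _ e)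
  refine fix_of_comm (hQ.map f) (by
    rw [orderOf_injective f hf]; exact hA.pReg_of_coeff_eB h) (hc y hy) (fun z hz hz' => ?_) hb
  obtain ⟨c, rfl⟩ := ha hz'
  have h3 : c ∈ Subgroup.centralizer (Q : Set G) := fun d hd => hf (by
    rw [map_mul, map_mul]; exact hz.1 _ ⟨d, hd, rfl⟩)
  simpa using congrArg (fun x => f x.1) (h2 ⟨c, h3⟩ hz)

theorem defect_struct {B : Set (IrrCharacter G)} (hB : IsPBlock M B) {y : G}
    (hy : IsDefectClass M B y) {D : Subgroup G} (hD : IsSylowIn p D (cz y)) :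
    (∀ b ∈ mov (D.map f), f y b = b) ∧
      IsSylowIn p (D.map f) (symOn (mov (D.map f)) ⊓ f.range) := by
  have h1 : ∀ b ∈ mov (D.map f), f y b = b := fun b hb => fix_of_coeff f hf ha
    (IsPBlock.isUnion hB) hD.isPGroup (le_cz_iff.1 hD.le) (IsDefectClass.coeff_ne_zero hy) hb
  refine ⟨h1, (hD.map_of_injective f hf).of_le (le_inf (le_symOn_mov _) (D.map_le_range f)) ?_⟩
  rintro _ ⟨hz, c, rfl⟩
  refine ⟨c, mem_cz.2 (hf ?_), rfl⟩
  rw [map_mul, map_mul]
  exact Perm.Disjoint.commute fun b => (em (b ∈ mov (D.map f))).symm.imp (mem_symOn.1 hz b) (h1 b)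

end General

variable (p) in
/-- the total length of the cycles of length divisible by `p` -/
def pw (σ : Perm α) : ℕ := (σ.partition.parts.filter (p ∣ ·)).sum

omit hp in
theorem parts_mul {x y : Perm α} (h : x.Disjoint y) : (x * y).partition.parts = x.cycleType +
    (y.cycleType + Multiset.replicate (Fintype.card α - (x * y).support.card) 1) := by
  rw [Perm.parts_partition, h.cycleType_mul, add_assoc]

theorem dvd_of_mem_cycleType {x : Perm α} (hx : ∃ k, orderOf x = p ^ k) :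
    ∀ m ∈ x.cycleType, p ∣ m := fun m hm => by
  obtain ⟨k, hk⟩ := hx
  obtain ⟨j, -, rfl⟩ := (Nat.dvd_prime_pow hp.out).1 (hk ▸ Perm.dvd_of_mem_cycleType hm)
  have := Perm.two_le_of_mem_cycleType hm
  exact dvd_pow_self _ (by rintro rfl; simp at this)

theorem le_pw {x y : Perm α} (h : x.Disjoint y) (hx : ∃ k, orderOf x = p ^ k) :
    x.support.card ≤ pw p (x * y) := by
  rw [pw, parts_mul h, Multiset.filter_add,
    Multiset.filter_eq_self.2 (dvd_of_mem_cycleType hx), Multiset.sum_add, Perm.sum_cycleType]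
  omega

variable (p) in
/-- `m` is `p` times the weight of `ψ` -/
def IsWt (ψ : Perm α → ℂ) (m : ℕ) : Prop := (∀ σ, ψ σ ≠ 0 → pw p σ ≤ m) ∧
  ∃ x, (∃ k, orderOf x = p ^ k) ∧ x.support.card = m ∧ ψ x ≠ 0

theorem IsWt.unique {ψ : Perm α → ℂ} {m m' : ℕ} (h : IsWt p ψ m) (h' : IsWt p ψ m') : m = m' := by
  have : ∀ {m m' : ℕ}, IsWt p ψ m → IsWt p ψ m' → m ≤ m' := by
    rintro _ m' ⟨-, x, hx, rfl, h0⟩ h'
    simpa using (le_pw (Perm.disjoint_one_right x) hx).trans (h'.1 _ (by simpa using h0))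
  exact (this h h').antisymm (this h' h)

theorem IsWt.eq_mov {B : Set (IrrCharacter (Perm α))} (hB : IsPBlock M B) {y : Perm α}
    (hy : IsDefectClass M B y) {D : Subgroup (Perm α)} (hD : IsSylowIn p D (cz y))
    {ψ : IrrCharacter (Perm α)} (hψ : ψ ∈ B) {m : ℕ} (h : IsWt p ψ.1 m) :
    (∀ b ∈ mov D, y b = b) ∧ m = (mov D).card := by
  obtain ⟨h1, -⟩ := defect_struct (MonoidHom.id _) Function.injective_id (fun g _ => ⟨g, rfl⟩) hB hy hD
  rw [Subgroup.map_id] at h1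
  refine ⟨h1, le_antisymm ?_ ?_⟩
  · obtain ⟨-, x, hx, rfl, h0⟩ := h
    obtain ⟨t, ht⟩ := IsDefectGroup.exists_conj_mem_of_ne_zero hB
      (isDefectGroup_iff.2 ⟨y, hy, hD⟩) hψ h0
    rw [pPart_of_pElt hx] at ht
    rw [← Perm.card_support_conj (σ := t)]
    exact Finset.card_le_card fun b hb => mem_mov.2 ⟨_, ht, Perm.mem_support.1 hb⟩
  · obtain ⟨x, hx, hs⟩ := exists_orbE_support hD.isPGroup
    have hd : x.Disjoint y := fun b => (em (b ∈ mov D)).symm.imp (by simp [← hs]) (h1 b)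
    have hxp := isPElt_of_mem (isPGroup_orbE hD.isPGroup) hx
    have hxD : x ∈ D := by
      have hn : D ≤ Subgroup.normalizer (Subgroup.zpowers x : Set (Perm α)) := fun d hd =>
        centralizer_le_normalizer' (Subgroup.zpowers_le.2 (mem_cz.2 (hx.1 d hd).symm))
      rw [← hD.maximal _ (IsPGroup.to_sup_of_normal_right' hD.isPGroup (isPGroup_zpowers hxp) hn)
        le_sup_left (sup_le hD.le (Subgroup.zpowers_le.2 (mem_cz.2 hd.commute)))]
      exact Subgroup.mem_sup_right (Subgroup.mem_zpowers x)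
    rw [← hs]
    exact (le_pw hd hxp).trans (h.1 _ (ne_zero_of_lam_classSum
      (IsDefectClass.lam_mul_ne_zero hB hy hD hxD (fun d hd => mem_cz.2 (hx.1 d hd)) hψ)))

variable {ι : Type*} [Fintype ι] [DecidableEq ι] {δ : ι → ℤ}

variable (p) in
/-- `ψ` has label `β`, core `κ` and weight `w` -/
structure Dat (δ : ι → ℤ) (ψ : Perm α → ℂ) (κ β : ι → ℤ) (w : ℕ) : Prop where
  lab : Lab δ ψ β
  core : IsCore p κ
  good : Good β
  dvd : ∀ i, (p : ℤ) ∣ β i - κ i
  sum : ∑ i, β i = ∑ i, κ i + p * w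
  sum' : ∑ i, β i = ∑ i, δ i + Fintype.card α

omit hp in
theorem parts_one : (1 : Perm α).partition.parts = Multiset.replicate (Fintype.card α) 1 := by
  simp [Perm.parts_partition]

theorem exists_dat (hδ : IsCore 1 δ) (hN : 2 * Fintype.card α ≤ Fintype.card ι)
    (ψ : IrrCharacter (Perm α)) : ∃ κ β w, Dat p δ ψ.1 κ β w := by
  obtain ⟨β, ε, hε, h⟩ := (hδ.lab hN).1 ψ
  have h0 : X δ (Multiset.replicate (Fintype.card α) 1) β ≠ 0 := fun e =>
    ψ.2.apply_one_ne_zero (by rw [h, chi, parts_one, e]; simp)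
  have hg := good_of_X hδ.nn h0
  have hc := isCore_cor hp.out.pos hg
  obtain ⟨w, hw⟩ : (p : ℤ) ∣ ∑ i, β i - ∑ i, cor p β i := by
    rw [← Finset.sum_sub_distrib]; exact Finset.dvd_sum fun i _ => dvd_sub_cor p β i
  have := hc.sum_le hp.out.pos hg (dvd_sub_cor p β)
  lift w to ℕ using nonneg_of_mul_nonneg_right (hw ▸ sub_nonneg.2 this)
    (by exact_mod_cast hp.out.pos : (0 : ℤ) < p)
  exact ⟨_, β, w, ⟨ε, hε, h⟩, hc, hg, dvd_sub_cor p β, by linarith, by simpa using sum_of_X h0⟩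

section Dat
variable {ψ : Perm α → ℂ} {κ β : ι → ℤ} {w : ℕ} (hδ : IsCore 1 δ) (h : Dat p δ ψ κ β w)
include hδ h

omit hp in
theorem Dat.le : p * w ≤ Fintype.card α := by
  have := hδ.sum_le one_pos h.core.toGood fun _ => by simp
  have h1 := h.sum
  have h2 := h.sum'
  exact_mod_cast (by linarith : (p * w : ℤ) ≤ Fintype.card α)

theorem Dat.eval : ∃ ε : ℂ, ε ≠ 0 ∧ ∀ x y : Perm α, x.Disjoint y → (∀ k ∈ x.cycleType, p ∣ k) →
    x.support.card = p * w → ψ (x * y) = ε * X κ x.cycleType β * X δ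
      (y.cycleType + Multiset.replicate (Fintype.card α - (x * y).support.card) 1) κ := by
  obtain ⟨ε, hε, h1⟩ := h.lab
  refine ⟨ε, by rcases hε with rfl | rfl <;> simp, fun x y hd hx hs => ?_⟩
  rw [h1, chi, parts_mul hd, h.core.split hp.out.pos hδ.nn hx _ h.dvd
    (by rw [h.sum, Perm.sum_cycleType, hs]; simp)]
  push_cast; ring

theorem Dat.ne_zero {x : Perm α} (hx : ∀ k ∈ x.cycleType, p ∣ k) (hs : x.support.card = p * w)
    (h0 : X κ x.cycleType β ≠ 0) : ψ x ≠ 0 := by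
  obtain ⟨ε, hε, h1⟩ := h.eval hδ
  have h2 := h1 x 1 (Perm.disjoint_one_right x) hx hs
  have h3 := hδ.X_ne_zero one_pos h.core.toGood (fun _ => by simp)
    (m := Fintype.card α - p * w) (by
      have h1 := h.sum
      have h2 := h.sum'
      push_cast [Nat.cast_sub (h.le hδ)]; linarith)
  rw [mul_one, hs, Perm.cycleType_one, zero_add] at h2
  rw [h2]; simp [hε, h0, h3]

theorem Dat.exists_elt : ∃ x : Perm α, x.cycleType = Multiset.replicate w p ∧
    (∃ k, orderOf x = p ^ k) ∧ x.support.card = p * w ∧ X κ x.cycleType β ≠ 0 := by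
  obtain ⟨x, -, hx⟩ := exists_symOn (Finset.univ : Finset α) (μ := Multiset.replicate w p)
    (by simpa [mul_comm] using h.le hδ) fun k hk => Multiset.eq_of_mem_replicate hk ▸ hp.out.two_le
  refine ⟨x, hx, isPElt_of_pow (k := 1) ?_, by simp [← Perm.sum_cycleType, hx, mul_comm],
    hx ▸ h.core.X_ne_zero hp.out.pos h.good h.dvd h.sum⟩
  rw [← orderOf_dvd_iff_pow_eq_one, ← Perm.lcm_cycleType, hx, Multiset.lcm_dvd]
  exact fun k hk => Multiset.eq_of_mem_replicate hk ▸ by simp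

theorem Dat.isWt : IsWt p ψ (p * w) := by
  refine ⟨fun σ h0 => not_lt.1 fun hlt => h0 ?_, ?_⟩
  · obtain ⟨ε, -, h1⟩ := h.lab
    rw [h1, chi, ← Multiset.filter_add_not (p ∣ ·) σ.partition.parts,
      h.core.split_zero hp.out.pos hδ.nn (fun k hk => (Multiset.mem_filter.1 hk).2) _ h.dvd
        (by rw [h.sum]; exact add_lt_add_right (Int.ofNat_lt.2 hlt) _)]
    simp
  · obtain ⟨x, -, hx, hs, h0⟩ := h.exists_elt hδ
    exact ⟨x, hx, hs, h.ne_zero hδ (dvd_of_mem_cycleType hx) hs h0⟩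

theorem Dat.nu_eq (hψ : IsCharacter (Perm α) ψ) :
    nu p ψ + (p * w).factorial.factorization p = (Fintype.card α).factorial.factorization p +
      (X κ (Multiset.replicate w p) β).natAbs.factorization p := by
  rw [← hδ.val_deg hp.out h.core h.good h.dvd h.sum' h.sum]
  obtain ⟨ε, hε, h1⟩ := h.lab
  have h2 := cast_charDegree hψ
  rw [h1, chi, parts_one] at h2
  have : charDegree ψ = (X δ (Multiset.replicate (Fintype.card α) 1) β).natAbs := by
    generalize X δ (Multiset.replicate (Fintype.card α) 1) β = z at h2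
    rcases hε with rfl | rfl
    · have : (charDegree ψ : ℤ) = z := by exact_mod_cast h2.trans (one_mul _)
      omega
    · have : (charDegree ψ : ℤ) = -z := by exact_mod_cast h2.trans (neg_one_mul _)
      omega
  rw [nu, this]

end Dat

/-- same core, same block -/
theorem Dat.mem (hδ : IsCore 1 δ) {A : Set (IrrCharacter (Perm α))} (hA : IsUnion M A)
    {χ ψ : IrrCharacter (Perm α)} (hχ : χ ∈ A) {κ β γ : ι → ℤ} {w : ℕ} (h1 : Dat p δ χ.1 κ β w)
    (h2 : Dat p δ ψ.1 κ γ w) : ψ ∈ A := by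
  obtain ⟨x, e, hx, hs, h0⟩ := h1.exists_elt hδ
  have h0' : X κ x.cycleType γ ≠ 0 := e ▸ h2.core.X_ne_zero hp.out.pos h2.good h2.dvd h2.sum
  have hd : ∀ k ∈ symOn x.supportᶜ, x.Disjoint k := fun k hk b =>
    (em (x b = b)).imp_right fun hb => mem_symOn.1 hk b (by simpa using hb)
  obtain ⟨ε, -, e1⟩ := h1.eval hδ
  obtain ⟨ε', hε, e2⟩ := h2.eval hδ
  have hc := dvd_of_mem_cycleType hx
  refine mem_of_proportional hA hx (K := symOn x.supportᶜ)
    (fun k hk => mem_cz.2 (hd k hk).commute.symm) (fun y hy h => mem_symOn.2 fun b hb => ?_) hχ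
    (h1.ne_zero hδ hc hs h0) (c := ε * X κ x.cycleType β / (ε' * X κ x.cycleType γ)) fun k hk => ?_
  · refine fix_of_coeff (MonoidHom.id _) Function.injective_id (fun g _ => ⟨g, rfl⟩) hA (isPGroup_zpowers hx)
      (by rwa [centralizer_zpowers]) h (mem_mov.2 ⟨x, ?_, by simpa using hb⟩)
    simp
  · have : (X κ x.cycleType γ : ℂ) ≠ 0 := by exact_mod_cast h0'
    rw [e1 x k (hd k hk) hc hs, e2 x k (hd k hk) hc hs]; field_simp

theorem exists_dat_of (hδ : IsCore 1 δ) (hN : 2 * Fintype.card α ≤ Fintype.card ι)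
    {χ : Perm α → ℂ} {κ β γ : ι → ℤ} {w : ℕ} (h : Dat p δ χ κ β w) (hγ : Good γ)
    (hd : ∀ i, (p : ℤ) ∣ γ i - κ i) (hs : ∑ i, γ i = ∑ i, κ i + p * w) :
    ∃ ψ : IrrCharacter (Perm α), Dat p δ ψ.1 κ γ w := by
  have hs' : ∑ i, γ i = ∑ i, δ i + Fintype.card α := by rw [hs, ← h.sum, h.sum']
  obtain ⟨ψ, hψ⟩ := (hδ.lab hN).2 γ fun e => hδ.X_ne_zero one_pos hγ (fun _ => by simp)
    (m := Fintype.card α) (by simpa using hs') (by
      simpa [chi, parts_one] using congrFun e (1 : Perm α))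
  exact ⟨ψ, hψ, h.core, hγ, hd, hs, hs'⟩

theorem isUnion_isWt (hδ : IsCore 1 δ) (hN : 2 * Fintype.card α ≤ Fintype.card ι) (m : ℕ) :
    IsUnion M {ψ : IrrCharacter (Perm α) | IsWt p ψ.1 m} := fun χ hχ ψ h => by
  obtain ⟨κ, β, w, hw⟩ := exists_dat (p := p) hδ hN ψ
  obtain ⟨y, hy⟩ := IsPBlock.exists_defectClass (isPBlock_blockOf (M := M) χ)
  obtain ⟨D, hD⟩ := exists_isSylowIn p (cz y)
  rw [(IsWt.eq_mov (isPBlock_blockOf χ) hy hD (mem_blockOf_self χ) hχ).2,
    ← ((hw.isWt hδ).eq_mov (isPBlock_blockOf χ) hy hD h).2]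
  exact hw.isWt hδ

/-- all characters above a block of the alternating group have the same weight -/
theorem Dat.weight_eq (hδ : IsCore 1 δ) (hN : 2 * Fintype.card α ≤ Fintype.card ι)
    {χ ψ : IrrCharacter (Perm α)} {θ φ : IrrCharacter (alternatingGroup α)}
    (h1 : Over _ χ.1 θ.1) (h2 : Over _ ψ.1 φ.1) (h : SameBlock M θ.1 φ.1) {κ β κ' β' : ι → ℤ}
    {w w' : ℕ} (d1 : Dat p δ χ.1 κ β w) (d2 : Dat p δ ψ.1 κ' β' w') : w' = w := by
  have := mem_of_sign ((Units.map (Int.castRingHom ℂ).toMonoidHom).comp Perm.sign)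
    (fun g hg => by simp [(Int.units_eq_one_or (Perm.sign g)).resolve_left hg])
    (fun g hg => by simp [Perm.mem_alternatingGroup.1 hg]) (isUnion_isWt (p := p) hδ hN (p * w))
    (fun χ hχ ψ e => ⟨fun σ h => hχ.1 σ (left_ne_zero_of_mul (e σ ▸ h)),
      hχ.2.imp fun x h => ⟨h.1, h.2.1, e x ▸ mul_ne_zero h.2.2 (Units.ne_zero _)⟩⟩)
    (d1.isWt hδ) h1 h2 h
  exact Nat.eq_of_mul_eq_mul_left hp.out.pos ((d2.isWt hδ).unique this)

end Cfsg.Agent.H5.Sym
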