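import Cfsg.Agent.H5.Sym6

/-! Heights in blocks of alternating groups. -/

set_option autoImplicit false

namespace Cfsg.Agent.H5.Sym

open Cfsg Equiv Cfsg.Agent.H3 Cfsg.Agent.H4 Cfsg.Agent.L

variable {p : ℕ} [hp : Fact p.Prime]

/-- the exponent of `p` in `m !` -/
abbrev vf (p m : ℕ) : ℕ := m.factorial.factorization p

theorem vf_eq (m : ℕ) : vf p m = m / p + vf p (m / p) := fact_factorial hp.out m

theorem vf_of_lt {m : ℕ} (h : m < p) : vf p m = 0 := by
  rw [vf_eq, Nat.div_eq_of_lt h]; simp [vf]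

theorem vf_mul_add (a : ℕ) {r : ℕ} (h : r < p) : vf p (p * a + r) = a + vf p a := by
  rw [vf_eq, Nat.mul_add_div hp.out.pos, Nat.div_eq_of_lt h, add_zero]

theorem vf_lt_iff (m : ℕ) : vf p m < p ↔ m < p ^ 2 := by
  rw [vf_eq, pow_two, ← Nat.div_lt_iff_lt_mul hp.out.pos]
  exact ⟨fun h => by omega, fun h => by rwa [vf_of_lt h]⟩

theorem exists_three {w : ℕ} (h : p ≤ w) :
    ∃ a b c, a + b + c = w ∧ vf p a + vf p b + vf p c + 1 = vf p w := by
  induction w using Nat.strong_induction_on with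
  | _ w ih =>
    have h0 := hp.out.pos
    have h1 := hp.out.one_lt
    have e := Nat.div_add_mod w p
    have hr := Nat.mod_lt w h0
    have hu := Nat.div_pos h h0
    have hlt := Nat.div_lt_self (h0.trans_le h) h1
    generalize w / p = u at *
    generalize w % p = r at *
    subst e
    by_cases hpu : p ≤ u
    · obtain ⟨a, b, c, rfl, e⟩ := ih u hlt hpu
      refine ⟨p * a + r, p * b + 0, p * c + 0, by ring, ?_⟩
      rw [vf_mul_add _ hr, vf_mul_add _ hr, vf_mul_add _ h0, vf_mul_add _ h0]; omega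
    · obtain ⟨u, rfl⟩ : ∃ v, u = v + 1 := ⟨u - 1, by omega⟩
      refine ⟨p * u + r, p - 1, 1, by rw [mul_add]; omega, ?_⟩
      rw [vf_mul_add _ hr, vf_mul_add _ hr, vf_of_lt h1, vf_of_lt (by omega : p - 1 < p),
        vf_of_lt (by omega : u < p), vf_of_lt (by omega : u + 1 < p)]

theorem exists_two {w : ℕ} (h : 2 ≤ w) (h' : w % 4 ≠ 3) :
    ∃ a b, a + b = w ∧ vf 2 a + vf 2 b + 1 = vf 2 w := by
  induction w using Nat.strong_induction_on with
  | _ w ih =>
    by_cases h2 : w % 4 = 2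
    · obtain ⟨u, rfl⟩ : ∃ u, w = 2 * (2 * u + 1) + 0 := ⟨w / 4, by omega⟩
      refine ⟨2 * (2 * u + 0) + 1, 1, by ring, ?_⟩
      simp only [vf_mul_add (p := 2) _ one_lt_two, vf_mul_add (p := 2) _ two_pos,
        vf_of_lt (p := 2) one_lt_two]
      omega
    · obtain ⟨a, b, e1, e2⟩ := ih (w / 2) (by omega) (by omega) (by omega)
      refine ⟨2 * a + w % 2, 2 * b + 0, by omega, ?_⟩
      rw [vf_mul_add _ (by omega), vf_mul_add _ two_pos, vf_eq w]; omega

variable {ι : Type*} [Fintype ι] [DecidableEq ι] {κ : ι → ℤ}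

/-- `β` has core `κ` and weight `w`, and the leading coefficient has `p`-exponent `z` -/
structure Mem (p : ℕ) (κ β : ι → ℤ) (w z : ℕ) : Prop where
  good : Good β
  dvd : ∀ i, (p : ℤ) ∣ β i - κ i
  sum : ∑ i, β i = ∑ i, κ i + p * w
  val : (X κ (Multiset.replicate w p) β).natAbs.factorization p = z

theorem exists_rows (h : IsCore p κ) (hR : ∀ m ≤ p, ∃ i, κ i = (m : ℕ)) {k : ℕ} (hk : k ≤ p)
    (c : Fin k → ℕ) {z : ℕ} (hz : ∑ t, vf p (c t) + z = vf p (∑ t, c t)) :
    ∃ β, Mem p κ β (∑ t, c t) z ∧ ∀ t m s, s ≤ c t → ∑ t, c t = m + s →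
      X κ ((p * s) ::ₘ Multiset.replicate m p) β ≠ 0 := by
  choose j hj using fun t : Fin k => hR t (t.2.le.trans hk)
  choose i hi hi' using fun t : Fin k => exists_top p κ (j t)
  have inj : Function.Injective i := fun s t e => by
    have h1 := dvd_sub (hi' s) (e ▸ hi' t)
    rw [hj, hj] at h1
    have := Int.eq_zero_of_abs_lt_dvd h1 (by have := s.2; have := t.2; rw [abs_lt]; omega)
    exact Fin.ext (by omega)
  let a : ι → ℤ := Function.extend i (fun t => (c t : ℤ)) 0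
  have a1 : ∀ t, a (i t) = c t := fun t => inj.extend_apply _ _ t
  have a2 : ∀ l, (¬∃ t, i t = l) → a l = 0 := fun l hl => Function.extend_apply' _ _ _ hl
  have a3 : ∀ l, 0 < a l → Top p κ l := fun l hl => by
    obtain ⟨t, rfl⟩ : ∃ t, i t = l := by_contra fun e => by simp [a2 l e] at hl
    exact hi t
  have a4 : ∀ l, 0 ≤ a l := fun l => by
    by_cases e : ∃ t, i t = l
    · obtain ⟨t, rfl⟩ := e; simp [a1]
    · simp [a2 l e]
  have a5 : ∑ l, a l = (∑ t, c t : ℕ) := by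
    push_cast
    exact (Fintype.sum_of_injective i inj _ _ (fun l hl => a2 l hl) fun t => (a1 t).symm).symm
  have a6 : ∏ l, ((a l).toNat.factorial : ℤ) = (∏ t, (c t).factorial : ℕ) := by
    push_cast
    exact (Fintype.prod_of_injective i inj _ _ (fun l hl => by simp [a2 l hl])
      fun t => by simp [a1]).symm
  have h1 := h.rows hp.out.pos a3 a4 a5
  have h2 : X κ (Multiset.replicate (∑ t, c t) p) (fun l => κ l + p * a l) ≠ 0 := fun e =>
    (∑ t, c t).factorial_ne_zero (by simpa [e] using h1.symm)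
  refine ⟨_, ⟨good_of_X h.nn h2, fun l => by simp, by
    rw [Finset.sum_add_distrib, ← Finset.mul_sum, a5], ?_⟩, fun t m s hs e =>
      (h.rows_pos hp.out.pos a3 a4 (by rw [a5, e]; simp) (i := i t) (by simpa [a1])).ne'⟩
  have h3 := congrArg (fun n : ℤ => n.natAbs.factorization p) h1
  simp only [a6, Int.natAbs_mul, Int.natAbs_natCast] at h3
  rw [fact_mul (by simpa using h2) (Finset.prod_ne_zero_iff.2 fun t _ => (c t).factorial_ne_zero),
    Nat.factorization_prod_apply fun t _ => (c t).factorial_ne_zero] at h3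
  simp only [vf] at hz
  omega

theorem exists_hook (h : IsCore p κ) (hR : ∀ m ≤ p, ∃ i, κ i = (m : ℕ)) {a : ℕ} (ha : a ≠ 0) :
    ∃ β, Mem p κ β (a + 1) (a.factorization p) := by
  obtain ⟨l, hl⟩ := hR p le_rfl
  obtain ⟨i, hi, hi'⟩ := exists_top p κ l
  obtain ⟨j, hj⟩ := h.down i (hl ▸ hi l hi')
  have h1 := h.hook hp.out.pos hi hj a
  exact ⟨_, good_of_X h.nn (h1 ▸ Nat.cast_ne_zero.2 ha), fun l => by simp, by
    simp [Finset.sum_add_distrib, ← Finset.mul_sum], by rw [h1, Int.natAbs_natCast]⟩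

variable {M : Ideal AlgInt} [hMm : M.IsMaximal] [CharP (Res M) p]
  {α : Type*} [Fintype α] [DecidableEq α] [Nontrivial α]
  {B : Set (IrrCharacter (alternatingGroup α))}

theorem nu_over {χ : IrrCharacter (Perm α)} {θ : IrrCharacter (alternatingGroup α)}
    (h : Over _ χ.1 θ.1) : nu p χ.1 = nu p θ.1 ∨ (p = 2 ∧ nu p χ.1 = nu p θ.1 + 1 ∧
      ∀ g ∉ alternatingGroup α, χ.1 g = 0) := by
  rcases index_two_res alternatingGroup.index_eq_two h with e | ⟨e, e'⟩
  · left; simp [nu, charDegree, e]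
  · have : charDegree χ.1 = 2 * charDegree θ.1 := charDegree_eq (by
      rw [e, ← cast_charDegree θ.2.isCharacter]; simp)
    rw [nu, this, fact_mul two_ne_zero (charDegree_ne_zero θ), Nat.prime_two.factorization]
    by_cases h2 : p = 2
    · exact Or.inr ⟨h2, by simp [h2, add_comm], e'⟩
    · left; simp [h2]

/-- the degrees in a block of the alternating group -/
theorem exists_weight (hB : IsPBlock M B) : ∃ (w : ℕ) (κ : Fin (2 * Fintype.card α + p + 1) → ℤ),
    IsCore p κ ∧ (∀ m ≤ p, ∃ i, κ i = (m : ℕ)) ∧ p * w ≤ Fintype.card α ∧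
    (∀ θ ∈ B, ∃ z ≤ vf p w, nu p θ.1 + vf p (p * w) = vf p (Fintype.card α) + z ∨
      (p = 2 ∧ nu p θ.1 + 1 + vf p (p * w) = vf p (Fintype.card α) + z ∧ (z = 0 → w = 0))) ∧
    ∀ β z, Mem p κ β w z → ∃ θ ∈ B, nu p θ.1 + vf p (p * w) = vf p (Fintype.card α) + z ∨
      (p = 2 ∧ (z = 0 → w = 0) ∧ ∀ x ∉ alternatingGroup α, (∀ k ∈ x.cycleType, p ∣ k) →
        x.support.card = p * w → X κ x.cycleType β = 0) := by
  classical
  let δ : Fin (2 * Fintype.card α + p + 1) → ℤ := fun i => (i : ℕ)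
  have hδ : IsCore 1 δ := ⟨⟨fun i j e => Fin.ext (by simpa [δ] using e), fun i => by simp [δ]⟩,
    fun i hi => ⟨⟨i - 1, by omega⟩, by simp only [δ] at hi ⊢; omega⟩⟩
  have hN : 2 * Fintype.card α ≤ Fintype.card (Fin (2 * Fintype.card α + p + 1)) := by
    simp only [Fintype.card_fin]; omega
  obtain ⟨θ₀, hθ₀⟩ := IsPBlock.nonempty hB
  obtain ⟨χ₀, h₀⟩ := exists_over _ θ₀
  obtain ⟨κ, β₀, w, d₀⟩ := exists_dat (p := p) hδ hN χ₀
  have hA := isUnion_above _ (IsPBlock.isUnion hB)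
  have H : ∀ χ ∈ above _ B, ∃ κ' β', Dat p δ χ.1 κ' β' w := by
    rintro χ ⟨θ, hθ, h⟩
    obtain ⟨κ', β', w', d⟩ := exists_dat (p := p) hδ hN χ
    obtain rfl := Dat.weight_eq hδ hN h₀ h (IsPBlock.sameBlock hB hθ₀ hθ) d₀ d
    exact ⟨_, _, d⟩
  have key : ∀ θ ∈ B, ∀ χ : IrrCharacter (Perm α), Over _ χ.1 θ.1 → ∀ κ' β', Dat p δ χ.1 κ' β' w →
      ∀ z, (X κ' (Multiset.replicate w p) β').natAbs.factorization p = z →
      nu p θ.1 + vf p (p * w) = vf p (Fintype.card α) + z ∨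
      (p = 2 ∧ nu p θ.1 + 1 + vf p (p * w) = vf p (Fintype.card α) + z ∧ (z = 0 → w = 0) ∧
        ∀ g ∉ alternatingGroup α, χ.1 g = 0) := by
    rintro θ hθ χ h κ' β' d _ rfl
    have e := d.nu_eq hδ χ.2.isCharacter
    rcases nu_over (p := p) h with e' | ⟨h2, e1, e2⟩
    · exact Or.inl (e' ▸ e)
    refine Or.inr ⟨h2, e1 ▸ e, fun hz => by_contra fun hw => ?_, e2⟩
    have hb := isPBlock_blockOf (M := M) χ
    have hχ := mem_blockOf_self (M := M) χ
    have h0 : blockHeight p (blockOf M χ.1) χ.1 = 0 := by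
      obtain ⟨ψ, hψ, e3⟩ := exists_nu_eq_minNu p (IsPBlock.nonempty hb)
      obtain ⟨κ'', β'', d'⟩ := H ψ (hA.blockOf_subset ⟨θ, hθ, h⟩ hψ)
      have := d'.nu_eq hδ ψ.2.isCharacter
      rw [blockHeight_eq]; omega
    obtain ⟨y, hy⟩ := IsPBlock.exists_defectClass hb
    obtain ⟨D, hD⟩ := exists_isSylowIn p (cz y)
    obtain ⟨h3, h4⟩ := (d.isWt hδ).eq_mov hb hy hD hχ
    obtain ⟨a, ha, b, hb', hab⟩ := Finset.one_lt_card.1 (by rw [← h4, h2]; omega : 1 < (mov D).card)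
    refine ne_zero_of_red_ne_zero (IsDefectClass.red_mul_ne_zero hb hy hχ h0 (x := swap a b)
      (by simp [Commute, SemiconjBy, Equiv.mul_swap_eq_swap_mul, h3 a ha, h3 b hb'])
      (isPElt_of_pow (k := 1) (by simp [h2, pow_two]))) (e2 _ fun hm => ?_)
    have hy' := mem_of_pReg_of_index hp.out (alternatingGroup α) (k := 1)
      (by simp [h2]) (IsDefectClass.pReg hb hy)
    simpa [Perm.mem_alternatingGroup, hab] using (Subgroup.mul_mem_cancel_right _ hy').1 hm
  refine ⟨w, κ, d₀.core, fun m hm => hδ.mem_range d₀.core.toGood ?_, d₀.le hδ, fun θ hθ => ?_,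
    fun β z hβ => ?_⟩
  · have h1 := d₀.sum
    have h2 := d₀.sum'
    have : (0 : ℤ) ≤ p * w := by positivity
    simp only [Fintype.card_fin]; push_cast; omega
  · obtain ⟨χ, h⟩ := exists_over _ θ
    obtain ⟨κ', β', d⟩ := H χ ⟨θ, hθ, h⟩
    exact ⟨_, d.core.val_le hp.out d.good d.dvd d.sum,
      (key θ hθ χ h _ _ d _ rfl).imp_right fun h => ⟨h.1, h.2.1, h.2.2.1⟩⟩
  · obtain ⟨χ, d⟩ := exists_dat_of hδ hN d₀ hβ.good hβ.dvd hβ.sum
    obtain ⟨θ, hθ, h⟩ := Dat.mem hδ hA ⟨θ₀, hθ₀, h₀⟩ d₀ d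
    exact ⟨θ, hθ, (key θ hθ χ h _ _ d _ hβ.val).imp_right fun h => ⟨h.1, h.2.2.1,
      fun x hx h1 h2 => by_contra fun h3 => d.ne_zero hδ h1 h2 h3 (h.2.2.2 x hx)⟩⟩

omit [Nontrivial α] in
theorem irr_transfer {D : Subgroup (alternatingGroup α)}
    (h : ∃ φ : IrrCharacter (D.map (alternatingGroup α).subtype), φ.1 1 = p) :
    ∃ φ : IrrCharacter D, charDegree φ.1 = p := by
  obtain ⟨φ, h⟩ := h
  exact ⟨⟨_, φ.2.comp_mulEquiv (D.equivMapOfInjective _ Subtype.val_injective)⟩,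
    charDegree_eq (by simpa using h)⟩

theorem card_alt : 2 * Nat.card (alternatingGroup α) = (Fintype.card α).factorial := by
  rw [mul_comm, ← alternatingGroup.index_eq_two (α := α), Subgroup.card_mul_index, Nat.card_perm,
    Nat.card_eq_fintype_card]

theorem alt_odd (h2 : p ≠ 2) (hB : IsPBlock M B) {D : Subgroup (alternatingGroup α)}
    (hD : IsDefectGroup p M B D) :
    ((∃ χ ∈ B, blockHeight p B χ.1 = 1) ∧ ∃ φ : IrrCharacter D, charDegree φ.1 = p) ∨
      ((∀ χ ∈ B, blockHeight p B χ.1 = 0) ∧ IsMulCommutative D) := by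
  obtain ⟨w, κ, hκ, hR, -, H1, H2⟩ := exists_weight (p := p) hB
  simp only [h2, false_and, or_false] at H1 H2
  obtain ⟨β, hβ, -⟩ := exists_rows hκ hR hp.out.one_le ![w] (z := 0) (by simp)
  obtain ⟨θ, hθ, e⟩ := H2 β 0 (by simpa using hβ)
  obtain ⟨φ, hφ, e'⟩ := exists_nu_eq_minNu p (IsPBlock.nonempty hB)
  have m1 : minNu p B + vf p (p * w) = vf p (Fintype.card α) := by
    obtain ⟨z, -, e''⟩ := H1 φ hφ
    have := minNu_le (p := p) hθ
    omega
  have m2 := IsPBlock.minNu_add_blockDefect (p := p) hB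
  have m3 : (Nat.card (alternatingGroup α)).factorization p = vf p (Fintype.card α) := by
    rw [vf, ← card_alt, fact_mul two_ne_zero Nat.card_pos.ne', Nat.prime_two.factorization]
    simp [h2]
  have m4 := IsDefectGroup.card_eq hB hD
  obtain ⟨y, hy, hS⟩ := isDefectGroup_iff.1 hD
  have hS' := (defect_struct (Subgroup.subtype _) Subtype.val_injective (by simp) hB hy hS).2
  rw [Subgroup.range_subtype] at hS'
  have hS'' := sylow_odd h2 hS'
  have m5 := hS''.card_eq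
  rw [Subgroup.card_map_of_injective Subtype.val_injective, m4, card_symOn,
    Nat.pow_right_inj hp.out.one_lt] at m5
  have m6 := vf_lt_iff (p := p) (mov (D.map (alternatingGroup α).subtype)).card
  rw [vf, ← m5, (by omega : blockDefect p B = vf p (p * w)), vf_lt_iff, pow_two,
    Nat.mul_lt_mul_left hp.out.pos, ← pow_two] at m6
  by_cases hw : w < p
  · refine Or.inr ⟨fun χ hχ => ?_, ⟨⟨fun a b => ?_⟩⟩⟩
    · obtain ⟨z, hz, e''⟩ := H1 χ hχ
      rw [vf_of_lt hw] at hz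
      rw [blockHeight_eq]; omega
    · exact (D.equivMapOfInjective (Subgroup.subtype _) Subtype.val_injective).injective (by
        rw [map_mul, map_mul]; exact comm_of_card_lt hS'.isPGroup (m6.1 hw) _ _)
  · obtain ⟨a, b, c, rfl, e''⟩ := exists_three (not_lt.1 hw)
    obtain ⟨β, hβ, -⟩ := exists_rows hκ hR (k := 3) (by have := hp.out.two_le; omega) ![a, b, c]
      (z := 1) (by simpa [Fin.sum_univ_three] using e'')
    obtain ⟨χ, hχ, e3⟩ := H2 β 1 (by simpa [Fin.sum_univ_three] using hβ)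
    exact Or.inl ⟨⟨χ, hχ, by rw [blockHeight_eq]; omega⟩,
      irr_transfer (irr_degree_odd hS'' (not_lt.1 (mt m6.2 hw)))⟩

omit hp [CharP (Res M) p] in
theorem alt_two [CharP (Res M) 2] (hB : IsPBlock M B) {D : Subgroup (alternatingGroup α)}
    (hD : IsDefectGroup 2 M B D) :
    ((∃ χ ∈ B, blockHeight 2 B χ.1 = 1) ∧ ∃ φ : IrrCharacter D, charDegree φ.1 = 2) ∨
      ((∀ χ ∈ B, blockHeight 2 B χ.1 = 0) ∧ IsMulCommutative D) := by
  have m2 := IsPBlock.minNu_add_blockDefect (p := 2) hB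
  have m4 := IsDefectGroup.card_eq hB hD
  by_cases hd : blockDefect 2 B ≤ 2
  · refine Or.inr ⟨fun χ hχ => by_contra fun h => h (height_eq_zero hB hχ ?_), ?_⟩
    · rw [blockHeight_eq] at h; omega
    · obtain h | h : blockDefect 2 B ≤ 1 ∨ blockDefect 2 B = 2 := by omega
      · have := isCyclic_of_card_dvd_prime (p := 2) (α := D) (m4 ▸ pow_dvd_pow 2 h)
        infer_instance
      · exact ⟨⟨IsPGroup.commutative_of_card_eq_prime_sq (p := 2) (by rw [m4, h])⟩⟩
  left
  obtain ⟨w, κ, hκ, hR, hw, H1, H2⟩ := exists_weight (p := 2) hB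
  have m3 : (Nat.card (alternatingGroup α)).factorization 2 + 1 = vf 2 (Fintype.card α) := by
    rw [vf, ← card_alt, fact_mul two_ne_zero Nat.card_pos.ne', Nat.prime_two.factorization]
    simp [add_comm]
  obtain ⟨φ, hφ, e'⟩ := exists_nu_eq_minNu 2 (IsPBlock.nonempty hB)
  obtain ⟨z, -, e''⟩ := H1 φ hφ
  have w3 : 3 ≤ w := not_lt.1 fun h => by
    have : vf 2 (2 * w) ≤ 3 ∧ (w = 0 → vf 2 (2 * w) = 0) := by
      interval_cases w <;> simp [vf_eq (p := 2) 4, vf_eq (p := 2) 2, vf_of_lt (p := 2) two_pos,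
        vf_of_lt (p := 2) one_lt_two]
    omega
  obtain ⟨β, hβ, -⟩ := exists_rows hκ hR one_le_two ![w] (z := 0) (by simp)
  obtain ⟨θ, hθ, e⟩ := H2 β 0 (by simpa using hβ)
  have m1 : minNu 2 B + vf 2 (2 * w) = vf 2 (Fintype.card α) := by
    have := minNu_le (p := 2) hθ
    omega
  constructor
  · suffices ∃ β, Mem 2 κ β w 1 ∧ ∃ μ : Multiset ℕ, (∀ k ∈ μ, 2 ∣ k ∧ 2 ≤ k) ∧ μ.sum = 2 * w ∧
        Odd μ.card ∧ X κ μ β ≠ 0 by
      obtain ⟨β, hβ, μ, h1, h2, h3, h4⟩ := this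
      obtain ⟨x, -, rfl⟩ := exists_symOn (Finset.univ : Finset α) (μ := μ) (by simpa [h2])
        fun k hk => (h1 k hk).2
      obtain ⟨χ, hχ, e3 | ⟨-, -, e3⟩⟩ := H2 β 1 hβ
      · exact ⟨χ, hχ, by rw [blockHeight_eq]; omega⟩
      · refine (h4 (e3 x ?_ (fun k hk => (h1 k hk).1) (by rw [← Perm.sum_cycleType, h2]))).elim
        rw [Perm.mem_alternatingGroup, Perm.sign_of_cycleType, h2, pow_add, pow_mul, h3.neg_one_pow]
        simp
    have ho : ∀ β, Mem 2 κ β w 1 → w % 2 = 1 → ∃ μ : Multiset ℕ, (∀ k ∈ μ, 2 ∣ k ∧ 2 ≤ k) ∧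
        μ.sum = 2 * w ∧ Odd μ.card ∧ X κ μ β ≠ 0 := fun β hβ h =>
      ⟨Multiset.replicate w 2, fun k hk => by simp [Multiset.eq_of_mem_replicate hk],
        by simp [mul_comm], by simpa [Nat.odd_iff], hκ.X_ne_zero two_pos hβ.good hβ.dvd hβ.sum⟩
    by_cases h4 : w % 4 = 3
    · obtain ⟨u, rfl⟩ : ∃ u, w = 2 * (2 * u + 1) + 1 := ⟨w / 4, by omega⟩
      obtain ⟨β, hβ⟩ := exists_hook hκ hR (a := 2 * (2 * u + 1)) (by omega)
      rw [fact_mul two_ne_zero (by omega), Nat.prime_two.factorization_self,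
        Nat.factorization_eq_zero_of_not_dvd (by omega)] at hβ
      exact ⟨β, hβ, ho β hβ (by omega)⟩
    · obtain ⟨a, b, rfl, e3⟩ := exists_two (by omega) h4
      obtain ⟨β, hβ, h5⟩ := exists_rows hκ hR le_rfl ![a, b] (z := 1) (by simpa using e3)
      simp only [Fin.sum_univ_two, Matrix.cons_val_zero, Matrix.cons_val_one] at hβ h5
      refine ⟨β, hβ, (em ((a + b) % 2 = 1)).elim (ho β hβ) fun h6 =>
        ⟨(2 * 2) ::ₘ Multiset.replicate (a + b - 2) 2, fun k hk => ?_, by simp; omega,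
          by simp [Nat.odd_iff]; omega, ?_⟩⟩
      · rcases Multiset.mem_cons.1 hk with rfl | hk
        · simp
        · simp [Multiset.eq_of_mem_replicate hk]
      · by_cases ha : 2 ≤ a
        · exact h5 0 _ 2 (by simpa) (by omega)
        · exact h5 1 _ 2 (by simp; omega) (by omega)
  · obtain ⟨y, hy, hS⟩ := isDefectGroup_iff.1 hD
    have hS' := (defect_struct (Subgroup.subtype _) Subtype.val_injective (by simp) hB hy hS).2
    rw [Subgroup.range_subtype] at hS'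
    refine irr_transfer (p := 2) (irr_degree_two hS' (not_lt.1 fun h => ?_))
    have h8 : 8 ∣ Nat.card ↥(symOn (mov (D.map (alternatingGroup α).subtype)) ⊓
        alternatingGroup α) := by
      refine dvd_trans ?_ (Subgroup.card_dvd_of_le hS'.le)
      rw [Subgroup.card_map_of_injective Subtype.val_injective, m4]
      exact pow_dvd_pow 2 (by omega : 3 ≤ _)
    have h9 := h8.trans (Subgroup.card_dvd_of_le inf_le_left)
    have h10 := @card_altOn _ _ _ (mov (D.map (alternatingGroup α).subtype))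
    rw [card_symOn] at h9
    generalize Nat.card ↥(symOn (mov (D.map (alternatingGroup α).subtype)) ⊓
      alternatingGroup α) = c at h8 h10
    generalize (mov (D.map (alternatingGroup α).subtype)).card = m at h h9 h10
    interval_cases m <;> simp [Nat.factorial] at h9 h10 <;> omega

end Cfsg.Agent.H5.Sym
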